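import Cfsg.Prelude
import Cfsg.Agent.H65.BQuot
import Cfsg.Agent.S3909

set_option autoImplicit false
open Cfsg

namespace Cfsg.Agent.H65

open Subgroup
open scoped Pointwise

theorem BP.of_mulEquiv {G H : Type*} [Group G] [Group H] (e : G ≃* H) (hB : BP G) : BP H := by
  intro A B hA hBc hcard
  obtain ⟨g, hg⟩ := hB (A.map e.symm.toMonoidHom) (B.map e.symm.toMonoidHom) inferInstance
    inferInstance (by
      rw [Subgroup.card_map_of_injective e.symm.injective,
        Subgroup.card_map_of_injective e.symm.injective, hcard])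
  refine ⟨e g, ?_⟩
  have h1 : (B.map e.symm.toMonoidHom).map e.toMonoidHom = B := by
    rw [Subgroup.map_map]
    convert Subgroup.map_id B
    ext x
    simp
  rw [← h1, hg]
  ext x
  constructor
  · rintro ⟨_, ⟨_, ⟨a, ha, rfl⟩, rfl⟩, rfl⟩
    exact ⟨a, ha, by simp⟩
  · rintro ⟨a, ha, rfl⟩
    exact ⟨_, ⟨_, ⟨a, ha, rfl⟩, rfl⟩, by simp⟩

theorem exists_min_normal_le {G : Type*} [Group G] [Finite G] (M : Subgroup G) (hM : M.Normal)
    (hne : M ≠ ⊥) : ∃ N : Subgroup G, N.Normal ∧ N ≤ M ∧ N ≠ ⊥ ∧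
      ∀ K : Subgroup G, K.Normal → K ≤ N → K = ⊥ ∨ K = N := by
  have hex : ({N : Subgroup G | N.Normal ∧ N ≤ M ∧ N ≠ ⊥}).Nonempty := ⟨M, hM, le_rfl, hne⟩
  obtain ⟨N, ⟨h1, h2, h3⟩, h4⟩ := (Set.toFinite {N : Subgroup G | N.Normal ∧ N ≤ M ∧ N ≠ ⊥}).exists_minimal hex
  refine ⟨N, h1, h2, h3, fun K hK hKN => ?_⟩
  by_cases hK1 : K = ⊥
  · exact Or.inl hK1
  · exact Or.inr (le_antisymm hKN (h4 ⟨hK, hKN.trans h2, hK1⟩ hKN))

/-- key lemma: product of two elements of order 4 -/
theorem BP.pow_four {G : Type*} [Group G] [Finite G] (hB : BP G) (hsol : Group.IsSolvable G)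
    (Z : Subgroup G) [hZn : Z.Normal] (hZ : Nat.card Z = 2) {u v : G} (hu : orderOf u = 4)
    (hv : orderOf v = 4) (k : ℕ) (hk : (u * v) ^ 2 ^ k = 1) : (u * v) ^ 4 = 1 := by
  classical
  -- a maximal normal subgroup of odd order
  obtain ⟨L, hLn, hLo, hLmax⟩ : ∃ L : Subgroup G, L.Normal ∧ Odd (Nat.card L) ∧
      ∀ K : Subgroup G, K.Normal → Odd (Nat.card K) → L ≤ K → K = L := by
    have hex : ({L : Subgroup G | L.Normal ∧ Odd (Nat.card L)}).Nonempty :=
      ⟨⊥, inferInstance, by rw [Subgroup.card_bot]; decide⟩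
    obtain ⟨L, ⟨h1, h2⟩, h3⟩ := (Set.toFinite {L : Subgroup G | L.Normal ∧ Odd (Nat.card L)}).exists_maximal hex
    exact ⟨L, h1, h2, fun K hK hKo hle => le_antisymm (h3 ⟨hK, hKo⟩ hle) hle⟩
  have hB1 : BP (G ⧸ L) := hB.quotient_odd L hLo
  let f : G →* G ⧸ L := QuotientGroup.mk' L
  have hf : Function.Surjective f := QuotientGroup.mk'_surjective L
  -- orders of 2-elements
  have hord : ∀ (x : G) (m : ℕ), x ^ (2 ^ m) = 1 → ∀ j, f x ^ j = 1 → x ^ j = 1 := by
    intro x m hx j hj
    rw [← map_pow] at hj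
    have h1 : x ^ j ∈ L := (QuotientGroup.eq_one_iff _).mp hj
    have h2 : (x ^ j) ^ Nat.card L = 1 := by
      have : (⟨x ^ j, h1⟩ : L) ^ Nat.card L = 1 := pow_card_eq_one'
      exact congrArg Subtype.val this
    have h3 : (x ^ j) ^ (2 ^ m) = 1 := by rw [← pow_mul, mul_comm, pow_mul, hx, one_pow]
    have h4 : orderOf (x ^ j) ∣ Nat.gcd (2 ^ m) (Nat.card L) :=
      Nat.dvd_gcd (orderOf_dvd_of_pow_eq_one h3) (orderOf_dvd_of_pow_eq_one h2)
    have h5 : Nat.Coprime (2 ^ m) (Nat.card L) := (Nat.coprime_two_left.mpr hLo).pow_left m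
    rw [h5.gcd_eq_one, Nat.dvd_one, orderOf_eq_one_iff] at h4
    exact h4
  have hford : ∀ x : G, orderOf x = 4 → orderOf (f x) = 4 := by
    intro x hx
    apply Nat.dvd_antisymm
    · exact hx ▸ orderOf_map_dvd f x
    · rw [← hx]
      apply orderOf_dvd_of_pow_eq_one
      apply hord x 2
      · rw [show 2 ^ 2 = 4 by norm_num, ← hx, pow_orderOf_eq_one]
      · exact pow_orderOf_eq_one _
  -- the image of Z
  let Z1 : Subgroup (G ⧸ L) := Z.map f
  have hZ1n : Z1.Normal := hZn.map f hf
  have hZ1 : Nat.card Z1 = 2 := by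
    have h1 : Nat.card Z1 ∣ 2 := hZ ▸ Subgroup.card_map_dvd Z f
    rcases (Nat.dvd_prime Nat.prime_two).mp h1 with h2 | h2
    · exfalso
      have h3 : Z1 = ⊥ := Subgroup.card_eq_one.mp h2
      have h4 : Z ≤ L := by
        have := (Subgroup.map_eq_bot_iff Z).mp h3
        rwa [QuotientGroup.ker_mk'] at this
      have h5 := Subgroup.card_dvd_of_le h4
      rw [hZ] at h5
      exact (Nat.not_even_iff_odd.mpr hLo) (even_iff_two_dvd.mpr h5)
    · exact h2
  have hinv : ∀ x : G ⧸ L, x ^ 2 = 1 → x ∈ Z1 := by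
    intro x hx
    rcases eq_or_ne x 1 with rfl | hx1
    · exact one_mem _
    have hxo : orderOf x = 2 := orderOf_eq_prime hx hx1
    obtain ⟨z, hz⟩ := exists_prime_orderOf_dvd_card' (G := Z1) 2 (by rw [hZ1])
    exact hB1.mem_of_orderOf_eq Z1 z.2 (by rw [Subgroup.orderOf_coe, hz, hxo])
  -- minimal normal subgroup modulo Z1
  have hne : (⊤ : Subgroup ((G ⧸ L) ⧸ Z1)) ≠ ⊥ := by
    intro h
    have h1 : Z1 = ⊤ := by
      rw [eq_top_iff]
      intro x _
      have h2 : QuotientGroup.mk' Z1 x ∈ (⊥ : Subgroup ((G ⧸ L) ⧸ Z1)) := h ▸ mem_top _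
      rw [mem_bot] at h2
      exact (QuotientGroup.eq_one_iff _).mp h2
    have h2 : orderOf (f u) ∣ 2 := by
      have h3 : f u ∈ Z1 := h1 ▸ mem_top _
      have h4 : orderOf (⟨f u, h3⟩ : Z1) ∣ Nat.card Z1 := orderOf_dvd_natCard _
      rwa [Subgroup.orderOf_mk, hZ1] at h4
    rw [hford u hu] at h2
    exact absurd h2 (by decide)
  obtain ⟨E, hEn, -, hE1, hEmin⟩ := exists_min_normal_le (⊤ : Subgroup ((G ⧸ L) ⧸ Z1)) inferInstance hne
  have hEsol : Group.IsSolvable E := inferInstance
  obtain ⟨hEab, q, hq, hEq⟩ := Solv.minimal_normal_of_solvable E hEsol hE1 hEmin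
  let π : (G ⧸ L) →* (G ⧸ L) ⧸ Z1 := QuotientGroup.mk' Z1
  let N : Subgroup (G ⧸ L) := E.comap π
  have hNn : N.Normal := hEn.comap π
  have hNq : ∀ x ∈ N, x ^ q ∈ Z1 := by
    intro x hx
    have h1 := hEq (π x) hx
    rw [← map_pow] at h1
    exact (QuotientGroup.eq_one_iff _).mp h1
  have hZN : Z1 ≤ N := by
    intro x hx
    show π x ∈ E
    have : π x = 1 := (QuotientGroup.eq_one_iff _).mpr hx
    rw [this]; exact one_mem _
  have hN1 : ¬ N ≤ Z1 := by
    intro h
    apply hE1
    rw [eq_bot_iff]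
    intro y hy
    obtain ⟨x, rfl⟩ := QuotientGroup.mk'_surjective Z1 y
    have : x ∈ Z1 := h hy
    rw [mem_bot]
    exact (QuotientGroup.eq_one_iff _).mpr this
  have hq2 : q = 2 := by
    by_contra hq2
    have hqodd : Odd q := hq.odd_of_ne_two hq2
    haveI : Fact q.Prime := ⟨hq⟩
    obtain ⟨Y⟩ : Nonempty (Sylow q N) := inferInstance
    -- index of Y in N is 2
    have hEp : IsPGroup q E := by
      intro x
      exact ⟨1, by rw [pow_one]; exact Subtype.ext (hEq x x.2)⟩
    obtain ⟨m, hm⟩ := IsPGroup.iff_card.mp hEp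
    have hNcard : Nat.card N = 2 * q ^ m := by
      have h1 := H32.card_mul_relIndex hZN
      have h2 := Subgroup.relIndex_ker (K := N) π
      rw [QuotientGroup.ker_mk', Subgroup.map_comap_eq_self_of_surjective
        (QuotientGroup.mk'_surjective Z1), hm] at h2
      rw [← h1, hZ1, h2]
    have hidx : (Y : Subgroup N).index ∣ 2 := by
      have h1 : (Y : Subgroup N).index ∣ 2 * q ^ m := hNcard ▸ Subgroup.index_dvd_card _
      have h2 : Nat.Coprime ((Y : Subgroup N).index) (q ^ m) :=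
        ((Nat.Prime.coprime_iff_not_dvd hq).mpr Y.not_dvd_index).symm.pow_right m
      exact h2.dvd_of_dvd_mul_right h1
    have hYn : (Y : Subgroup N).Normal := by
      rcases (Nat.dvd_prime Nat.prime_two).mp hidx with h | h
      · rw [Subgroup.index_eq_one] at h
        rw [h]; infer_instance
      · exact Subgroup.normal_of_index_eq_two h
    have hYc : (Y : Subgroup N).Characteristic := Y.characteristic_of_normal hYn
    have hYn2 : ((Y : Subgroup N).map N.subtype).Normal := inferInstance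
    have hYodd : Odd (Nat.card ((Y : Subgroup N).map N.subtype)) := by
      rw [Subgroup.card_map_of_injective (Subgroup.subtype_injective _), Sylow.card_eq_multiplicity]
      exact hqodd.pow
    have h1 := hLmax (((Y : Subgroup N).map N.subtype).comap f) (hYn2.comap f) (by
        have h1 := H32.card_mul_relIndex (show L ≤ ((Y : Subgroup N).map N.subtype).comap f from by
          intro x hx
          have h0 : f x = 1 := (QuotientGroup.eq_one_iff _).mpr hx
          rw [mem_comap, h0]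
          exact one_mem _)
        have h2 := Subgroup.relIndex_ker (K := ((Y : Subgroup N).map N.subtype).comap f) f
        rw [QuotientGroup.ker_mk', Subgroup.map_comap_eq_self_of_surjective hf] at h2
        rw [← h1, h2]
        exact hLo.mul hYodd) (by
          intro x hx
          have h0 : f x = 1 := (QuotientGroup.eq_one_iff _).mpr hx
          rw [mem_comap, h0]
          exact one_mem _)
    have h2 : (Y : Subgroup N).map N.subtype = ⊥ := by
      rw [← Subgroup.map_comap_eq_self_of_surjective hf ((Y : Subgroup N).map N.subtype), h1,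
        Subgroup.map_eq_bot_iff, QuotientGroup.ker_mk']
    have h3 : Nat.card (Y : Subgroup N) = 1 := by
      rw [← Subgroup.card_map_of_injective (Subgroup.subtype_injective N), h2, Subgroup.card_bot]
    have h4 : Nat.card N ∣ 2 := by
      rw [← (Y : Subgroup N).card_mul_index, h3, one_mul]
      exact hidx
    apply hN1
    have h5 : Z1 = N := Subgroup.eq_of_le_of_card_ge hZN (by
      rw [hZ1]; exact Nat.le_of_dvd (by norm_num) h4)
    exact h5.ge
  subst hq2
  have hfour : ∀ x : G ⧸ L, orderOf x = 4 → x ∈ N := by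
    obtain ⟨y, hy, hy2⟩ : ∃ y ∈ N, y ∉ Z1 := by
      by_contra hcon
      push Not at hcon
      exact hN1 hcon
    have hyo : orderOf y = 4 := by
      have h2 := hNq y hy
      have h3 : (⟨_, h2⟩ : Z1) ^ Nat.card Z1 = 1 := pow_card_eq_one'
      rw [hZ1] at h3
      have h4 : (y ^ 2) ^ 2 = 1 := congrArg Subtype.val h3
      have h5 : orderOf y = 2 ^ (1 + 1) := orderOf_eq_prime_pow (p := 2)
        (fun h => hy2 (hinv y (by rwa [pow_one] at h))) (by
          rw [← pow_mul] at h4; exact h4)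
      exact h5
    intro x hx
    exact hB1.mem_of_orderOf_eq N hy (hyo.trans hx.symm)
  have h1 : f (u * v) ∈ N := by
    rw [map_mul]
    exact mul_mem (hfour _ (hford u hu)) (hfour _ (hford v hv))
  apply hord (u * v) k hk
  have h2 := hNq _ h1
  have h3 : (⟨_, h2⟩ : Z1) ^ Nat.card Z1 = 1 := pow_card_eq_one'
  rw [hZ1] at h3
  have h4 : (f (u * v) ^ 2) ^ 2 = 1 := congrArg Subtype.val h3
  rw [← pow_mul] at h4
  exact h4

theorem comm_of_card_two {G : Type*} [Group G] (Z : Subgroup G) [hZn : Z.Normal]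
    (hZ : Nat.card Z = 2) {z : G} (hz : z ∈ Z) (g : G) : g * z = z * g := by
  obtain ⟨⟨x, hx⟩, ⟨y, hy⟩, hxy, huniv⟩ := Nat.card_eq_two_iff.mp hZ
  have hall : ∀ w ∈ Z, w = x ∨ w = y := by
    intro w hw
    have : (⟨w, hw⟩ : Z) ∈ ({⟨x, hx⟩, ⟨y, hy⟩} : Set Z) := by rw [huniv]; trivial
    rcases this with h | h
    · exact Or.inl (congrArg Subtype.val h)
    · exact Or.inr (congrArg Subtype.val h)
  rcases eq_or_ne z 1 with rfl | hz1
  · rw [mul_one, one_mul]
  have h1 : g * z * g⁻¹ ∈ Z := hZn.conj_mem z hz g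
  have h2 : g * z * g⁻¹ ≠ 1 := by
    intro h
    apply hz1
    rw [mul_inv_eq_one] at h
    exact mul_eq_left.mp h
  have h3 := hall _ h1
  have h4 := hall _ hz
  have h5 := hall 1 (one_mem _)
  have h6 : g * z * g⁻¹ = z := by
    rcases h3 with h3 | h3 <;> rcases h4 with h4 | h4 <;> rcases h5 with h5 | h5
    · rw [h3, h4]
    · rw [h3, h4]
    · exact absurd (h3.trans h5.symm) h2
    · exact absurd (h4.trans h5.symm) hz1
    · exact absurd (h4.trans h5.symm) hz1
    · exact absurd (h3.trans h5.symm) h2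
    · rw [h3, h4]
    · rw [h3, h4]
  rw [mul_inv_eq_iff_eq_mul] at h6
  exact h6

theorem decomp_comap {G : Type*} [Group G] [Finite G] (Z : Subgroup G) [hZn : Z.Normal]
    (hZ : Nat.card Z = 2) (A : Subgroup (G ⧸ Z)) (hA : IsMulCommutative A) :
    ∃ K T : Subgroup G, IsMulCommutative K ∧ Odd (Nat.card K) ∧ IsPGroup 2 T ∧
      (∀ x ∈ K, ∀ y ∈ T, x * y = y * x) ∧ K ⊔ T = A.comap (QuotientGroup.mk' Z) ∧
      Nat.card K * Nat.card T = 2 * Nat.card A := by
  let W : Subgroup G := A.comap (QuotientGroup.mk' Z)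
  have hZW : Z ≤ W := by
    intro x hx
    have h0 : QuotientGroup.mk' Z x = 1 := (QuotientGroup.eq_one_iff _).mpr hx
    rw [mem_comap, h0]
    exact one_mem _
  have hWcard : Nat.card W = 2 * Nat.card A := by
    have h1 := H32.card_mul_relIndex hZW
    have h2 := Subgroup.relIndex_ker (K := W) (QuotientGroup.mk' Z)
    rw [QuotientGroup.ker_mk', Subgroup.map_comap_eq_self_of_surjective
      (QuotientGroup.mk'_surjective Z)] at h2
    rw [← h1, h2, hZ]
  have hcomm : ∀ x ∈ W, ∀ y ∈ W, x * y * x⁻¹ * y⁻¹ ∈ Z := by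
    intro x hx y hy
    have h3 := hA.is_comm.comm ⟨_, hx⟩ ⟨_, hy⟩
    have h4 : QuotientGroup.mk' Z x * QuotientGroup.mk' Z y =
      QuotientGroup.mk' Z y * QuotientGroup.mk' Z x := congrArg Subtype.val h3
    rw [← QuotientGroup.ker_mk' Z, MonoidHom.mem_ker, map_mul, map_mul, map_mul, map_inv, map_inv,
      h4]
    group
  have hnil : Group.IsNilpotent W := by
    have hAn : Group.IsNilpotent A := by
      letI : CommGroup A := { (inferInstance : Group A) with mul_comm := hA.is_comm.comm }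
      exact CommGroup.isNilpotent
    refine _root_.isNilpotent_of_ker_le_center ((QuotientGroup.mk' Z).subgroupComap A) ?_
    intro x hx
    rw [mem_center_iff]
    intro g
    have h1 : (x : G) ∈ Z := by
      rw [MonoidHom.mem_ker] at hx
      exact (QuotientGroup.eq_one_iff _).mp (congrArg Subtype.val hx)
    exact Subtype.ext (comm_of_card_two Z hZ h1 g)
  obtain ⟨T₀⟩ : Nonempty (Sylow 2 W) := inferInstance
  obtain ⟨K₀, hK₀⟩ := exists_right_complement'_of_coprime (N := (T₀ : Subgroup W))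
    (Sylow.card_coprime_index T₀)
  have hKodd : Odd (Nat.card K₀) := by
    rw [← hK₀.symm.index_eq_card]
    rw [← Nat.coprime_two_left]
    exact (Nat.Prime.coprime_iff_not_dvd Nat.prime_two).mpr T₀.not_dvd_index
  have hKK : Odd (Nat.card (K₀.map W.subtype)) := by
    rw [Subgroup.card_map_of_injective (Subgroup.subtype_injective _)]; exact hKodd
  refine ⟨K₀.map W.subtype, (T₀ : Subgroup W).map W.subtype, ?_, hKK, T₀.2.map _, ?_, ?_, ?_⟩
  · refine ⟨⟨?_⟩⟩
    rintro ⟨x, hx⟩ ⟨y, hy⟩
    apply Subtype.ext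
    show x * y = y * x
    have hxW : x ∈ W := Subgroup.map_subtype_le _ hx
    have hyW : y ∈ W := Subgroup.map_subtype_le _ hy
    have h1 := hcomm x hxW y hyW
    have h2 : x * y * x⁻¹ * y⁻¹ ∈ K₀.map W.subtype :=
      mul_mem (mul_mem (mul_mem hx hy) (inv_mem hx)) (inv_mem hy)
    have h3 : orderOf (⟨_, h1⟩ : Z) ∣ Nat.card Z := orderOf_dvd_natCard _
    have h4 : orderOf (⟨_, h2⟩ : K₀.map W.subtype) ∣ Nat.card (K₀.map W.subtype) :=
      orderOf_dvd_natCard _
    rw [Subgroup.orderOf_mk] at h3 h4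
    rw [hZ] at h3
    have h5 := Nat.dvd_gcd h3 h4
    rw [(Nat.coprime_two_left.mpr hKK).gcd_eq_one, Nat.dvd_one, orderOf_eq_one_iff] at h5
    rw [mul_inv_eq_one, mul_inv_eq_iff_eq_mul] at h5
    exact h5
  · rintro _ ⟨x, hx, rfl⟩ _ ⟨y, hy, rfl⟩
    obtain ⟨k, hk⟩ := T₀.2 ⟨y, hy⟩
    have hk' : y ^ 2 ^ k = 1 := congrArg Subtype.val hk
    have hxo : (orderOf x).Coprime 2 := by
      rw [Nat.coprime_two_right]
      have : orderOf (⟨x, hx⟩ : K₀) ∣ Nat.card K₀ := orderOf_dvd_natCard _
      rw [Subgroup.orderOf_mk] at this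
      exact Odd.of_dvd_nat hKodd this
    have h1 := Transfer.commute_of_isNilpotent hnil hk' hxo
    exact congrArg Subtype.val h1.eq.symm
  · rw [← Subgroup.map_sup, sup_comm, hK₀.sup_eq_top, ← MonoidHom.range_eq_map,
      Subgroup.range_subtype]
  · rw [Subgroup.card_map_of_injective (Subgroup.subtype_injective _),
      Subgroup.card_map_of_injective (Subgroup.subtype_injective _), mul_comm, hK₀.card_mul_card]
    exact hWcard

/-- nonabelian `2`-subgroups are Sylow -/
theorem BP.abelian_or_sylow {G : Type*} [Group G] [Finite G] (hB : BP G)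
    (hsol : Group.IsSolvable G) (Z : Subgroup G) [hZn : Z.Normal] (hZ : Nat.card Z = 2)
    (T : Subgroup G) (hT : IsPGroup 2 T) :
    IsMulCommutative T ∨ ∀ T' : Subgroup G, IsPGroup 2 T' → Nat.card T' = Nat.card T →
      ∃ S : Sylow 2 G, (S : Subgroup G) = T' := by
  obtain ⟨S, hS⟩ := hT.exists_le_sylow
  rcases hB.sylow_cases S with h | ⟨-, n, ⟨e⟩⟩ | h
  · left
    refine ⟨⟨fun a b => ?_⟩⟩
    have h1 := (IsCyclic.isMulCommutative (α := S)).is_comm.comm ⟨a, hS a.2⟩ ⟨b, hS b.2⟩
    have h2 : (a : G) * b = b * a := congrArg Subtype.val h1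
    exact Subtype.ext h2
  · -- quaternion
    have hSc : Nat.card S = 4 * 2 ^ n := by
      have := Nat.card_congr e.toEquiv
      rw [Nat.card_eq_fintype_card (α := QuaternionGroup (2 ^ n)), QuaternionGroup.card] at this
      exact this
    have hn : n ≤ 1 := by
      have hnz : NeZero (2 ^ n) := ⟨by positivity⟩
      let u : S := e.symm (QuaternionGroup.xa 0)
      let v : S := e.symm (QuaternionGroup.xa (1 - (2 ^ n : ℕ)))
      have huv : u * v = e.symm (QuaternionGroup.a 1) := by
        rw [← map_mul, QuaternionGroup.xa_mul_xa]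
        congr 2
        ring
      have hu : orderOf (u : G) = 4 := by
        rw [Subgroup.orderOf_coe, MulEquiv.orderOf_eq, QuaternionGroup.orderOf_xa]
      have hv : orderOf (v : G) = 4 := by
        rw [Subgroup.orderOf_coe, MulEquiv.orderOf_eq, QuaternionGroup.orderOf_xa]
      have huvo : orderOf ((u : G) * v) = 2 ^ (n + 1) := by
        rw [← Subgroup.coe_mul, huv, Subgroup.orderOf_coe, MulEquiv.orderOf_eq,
          QuaternionGroup.orderOf_a_one, pow_succ, mul_comm]
      have h1 := hB.pow_four hsol Z hZ hu hv (n + 1) (by rw [← huvo, pow_orderOf_eq_one])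
      have h2 := orderOf_dvd_of_pow_eq_one h1
      rw [huvo, show (4 : ℕ) = 2 ^ 2 by norm_num] at h2
      have := (Nat.pow_dvd_pow_iff_le_right (by norm_num : 1 < 2)).mp h2
      omega
    by_cases hc : Nat.card T = Nat.card S
    · right
      intro T' hT' hT'c
      obtain ⟨S', hS'⟩ := hT'.exists_le_sylow
      refine ⟨S', ?_⟩
      symm
      apply Subgroup.eq_of_le_of_card_ge hS'
      rw [hT'c, hc]
      exact le_of_eq (Nat.card_congr (Sylow.equiv S' S).toEquiv)
    · left
      have h1 : Nat.card T ∣ Nat.card S := Subgroup.card_dvd_of_le hS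
      obtain ⟨k, hk⟩ := IsPGroup.iff_card.mp hT
      have h2 : Nat.card S ∣ 2 ^ 3 := by
        rw [hSc, show 4 * 2 ^ n = 2 ^ (n + 2) by ring]
        exact pow_dvd_pow 2 (by omega)
      have hk3 : k < 3 := by
        have h3 : 2 ^ k ∣ 2 ^ 3 := hk ▸ h1.trans h2
        have h4 := (Nat.pow_dvd_pow_iff_le_right (by norm_num : 1 < 2)).mp h3
        rcases Nat.lt_or_ge k 3 with h | h
        · exact h
        · exfalso
          obtain rfl : k = 3 := le_antisymm h4 h
          apply hc
          apply Nat.dvd_antisymm h1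
          rw [hk]; exact h2
      have : k = 0 ∨ k = 1 ∨ k = 2 := by omega
      rcases this with rfl | rfl | rfl
      · rw [pow_zero] at hk
        have : Subsingleton T := (Nat.card_eq_one_iff_unique.mp hk).1
        exact ⟨⟨fun a b => Subsingleton.elim _ _⟩⟩
      · rw [pow_one] at hk
        have : IsCyclic T := isCyclic_of_prime_card hk
        exact IsCyclic.isMulCommutative
      · exact IsPGroup.isMulCommutative_of_card_eq_prime_sq hk
  · left
    have hexp : ∀ x ∈ T, x ^ 2 = 1 := by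
      intro x hx
      obtain ⟨k, hk⟩ := IsPGroup.iff_orderOf.mp hT ⟨x, hx⟩
      rw [Subgroup.orderOf_mk] at hk
      exact h x k hk
    refine ⟨⟨?_⟩⟩
    rintro ⟨a, ha⟩ ⟨b, hb⟩
    apply Subtype.ext
    show a * b = b * a
    have h1 := hexp a ha
    have h2 := hexp b hb
    have h3 := hexp (a * b) (mul_mem ha hb)
    rw [sq] at h1 h2 h3
    have : (a * b)⁻¹ = a * b := inv_eq_of_mul_eq_one_left h3
    rw [mul_inv_rev, inv_eq_of_mul_eq_one_left h1, inv_eq_of_mul_eq_one_left h2] at this
    exact this.symm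

theorem isMulCommutative_sup {G : Type*} [Group G] {K T : Subgroup G} (hK : IsMulCommutative K)
    (hT : IsMulCommutative T) (h : ∀ x ∈ K, ∀ y ∈ T, x * y = y * x) :
    IsMulCommutative (K ⊔ T : Subgroup G) := by
  have h1 : K ⊔ T ≤ centralizer ((K ⊔ T : Subgroup G) : Set G) := by
    have hKK : K ≤ centralizer (K : Set G) := fun x hx => mem_centralizer_iff.mpr fun y hy =>
      congrArg Subtype.val (hK.is_comm.comm ⟨y, hy⟩ ⟨x, hx⟩)
    have hTT : T ≤ centralizer (T : Set G) := fun x hx => mem_centralizer_iff.mpr fun y hy =>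
      congrArg Subtype.val (hT.is_comm.comm ⟨y, hy⟩ ⟨x, hx⟩)
    have hKT : K ≤ centralizer (T : Set G) := fun x hx => mem_centralizer_iff.mpr fun y hy =>
      (h x hx y hy).symm
    have hTK : T ≤ centralizer (K : Set G) := fun x hx => mem_centralizer_iff.mpr fun y hy =>
      (h y hy x hx)
    rw [le_centralizer_iff]
    refine sup_le ?_ ?_
    · rw [le_centralizer_iff]; exact sup_le hKK hTK
    · rw [le_centralizer_iff]; exact sup_le hKT hTT
  exact ⟨⟨fun a b => Subtype.ext (mem_centralizer_iff.mp (h1 b.2) a a.2)⟩⟩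

theorem BP.conj_sup_sylow {G : Type*} [Group G] [Finite G] (hB : BP G) {K K' : Subgroup G}
    (hK : IsMulCommutative K) (hK' : IsMulCommutative K') (hc : Nat.card K = Nat.card K')
    {p : ℕ} [Fact p.Prime] (S S' : Sylow p G) (h : ∀ x ∈ K, ∀ y ∈ (S : Subgroup G), x * y = y * x)
    (h' : ∀ x ∈ K', ∀ y ∈ (S' : Subgroup G), x * y = y * x) :
    ∃ g : G, K' ⊔ (S' : Subgroup G) = (K ⊔ (S : Subgroup G)).map (MulAut.conj g).toMonoidHom := by
  obtain ⟨g, hg⟩ := hB K K' hK hK' hc
  have hS'C : (S' : Subgroup G) ≤ centralizer (K' : Set G) := fun y hy =>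
    mem_centralizer_iff.mpr fun x hx => h' x hx y hy
  have hS1C : ((g • S : Sylow p G) : Subgroup G) ≤ centralizer (K' : Set G) := by
    intro y hy
    rw [mem_centralizer_iff]
    intro x hx
    rw [hg] at hx
    obtain ⟨x', hx', rfl⟩ := hx
    rw [Sylow.coe_subgroup_smul, Subgroup.mem_pointwise_smul_iff_inv_smul_mem, ← map_inv,
      MulAut.smul_def, MulAut.conj_apply, inv_inv] at hy
    have h1 := h x' hx' _ hy
    show (g * x' * g⁻¹) * y = y * (g * x' * g⁻¹)
    calc (g * x' * g⁻¹) * y = g * (x' * (g⁻¹ * y * g)) * g⁻¹ := by group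
      _ = g * ((g⁻¹ * y * g) * x') * g⁻¹ := by rw [h1]
      _ = _ := by group
  obtain ⟨c, hc2⟩ := MulAction.exists_smul_eq (centralizer (K' : Set G))
    ((g • S : Sylow p G).subtype hS1C) (S'.subtype hS'C)
  have hS'eq : (S' : Subgroup G) = ((g • S : Sylow p G) : Subgroup G).map
      (MulAut.conj (c : G)).toMonoidHom := by
    apply Subgroup.eq_of_le_of_card_ge
    · intro y hy
      have h1 : (⟨y, hS'C hy⟩ : centralizer (K' : Set G)) ∈ (S'.subtype hS'C : Subgroup _) := by
        rw [Sylow.coe_subtype, mem_subgroupOf]; exact hy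
      rw [← hc2, Sylow.coe_subgroup_smul, Subgroup.mem_pointwise_smul_iff_inv_smul_mem, ← map_inv,
        MulAut.smul_def, MulAut.conj_apply, inv_inv, Sylow.coe_subtype, mem_subgroupOf] at h1
      refine ⟨_, h1, ?_⟩
      show (c : G) * ((c : G)⁻¹ * y * (c : G)) * (c : G)⁻¹ = y
      group
    · rw [Subgroup.card_map_of_injective (MulAut.conj (c : G)).injective]
      exact le_of_eq (Nat.card_congr (Sylow.equiv _ _).toEquiv)
  have hK'eq : K' = K'.map (MulAut.conj (c : G)).toMonoidHom := by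
    have h1 : ∀ x ∈ K', (c : G) * x * (c : G)⁻¹ = x := by
      intro x hx
      have := mem_centralizer_iff.mp c.2 x hx
      rw [← this]; group
    ext x
    constructor
    · intro hx
      exact ⟨x, hx, h1 x hx⟩
    · rintro ⟨y, hy, rfl⟩
      have : (MulAut.conj (c : G)).toMonoidHom y = y := h1 y hy
      rw [this]; exact hy
  obtain ⟨c₀, hc₀⟩ : ∃ c₀ : G, (c : G) = c₀ := ⟨_, rfl⟩
  rw [hc₀] at hS'eq hK'eq
  clear hc₀ hc2 c hS1C hS'C h h'
  refine ⟨c₀ * g, ?_⟩
  rw [Subgroup.map_sup]
  congr 1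
  · rw [hg, Subgroup.map_map] at hK'eq
    rw [hg, hK'eq]
    congr 1
    ext x
    simp
  · rw [hS'eq]
    ext x
    constructor
    · rintro ⟨y, hy, rfl⟩
      have hy' : y ∈ ((g • S : Sylow p G) : Subgroup G) := hy
      rw [Sylow.coe_subgroup_smul, Subgroup.mem_pointwise_smul_iff_inv_smul_mem, ← map_inv,
        MulAut.smul_def, MulAut.conj_apply, inv_inv] at hy'
      refine ⟨_, hy', ?_⟩
      show (c₀ * g) * (g⁻¹ * y * g) * (c₀ * g)⁻¹ = c₀ * y * c₀⁻¹
      group
    · rintro ⟨y, hy, rfl⟩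
      refine ⟨g * y * g⁻¹, ?_, ?_⟩
      · show g * y * g⁻¹ ∈ ((g • S : Sylow p G) : Subgroup G)
        rw [Sylow.coe_subgroup_smul, Subgroup.mem_pointwise_smul_iff_inv_smul_mem, ← map_inv,
          MulAut.smul_def, MulAut.conj_apply, inv_inv]
        have : g⁻¹ * (g * y * g⁻¹) * g = y := by group
        rw [this]; exact hy
      · show c₀ * (g * y * g⁻¹) * c₀⁻¹ = (c₀ * g) * y * (c₀ * g)⁻¹
        group

/-- quotient by a normal subgroup of order two -/
theorem BP.quotient_two {G : Type*} [Group G] [Finite G] (hB : BP G)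
    (hsol : Group.IsSolvable G) (Z : Subgroup G) [hZn : Z.Normal] (hZ : Nat.card Z = 2) :
    BP (G ⧸ Z) := by
  intro A B hA hBc hcard
  obtain ⟨K, T, hK, hKo, hT, hKT, hKTA, hc1⟩ := decomp_comap Z hZ A hA
  obtain ⟨K', T', hK', hKo', hT', hKT', hKTB, hc2⟩ := decomp_comap Z hZ B hBc
  have hprod : Nat.card K * Nat.card T = Nat.card K' * Nat.card T' := by rw [hc1, hc2, hcard]
  obtain ⟨i, hi⟩ := IsPGroup.iff_card.mp hT
  obtain ⟨j, hj⟩ := IsPGroup.iff_card.mp hT'
  have hKK' : Nat.card K = Nat.card K' := by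
    apply Nat.dvd_antisymm
    · have h1 : Nat.card K ∣ Nat.card K' * 2 ^ j := by
        rw [← hj, ← hprod]; exact dvd_mul_right _ _
      exact (((Nat.coprime_two_left.mpr hKo).pow_left j).symm).dvd_of_dvd_mul_right h1
    · have h1 : Nat.card K' ∣ Nat.card K * 2 ^ i := by
        rw [← hi, hprod]; exact dvd_mul_right _ _
      exact (((Nat.coprime_two_left.mpr hKo').pow_left i).symm).dvd_of_dvd_mul_right h1
  have hTT' : Nat.card T = Nat.card T' := by
    rw [hKK'] at hprod
    exact Nat.eq_of_mul_eq_mul_left Nat.card_pos hprod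
  -- enough to conjugate the preimages
  have main : ∃ g : G, K' ⊔ T' = (K ⊔ T).map (MulAut.conj g).toMonoidHom := by
    rcases hB.abelian_or_sylow hsol Z hZ T hT with hTa | hTS
    · rcases hB.abelian_or_sylow hsol Z hZ T' hT' with hTb | hTS'
      · apply hB _ _ (isMulCommutative_sup hK hTa hKT) (isMulCommutative_sup hK' hTb hKT')
        rw [hKTA, hKTB]
        have h1 := H32.card_mul_relIndex (show Z ≤ A.comap (QuotientGroup.mk' Z) from by
          intro x hx
          have h0 : QuotientGroup.mk' Z x = 1 := (QuotientGroup.eq_one_iff _).mpr hx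
          rw [mem_comap, h0]
          exact one_mem _)
        have h2 := H32.card_mul_relIndex (show Z ≤ B.comap (QuotientGroup.mk' Z) from by
          intro x hx
          have h0 : QuotientGroup.mk' Z x = 1 := (QuotientGroup.eq_one_iff _).mpr hx
          rw [mem_comap, h0]
          exact one_mem _)
        have h3 := Subgroup.relIndex_ker (K := A.comap (QuotientGroup.mk' Z)) (QuotientGroup.mk' Z)
        have h4 := Subgroup.relIndex_ker (K := B.comap (QuotientGroup.mk' Z)) (QuotientGroup.mk' Z)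
        rw [QuotientGroup.ker_mk', Subgroup.map_comap_eq_self_of_surjective
          (QuotientGroup.mk'_surjective Z)] at h3 h4
        rw [← h1, ← h2, h3, h4, hcard]
      · obtain ⟨S', hS'⟩ := hTS' T' hT' rfl
        obtain ⟨S, hS⟩ := hTS' T hT hTT'
        rw [← hS, ← hS']
        exact hB.conj_sup_sylow hK hK' hKK' S S' (by rw [hS]; exact hKT) (by rw [hS']; exact hKT')
    · obtain ⟨S', hS'⟩ := hTS T' hT' hTT'.symm
      obtain ⟨S, hS⟩ := hTS T hT rfl
      rw [← hS, ← hS']
      exact hB.conj_sup_sylow hK hK' hKK' S S' (by rw [hS]; exact hKT) (by rw [hS']; exact hKT')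
  obtain ⟨g, hg⟩ := main
  refine ⟨QuotientGroup.mk' Z g, ?_⟩
  have h1 : A = (K ⊔ T).map (QuotientGroup.mk' Z) := by
    rw [hKTA, Subgroup.map_comap_eq_self_of_surjective (QuotientGroup.mk'_surjective Z)]
  have h2 : B = (K' ⊔ T').map (QuotientGroup.mk' Z) := by
    rw [hKTB, Subgroup.map_comap_eq_self_of_surjective (QuotientGroup.mk'_surjective Z)]
  rw [h1, h2, hg, Subgroup.map_map, Subgroup.map_map]
  congr 1

theorem BP.quotient_coprime {G : Type*} [Group G] [Finite G] (hB : BP G) (M : Subgroup G)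
    [hMn : M.Normal] (hM : Nat.Coprime (Nat.card M) M.index) : BP (G ⧸ M) := by
  have hlift : ∀ A : Subgroup (G ⧸ M), IsMulCommutative A → ∃ A₀ : Subgroup G,
      IsMulCommutative A₀ ∧ A₀.map (QuotientGroup.mk' M) = A ∧ Nat.card A₀ = Nat.card A := by
    intro A hA
    let W : Subgroup G := A.comap (QuotientGroup.mk' M)
    have hMW : M ≤ W := by
      intro x hx
      have h0 : QuotientGroup.mk' M x = 1 := (QuotientGroup.eq_one_iff _).mpr hx
      rw [mem_comap, h0]
      exact one_mem _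
    have hMc : Nat.card (M.subgroupOf W) = Nat.card M := by
      rw [← Subgroup.card_map_of_injective (Subgroup.subtype_injective W),
        Subgroup.subgroupOf_map_subtype, inf_eq_left.mpr hMW]
    have hMi : (M.subgroupOf W).index = Nat.card A := by
      have h2 := Subgroup.relIndex_ker (K := W) (QuotientGroup.mk' M)
      rw [QuotientGroup.ker_mk', Subgroup.map_comap_eq_self_of_surjective
        (QuotientGroup.mk'_surjective M)] at h2
      exact h2
    obtain ⟨C, hC⟩ := exists_right_complement'_of_coprime (N := M.subgroupOf W) (by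
      rw [hMc, hMi]
      refine Nat.Coprime.coprime_dvd_right ?_ hM
      rw [Subgroup.index_eq_card]
      exact Subgroup.card_subgroup_dvd_card A)
    have hdisj : ∀ x ∈ C.map W.subtype, x ∈ M → x = 1 := by
      rintro _ ⟨x, hx, rfl⟩ hxM
      have h1 : x ∈ M.subgroupOf W ⊓ C := ⟨hxM, hx⟩
      rw [hC.disjoint.eq_bot, mem_bot] at h1
      rw [h1]; rfl
    refine ⟨C.map W.subtype, ⟨⟨?_⟩⟩, ?_, ?_⟩
    · rintro ⟨x, hx⟩ ⟨y, hy⟩
      apply Subtype.ext
      show x * y = y * x
      have h1 : x * y * x⁻¹ * y⁻¹ ∈ C.map W.subtype :=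
        mul_mem (mul_mem (mul_mem hx hy) (inv_mem hx)) (inv_mem hy)
      have hxA : QuotientGroup.mk' M x ∈ A := (Subgroup.map_subtype_le C) hx
      have hyA : QuotientGroup.mk' M y ∈ A := (Subgroup.map_subtype_le C) hy
      have h3 := hA.is_comm.comm ⟨_, hxA⟩ ⟨_, hyA⟩
      have h4 : QuotientGroup.mk' M x * QuotientGroup.mk' M y =
        QuotientGroup.mk' M y * QuotientGroup.mk' M x := congrArg Subtype.val h3
      have h5 : x * y * x⁻¹ * y⁻¹ ∈ M := by
        rw [← QuotientGroup.ker_mk' M, MonoidHom.mem_ker, map_mul, map_mul, map_mul, map_inv,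
          map_inv, h4]
        group
      have h6 := hdisj _ h1 h5
      rw [mul_inv_eq_one, mul_inv_eq_iff_eq_mul] at h6
      exact h6
    · have h1 : W.map (QuotientGroup.mk' M) = A :=
        Subgroup.map_comap_eq_self_of_surjective (QuotientGroup.mk'_surjective M) A
      have h2 : W = M ⊔ C.map W.subtype := by
        have h3 := hC.sup_eq_top
        have h4 : (M.subgroupOf W ⊔ C).map W.subtype = W := by
          rw [h3, ← MonoidHom.range_eq_map, Subgroup.range_subtype]
        rw [Subgroup.map_sup, Subgroup.subgroupOf_map_subtype, inf_eq_left.mpr hMW] at h4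
        exact h4.symm
      rw [← h1]
      conv_rhs => rw [h2, Subgroup.map_sup]
      have h3 : M.map (QuotientGroup.mk' M) = ⊥ := by
        rw [Subgroup.map_eq_bot_iff, QuotientGroup.ker_mk']
      rw [h3, bot_sup_eq]
    · rw [Subgroup.card_map_of_injective (Subgroup.subtype_injective _), ← hMi,
        hC.symm.index_eq_card]
  intro A B hA hBc hcard
  obtain ⟨A₀, a1, a2, a3⟩ := hlift A hA
  obtain ⟨B₀, b1, b2, b3⟩ := hlift B hBc
  obtain ⟨g, hg⟩ := hB A₀ B₀ a1 b1 (by rw [a3, b3, hcard])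
  refine ⟨QuotientGroup.mk' M g, ?_⟩
  rw [← a2, ← b2, hg, Subgroup.map_map, Subgroup.map_map]
  congr 1

theorem BP.quotient_minNormal {G : Type*} [Group G] [Finite G] (hB : BP G)
    (hsol : Group.IsSolvable G) (N : Subgroup G) [hN : N.Normal] (hN1 : N ≠ ⊥)
    (hmin : ∀ K : Subgroup G, K.Normal → K ≤ N → K = ⊥ ∨ K = N) : BP (G ⧸ N) := by
  have hNsol : Group.IsSolvable N := inferInstance
  obtain ⟨hNab, p, hp, hNp⟩ := Solv.minimal_normal_of_solvable N hNsol hN1 hmin
  haveI : Fact p.Prime := ⟨hp⟩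
  have hNpg : IsPGroup p N := fun x => ⟨1, by rw [pow_one]; exact Subtype.ext (hNp x x.2)⟩
  obtain ⟨t, ht⟩ := IsPGroup.iff_card.mp hNpg
  rcases hp.eq_two_or_odd' with rfl | hodd
  · have ht0 : t ≠ 0 := by
      rintro rfl
      rw [pow_zero] at ht
      exact hN1 (Subgroup.card_eq_one.mp ht)
    rcases Nat.lt_or_ge t 2 with h | h
    · obtain rfl : t = 1 := by omega
      exact hB.quotient_two hsol N ht
    · obtain ⟨P⟩ : Nonempty (Sylow 2 G) := inferInstance
      have h1 := (S3909.result hB N).2 2 t h ht ⟨hNab, hNp⟩ P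
      apply hB.quotient_coprime
      rw [← h1]
      exact Sylow.card_coprime_index P
  · exact hB.quotient_odd N (by rw [ht]; exact hodd.pow)

universe u

theorem BP.quotient_solvable {G : Type u} [Group G] [Finite G] (hB : BP G)
    (hsol : Group.IsSolvable G) (M : Subgroup G) [hMn : M.Normal] : BP (G ⧸ M) := by
  suffices h : ∀ n : ℕ, ∀ (G : Type u) [Group G] [Finite G], Nat.card G ≤ n → BP G →
      Group.IsSolvable G → ∀ (M : Subgroup G) [M.Normal], BP (G ⧸ M) from
    h (Nat.card G) G le_rfl hB hsol M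
  clear hB hsol M hMn
  intro n
  induction n with
  | zero =>
    intro G _ _ hn
    have : 0 < Nat.card G := Nat.card_pos
    omega
  | succ n ih =>
    intro G _ _ hn hB hsol M hMn
    by_cases hM : M = ⊥
    · subst hM
      exact BP.of_mulEquiv (QuotientGroup.quotientBot (G := G)).symm hB
    · obtain ⟨N, hNn, hNM, hN1, hNmin⟩ := exists_min_normal_le M hMn hM
      have h1 := hB.quotient_minNormal hsol N hN1 hNmin
      have h2 : Nat.card (G ⧸ N) ≤ n := by
        have h3 := N.card_mul_index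
        rw [Subgroup.index_eq_card] at h3
        have h4 : 1 < Nat.card N := by
          rw [Subgroup.one_lt_card_iff_ne_bot]; exact hN1
        have h5 : 0 < Nat.card (G ⧸ N) := Nat.card_pos
        have h6 : Nat.card (G ⧸ N) < Nat.card G := by
          rw [← h3]
          exact lt_mul_of_one_lt_left h5 h4
        omega
      have h3 : (M.map (QuotientGroup.mk' N)).Normal :=
        hMn.map _ (QuotientGroup.mk'_surjective N)
      have h4 := ih (G ⧸ N) h2 h1 inferInstance (M.map (QuotientGroup.mk' N))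
      exact BP.of_mulEquiv (QuotientGroup.quotientQuotientEquivQuotient N M hNM) h4

end Cfsg.Agent.H65
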