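import Cfsg.Agent.H65.AW5a
import Cfsg.Agent.Star.AWDef
import Cfsg.Agent.S0033

set_option autoImplicit false

/-! S4415, piece 5 (helper65): in dimension 4 the centraliser of `b` in `N` is `± 1` and `N` is a 2-group. -/

namespace Cfsg.Agent.H65.AW5
open Cfsg.Agent.Star.AW

universe u v
variable {G : Type u} [Group G] [Finite G] {W : Type v} [AddCommGroup W] [Module (ZMod 3) W]
  [Finite W] {σ : Representation (ZMod 3) G W} {N : Subgroup G} {b x y : G}

omit [Finite G] [Finite W] in
theorem smul_mul (g h : G) (w : W) : σ (g * h) w = σ g (σ h w) := by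
  rw [map_mul]; rfl

omit [Finite G] [Finite W] in
/-- the weight basis -/
theorem exists_basis [Module.Finite (ZMod 3) W] (h : QB σ b x y) (h4 : Module.finrank (ZMod 3) W = 4)
    (hw : ∃ v : W, v ≠ 0 ∧ σ x v = v ∧ σ y v = -v ∧
      (∀ w, σ x w = w → σ y w = -w → ∃ c : ZMod 3, w = c • v) ∧
      (∀ w, σ x w = w → σ y w = w → σ b w = w))
    (hfd : Module.finrank (ZMod 3) ((LinearMap.ker (σ x - 1) ⊓ LinearMap.ker (σ y - 1) :
      Submodule (ZMod 3) W)) + 3 = Module.finrank (ZMod 3) W) :
    ∃ B : Module.Basis (Fin 4) (ZMod 3) W, σ b (B 0) = B 1 ∧ σ b (B 1) = B 2 ∧ σ b (B 2) = B 0 ∧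
      σ b (B 3) = B 3 := by
  obtain ⟨v, hv0, hxv, hyv, -, hfixb⟩ := hw
  -- the fixed vector `u`
  obtain ⟨u, hu, hu0⟩ : ∃ u ∈ (LinearMap.ker (σ x - 1) ⊓ LinearMap.ker (σ y - 1) : Submodule (ZMod 3) W),
      u ≠ 0 := by
    have h1 : Module.finrank (ZMod 3) ((LinearMap.ker (σ x - 1) ⊓ LinearMap.ker (σ y - 1) :
      Submodule (ZMod 3) W)) ≠ 0 := by omega
    have h2 : (LinearMap.ker (σ x - 1) ⊓ LinearMap.ker (σ y - 1) : Submodule (ZMod 3) W) ≠ ⊥ := by
      intro hb
      apply h1
      rw [hb]; exact finrank_bot _ _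
    exact Submodule.exists_mem_ne_zero_of_ne_bot h2
  have hxu : σ x u = u := by
    have := hu.1
    rw [SetLike.mem_coe, LinearMap.mem_ker, LinearMap.sub_apply, sub_eq_zero] at this
    exact this
  have hyu : σ y u = u := by
    have := hu.2
    rw [SetLike.mem_coe, LinearMap.mem_ker, LinearMap.sub_apply, sub_eq_zero] at this
    exact this
  have hbu : σ b u = u := hfixb u hxu hyu
  -- relations
  have r1 : x * b = b * (x * y) := by
    have h1 : b * (x * y) * b⁻¹ = x := by
      calc b * (x * y) * b⁻¹ = (b * x * b⁻¹) * (b * y * b⁻¹) := by group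
        _ = y * (x * y) := by rw [h.bx, h.bby]
        _ = x * (y * y) := by rw [← mul_assoc, ← h.xy, mul_assoc]
        _ = x := by
          have : y * y = 1 := by
            rw [← h.bx]
            calc b * x * b⁻¹ * (b * x * b⁻¹) = b * (x * x) * b⁻¹ := by group
              _ = 1 := by rw [h.x2]; group
          rw [this, mul_one]
    calc x * b = b * (x * y) * b⁻¹ * b := by rw [h1]
      _ = b * (x * y) := by group
  have r2 : y * b = b * x := by
    rw [← h.bx]; group
  have e1 : ∀ w : W, σ x (σ b w) = σ b (σ x (σ y w)) := by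
    intro w
    rw [← smul_mul, r1, smul_mul, smul_mul]
  have e2 : ∀ w : W, σ y (σ b w) = σ b (σ x w) := by
    intro w
    rw [← smul_mul, r2, smul_mul]
  have hx2 : σ x (σ b v) = -σ b v := by rw [e1, hyv, map_neg, hxv, map_neg]
  have hy2 : σ y (σ b v) = σ b v := by rw [e2, hxv]
  have hx3 : σ x (σ b (σ b v)) = -σ b (σ b v) := by rw [e1, hy2, hx2, map_neg]
  have hy3 : σ y (σ b (σ b v)) = -σ b (σ b v) := by rw [e2, hx2, map_neg]
  have hb3 : σ b (σ b (σ b v)) = v := by
    rw [← smul_mul, ← smul_mul]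
    have : b * b * b = 1 := by rw [← h.b3, pow_succ, pow_two]
    rw [this, map_one]; rfl
  have h43 : (4 : ZMod 3) = 1 := by decide
  have hli : LinearIndependent (ZMod 3) ![v, σ b v, σ b (σ b v), u] := by
    rw [Fintype.linearIndependent_iff]
    intro g hg
    rw [Fin.sum_univ_four] at hg
    simp only [Matrix.cons_val] at hg
    set v2 := σ b v with hv2
    set v3 := σ b v2 with hv3
    have hbn : v2 ≠ 0 := by
      intro h0
      apply hv0
      rw [← hb3, hv3, h0, map_zero, map_zero]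
    have hbn3 : v3 ≠ 0 := by
      intro h0
      apply hv0
      rw [← hb3, h0, map_zero]
    have hX : g 0 • v - g 1 • v2 - g 2 • v3 + g 3 • u = 0 := by
      have := congrArg (σ x) hg
      rw [map_zero, map_add, map_add, map_add, map_smul, map_smul, map_smul, map_smul, hxv, hx2, hx3, hxu] at this
      rw [← this]; module
    have hY : - (g 0 • v) + g 1 • v2 - g 2 • v3 + g 3 • u = 0 := by
      have := congrArg (σ y) hg
      rw [map_zero, map_add, map_add, map_add, map_smul, map_smul, map_smul, map_smul, hyv, hy2, hy3, hyu] at this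
      rw [← this]; module
    have hZ : - (g 0 • v) - g 1 • v2 + g 2 • v3 + g 3 • u = 0 := by
      have := congrArg (σ x) hY
      rw [map_zero, map_add, map_sub, map_add, map_neg, map_smul, map_smul, map_smul, map_smul, hxv, hx2, hx3,
        hxu] at this
      rw [← this]; module
    have k0 : (4 : ZMod 3) • (g 0 • v) = 0 := by
      have : (4 : ZMod 3) • (g 0 • v) = (g 0 • v + g 1 • v2 + g 2 • v3 + g 3 • u) +
        (g 0 • v - g 1 • v2 - g 2 • v3 + g 3 • u) - (- (g 0 • v) + g 1 • v2 - g 2 • v3 + g 3 • u) -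
        (- (g 0 • v) - g 1 • v2 + g 2 • v3 + g 3 • u) := by module
      rw [this, hg, hX, hY, hZ]; simp
    have k1 : (4 : ZMod 3) • (g 1 • v2) = 0 := by
      have : (4 : ZMod 3) • (g 1 • v2) = (g 0 • v + g 1 • v2 + g 2 • v3 + g 3 • u) -
        (g 0 • v - g 1 • v2 - g 2 • v3 + g 3 • u) + (- (g 0 • v) + g 1 • v2 - g 2 • v3 + g 3 • u) -
        (- (g 0 • v) - g 1 • v2 + g 2 • v3 + g 3 • u) := by module
      rw [this, hg, hX, hY, hZ]; simp
    have k2 : (4 : ZMod 3) • (g 2 • v3) = 0 := by
      have : (4 : ZMod 3) • (g 2 • v3) = (g 0 • v + g 1 • v2 + g 2 • v3 + g 3 • u) -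
        (g 0 • v - g 1 • v2 - g 2 • v3 + g 3 • u) - (- (g 0 • v) + g 1 • v2 - g 2 • v3 + g 3 • u) +
        (- (g 0 • v) - g 1 • v2 + g 2 • v3 + g 3 • u) := by module
      rw [this, hg, hX, hY, hZ]; simp
    have k3 : (4 : ZMod 3) • (g 3 • u) = 0 := by
      have : (4 : ZMod 3) • (g 3 • u) = (g 0 • v + g 1 • v2 + g 2 • v3 + g 3 • u) +
        (g 0 • v - g 1 • v2 - g 2 • v3 + g 3 • u) + (- (g 0 • v) + g 1 • v2 - g 2 • v3 + g 3 • u) +
        (- (g 0 • v) - g 1 • v2 + g 2 • v3 + g 3 • u) := by module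
      rw [this, hg, hX, hY, hZ]; simp
    rw [h43, one_smul] at k0 k1 k2 k3
    intro i
    fin_cases i
    · exact (smul_eq_zero.1 k0).resolve_right hv0
    · exact (smul_eq_zero.1 k1).resolve_right hbn
    · exact (smul_eq_zero.1 k2).resolve_right hbn3
    · exact (smul_eq_zero.1 k3).resolve_right hu0
  refine ⟨basisOfLinearIndependentOfCardEqFinrank hli (by simp [h4]), ?_, ?_, ?_, ?_⟩ <;>
    simp [hb3, hbu]

omit [Finite G] [Finite W] in
theorem fix4 [Module.Finite (ZMod 3) W] (D : Dat σ N b x y) (h4 : Module.finrank (ZMod 3) W = 4)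
    (hw : ∃ v : W, v ≠ 0 ∧ σ x v = v ∧ σ y v = -v ∧
      (∀ w, σ x w = w → σ y w = -w → ∃ c : ZMod 3, w = c • v) ∧
      (∀ w, σ x w = w → σ y w = w → σ b w = w))
    (hfd : Module.finrank (ZMod 3) ((LinearMap.ker (σ x - 1) ⊓ LinearMap.ker (σ y - 1) :
      Submodule (ZMod 3) W)) + 3 = Module.finrank (ZMod 3) W)
    {c : G} (hc : c ∈ N) (hcb : c * b = b * c) : σ c = 1 ∨ σ c = -1 := by
  obtain ⟨B, hB0, hB1, hB2, hB3⟩ := exists_basis D.toQB h4 hw hfd
  set f := LinearMap.toMatrixAlgEquiv B with hf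
  have hPM : f (σ b) = PM := by
    ext i j
    rw [hf, LinearMap.toMatrixAlgEquiv_apply]
    fin_cases j
    · change B.repr (σ b (B 0)) i = PM i 0
      rw [hB0, Module.Basis.repr_self, Finsupp.single_apply]
      fin_cases i <;> simp [PM]
    · change B.repr (σ b (B 1)) i = PM i 1
      rw [hB1, Module.Basis.repr_self, Finsupp.single_apply]
      fin_cases i <;> simp [PM]
    · change B.repr (σ b (B 2)) i = PM i 2
      rw [hB2, Module.Basis.repr_self, Finsupp.single_apply]
      fin_cases i <;> simp [PM]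
    · change B.repr (σ b (B 3)) i = PM i 3
      rw [hB3, Module.Basis.repr_self, Finsupp.single_apply]
      fin_cases i <;> simp [PM]
  have hcomm : PM * f (σ c) = f (σ c) * PM := by
    rw [← hPM, ← map_mul, ← map_mul, ← map_mul, ← map_mul, hcb]
  have hdet : (f (σ c)).det = 1 := by
    have h1 : (f (σ c)).det = LinearMap.det (σ c) := by
      rw [hf]
      exact LinearMap.det_toMatrix B (σ c)
    rw [h1]
    let d : G →* (ZMod 3)ˣ := MonoidHom.toHomUnits ((LinearMap.det : (W →ₗ[ZMod 3] W) →* ZMod 3).comp σ)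
    have h2 : c ∈ commutator G := by
      have h3 : c ∈ ⁅N, Subgroup.zpowers b⁆ := by rw [D.comm]; exact hc
      exact Subgroup.commutator_mono le_top le_top h3
    have h3 : c ∈ d.ker := Abelianization.commutator_subset_ker d h2
    rw [MonoidHom.mem_ker] at h3
    have h4 := congrArg Units.val h3
    simpa [d] using h4
  have hk : (f (σ c)) ^ (Nat.card N) = 1 := by
    rw [← map_pow, ← map_pow]
    have h1 : c ^ Nat.card N = 1 := by
      have h2 : (⟨c, hc⟩ : N) ^ Nat.card N = 1 := pow_card_eq_one'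
      have h3 := congrArg Subtype.val h2
      rw [SubmonoidClass.coe_pow] at h3
      exact h3
    rw [h1, map_one, map_one]
  rcases matrix_eq _ hcomm hdet D.cop hk with h | h
  · left
    apply f.injective
    rw [h, map_one]
  · right
    apply f.injective
    rw [h, map_neg, map_one]

/-- the elements of `N` acting as `± 1` -/
def ZN (σ : Representation (ZMod 3) G W) (N : Subgroup G) : Subgroup G where
  carrier := {g | g ∈ N ∧ (σ g = 1 ∨ σ g = -1)}
  one_mem' := ⟨N.one_mem, Or.inl (map_one σ)⟩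
  mul_mem' := by
    rintro a c ⟨ha, ha'⟩ ⟨hc, hc'⟩
    refine ⟨N.mul_mem ha hc, ?_⟩
    rw [map_mul]
    rcases ha' with h | h <;> rcases hc' with h' | h' <;> rw [h, h'] <;> simp
  inv_mem' := by
    rintro a ⟨ha, ha'⟩
    refine ⟨N.inv_mem ha, ?_⟩
    have h1 : σ a * σ a⁻¹ = 1 := by rw [← map_mul, mul_inv_cancel, map_one]
    rcases ha' with h | h
    · left; rw [h, one_mul] at h1; exact h1
    · right
      rw [h, neg_one_mul] at h1
      rw [← h1, neg_neg]

omit [Finite G] [Finite W] in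
theorem mem_ZN {g : G} : g ∈ ZN σ N ↔ g ∈ N ∧ (σ g = 1 ∨ σ g = -1) := Iff.rfl

omit [Finite G] [Finite W] in
theorem ZN_comm (hf : Function.Injective σ) {z : G} (hz : z ∈ ZN σ N) (g : G) : z * g = g * z := by
  apply hf
  rw [map_mul, map_mul]
  rcases hz.2 with h | h <;> rw [h] <;> simp

omit [Finite G] [Finite W] in
theorem ZN_sq (hf : Function.Injective σ) {z : G} (hz : z ∈ ZN σ N) : z * z = 1 := by
  apply hf
  rw [map_mul, map_one]
  rcases hz.2 with h | h <;> rw [h] <;> simp

omit [Finite W] in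
theorem nilpotent_N (D : Dat σ N b x y)
    (hfix : ∀ c ∈ N, c * b = b * c → σ c = 1 ∨ σ c = -1) : Group.IsNilpotent N := by
  have hNn : N.Normal := D.normal
  have hbbb : b * b * b = 1 := by rw [← D.b3, pow_succ, pow_two]
  set Z : Subgroup N := (ZN σ N).subgroupOf N with hZ
  have hZc : ∀ z ∈ Z, ∀ n : N, z * n = n * z := by
    intro z hz n
    apply Subtype.ext
    exact ZN_comm D.faith (Subgroup.mem_subgroupOf.1 hz) n
  have hZn : Z.Normal := by
    refine ⟨fun z hz n => ?_⟩
    rw [← hZc z hz n, mul_inv_cancel_right]; exact hz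
  have hZle : Z ≤ Subgroup.center N := by
    intro z hz
    rw [Subgroup.mem_center_iff]
    intro n; exact (hZc z hz n).symm
  set φ : N ≃* N := MulAut.conjNormal b with hφ
  have hφv : ∀ n : N, ((φ n : N) : G) = b * n * b⁻¹ := fun n => MulAut.conjNormal_apply b n
  have hφZ : ∀ z ∈ Z, φ z = z := by
    intro z hz
    apply Subtype.ext
    rw [hφv, ← ZN_comm D.faith (Subgroup.mem_subgroupOf.1 hz) b, mul_inv_cancel_right]
  have hmap : Z.map (φ : N →* N) = Z := by
    ext z
    rw [Subgroup.mem_map]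
    constructor
    · rintro ⟨z', hz', rfl⟩
      change φ z' ∈ Z
      rw [hφZ z' hz']; exact hz'
    · intro hz
      exact ⟨z, hz, hφZ z hz⟩
  set ψ : (N ⧸ Z) ≃* (N ⧸ Z) := QuotientGroup.congr Z Z φ hmap with hψ
  have hψv : ∀ n : N, ψ (n : N ⧸ Z) = ((φ n : N) : N ⧸ Z) := fun n => rfl
  have hnil : Group.IsNilpotent (N ⧸ Z) := by
    have hfpf : ∀ q : N ⧸ Z, ψ q = q → q = 1 := by
      intro q
      induction q using QuotientGroup.induction_on with
      | H n =>
        intro hq
        rw [hψv, QuotientGroup.eq] at hq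
        -- `(φ n)⁻¹ * n ∈ Z`
        have h0 := Subgroup.mem_subgroupOf.1 hq
        have h1 : ((φ n)⁻¹ * n : N) = (b * (n : G) * b⁻¹)⁻¹ * n := by
          rw [Subgroup.coe_mul, Subgroup.coe_inv, hφv]
        rw [h1] at h0
        obtain ⟨z, hz⟩ : ∃ z, z = (b * (n : G) * b⁻¹)⁻¹ * n := ⟨_, rfl⟩
        rw [← hz] at h0
        have hzb : z * b = b * z := ZN_comm D.faith h0 b
        have hz2 : z * z = 1 := ZN_sq D.faith h0
        have hn : (b * (n : G) * b⁻¹) * z = n := by rw [hz, mul_inv_cancel_left]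
        have hb1 : b * (n : G) * b⁻¹ = n * z := by
          calc b * (n : G) * b⁻¹ = (b * (n : G) * b⁻¹) * (z * z) := by rw [hz2, mul_one]
            _ = (b * (n : G) * b⁻¹) * z * z := by rw [← mul_assoc]
            _ = n * z := by rw [hn]
        have hb2 : b * (b * (n : G) * b⁻¹) * b⁻¹ = n := by
          calc b * (b * (n : G) * b⁻¹) * b⁻¹ = b * (n * z) * b⁻¹ := by rw [hb1]
            _ = (b * n * b⁻¹) * (b * z * b⁻¹) := by group
            _ = (n * z) * z := by rw [hb1, ← hzb, mul_inv_cancel_right]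
            _ = n := by rw [mul_assoc, hz2, mul_one]
        have hb3 : b * (b * (b * (n : G) * b⁻¹) * b⁻¹) * b⁻¹ = n := by
          calc b * (b * (b * (n : G) * b⁻¹) * b⁻¹) * b⁻¹ = (b * b * b) * (n : G) * (b * b * b)⁻¹ := by group
            _ = n := by rw [hbbb]; group
        rw [hb2] at hb3
        have hcb : (n : G) * b = b * n := by
          calc (n : G) * b = b * n * b⁻¹ * b := by rw [hb3]
            _ = b * n := by group
        rw [QuotientGroup.eq_one_iff]
        exact Subgroup.mem_subgroupOf.2 ⟨n.2, hfix n n.2 hcb⟩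
    have hψ3 : ψ ^ 3 = 1 := by
      ext q
      induction q using QuotientGroup.induction_on with
      | H n =>
        have h1 : (ψ ^ 3) (n : N ⧸ Z) = ψ (ψ (ψ (n : N ⧸ Z))) := rfl
        rw [h1, hψv, hψv, hψv]
        have h2 : φ (φ (φ n)) = n := by
          apply Subtype.ext
          rw [hφv, hφv, hφv]
          calc b * (b * (b * (n : G) * b⁻¹) * b⁻¹) * b⁻¹ = (b * b * b) * (n : G) * (b * b * b)⁻¹ := by group
            _ = n := by rw [hbbb]; group
        rw [h2]; rfl
    have hdvd := orderOf_dvd_of_pow_eq_one hψ3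
    rcases (Nat.dvd_prime Nat.prime_three).1 hdvd with h | h
    · rw [orderOf_eq_one_iff] at h
      have : Subsingleton (N ⧸ Z) := by
        refine ⟨fun q r => ?_⟩
        rw [hfpf q (by rw [h]; rfl), hfpf r (by rw [h]; rfl)]
      infer_instance
    · exact Cfsg.Agent.S0033.result ψ (fun q hq => hfpf q hq) 3 Nat.prime_three h
  have hk : (QuotientGroup.mk' Z).ker ≤ Subgroup.center N := by
    rw [QuotientGroup.ker_mk']; exact hZle
  exact Subgroup.isNilpotent_of_ker_le_center (QuotientGroup.mk' Z) hk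

omit [Finite W] in
theorem two_group (D : Dat σ N b x y)
    (hfix : ∀ c ∈ N, c * b = b * c → σ c = 1 ∨ σ c = -1)
    (hno : ∀ p : ℕ, p.Prime → 5 ≤ p → ∀ L : Subgroup G, L.Normal → L ≤ N → IsPGroup p L → L = ⊥) :
    IsPGroup 2 N := by
  have hNn : N.Normal := D.normal
  have hnil := nilpotent_N D hfix
  have key : ∀ p : ℕ, p.Prime → p ∣ Nat.card N → p = 2 := by
    intro p hp hpd
    have : Fact p.Prime := ⟨hp⟩
    by_contra h2
    have h3 : p ≠ 3 := by
      rintro rfl
      have := Nat.dvd_gcd hpd (dvd_refl 3)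
      rw [D.cop] at this
      exact absurd this (by decide)
    have h5 : 5 ≤ p := by
      have h4 : p ≠ 4 := by rintro rfl; exact absurd hp (by decide)
      have := hp.two_le
      omega
    obtain ⟨P⟩ : Nonempty (Sylow p N) := inferInstance
    have hPn : (P : Subgroup N).Normal := inferInstance
    have hPc : (P : Subgroup N).Characteristic := Sylow.characteristic_of_normal P hPn
    have hL : ((P : Subgroup N).map N.subtype).Normal := ConjAct.normal_of_characteristic_of_normal
    have h6 := hno p hp h5 _ hL (Subgroup.map_subtype_le _) (P.2.map _)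
    rw [Subgroup.map_eq_bot_iff_of_injective _ N.subtype_injective] at h6
    exact P.ne_bot_of_dvd_card hpd h6
  have hpos : Nat.card N ≠ 0 := Nat.card_pos.ne'
  rw [IsPGroup.iff_card]
  exact ⟨_, Nat.eq_prime_pow_of_unique_prime_dvd hpos (fun {d} hd hdd => key d hd hdd)⟩

end Cfsg.Agent.H65.AW5
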