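import Mathlib

set_option autoImplicit false

/-! S4415, piece 5, matrix part: a `4 × 4` matrix over `F₃` of order prime to 3 and determinant 1, commuting with
the permutation matrix of a 3-cycle, is `± 1`. (helper65) -/

namespace Cfsg.Agent.H65.AW5

/-- the permutation matrix of the 3-cycle -/
def PM : Matrix (Fin 4) (Fin 4) (ZMod 3) := !![0,0,1,0; 1,0,0,0; 0,1,0,0; 0,0,0,1]

def CM (a b c d e f : ZMod 3) : Matrix (Fin 4) (Fin 4) (ZMod 3) :=
  !![a,c,b,e; b,a,c,e; c,b,a,e; d,d,d,f]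

theorem exists_CM (M : Matrix (Fin 4) (Fin 4) (ZMod 3)) (h : PM * M = M * PM) :
    ∃ a b c d e f, M = CM a b c d e f := by
  have key : ∀ i j, (PM * M) i j = (M * PM) i j := fun i j => by rw [h]
  refine ⟨M 0 0, M 1 0, M 2 0, M 3 0, M 0 3, M 3 3, ?_⟩
  have h00 := key 0 0
  have h01 := key 0 1
  have h02 := key 0 2
  have h03 := key 0 3
  have h10 := key 1 0
  have h11 := key 1 1
  have h12 := key 1 2
  have h13 := key 1 3
  have h20 := key 2 0
  have h21 := key 2 1
  have h22 := key 2 2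
  have h23 := key 2 3
  have h30 := key 3 0
  have h31 := key 3 1
  have h32 := key 3 2
  simp [PM, Matrix.mul_apply, Fin.sum_univ_four] at h00 h01 h02 h03 h10 h11 h12 h13 h20 h21 h22 h23 h30 h31 h32
  ext i j
  fin_cases i <;> fin_cases j <;> simp [CM] <;> simp_all

theorem three0 : (3 : ZMod 3) = 0 := by decide

theorem CM_mul (a b c d e f a' b' c' d' e' f' : ZMod 3) : CM a b c d e f * CM a' b' c' d' e' f' =
    CM (a*a'+c*b'+b*c'+e*d') (b*a'+a*b'+c*c'+e*d') (c*a'+b*b'+a*c'+e*d') (d*(a'+b'+c')+f*d')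
      ((a+b+c)*e'+e*f') (f*f') := by
  ext i j
  fin_cases i <;> fin_cases j <;> simp [CM, Matrix.mul_apply, Fin.sum_univ_four] <;>
    first | ring1 | linear_combination (d * e') * three0

theorem CM_one (s : ZMod 3) : s • (1 : Matrix (Fin 4) (Fin 4) (ZMod 3)) = CM s 0 0 0 0 s := by
  ext i j
  fin_cases i <;> fin_cases j <;> simp [CM]

theorem CM_congr {a b c d e f a' b' c' d' e' f' : ZMod 3} (h1 : a = a') (h2 : b = b') (h3 : c = c') (h4 : d = d')
    (h5 : e = e') (h6 : f = f') : CM a b c d e f = CM a' b' c' d' e' f' := by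
  subst h1 h2 h3 h4 h5 h6; rfl

theorem CM_cube (a b c d e : ZMod 3) : CM a b c d e (a + b + c) * CM a b c d e (a + b + c) *
    CM a b c d e (a + b + c) = (a + b + c) • (1 : Matrix (Fin 4) (Fin 4) (ZMod 3)) := by
  rw [CM_mul, CM_mul, CM_one]
  apply CM_congr <;> (revert a b c d e; decide +kernel)

theorem CM_det (a b c d e f : ZMod 3) : (CM a b c d e f).det = (a + b + c) * f := by
  have ha : a ^ 3 = a := ZMod.pow_card a
  have hb : b ^ 3 = b := ZMod.pow_card b
  have hc : c ^ 3 = c := ZMod.pow_card c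
  simp [CM, Matrix.det_succ_row_zero, Fin.sum_univ_succ, Fin.succAbove, -ZMod.pow_card]
  linear_combination f * ha + f * hb + f * hc + (- (a * f * c * b) + a * e * d * c
      + a * e * d * b - a ^ 2 * e * d + e * d * c * b - e * d * c ^ 2 - e * d * b ^ 2) * three0

theorem sf1 : ∀ s f : ZMod 3, s * f = 1 → s = 1 ∨ s = -1 := by decide

theorem sf2 : ∀ s f : ZMod 3, s * f = 1 → f = s := by decide

theorem matrix_eq (M : Matrix (Fin 4) (Fin 4) (ZMod 3)) (h : PM * M = M * PM) (hdet : M.det = 1) {k : ℕ}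
    (hk : k.Coprime 3) (hM : M ^ k = 1) : M = 1 ∨ M = -1 := by
  obtain ⟨a, b, c, d, e, f, rfl⟩ := exists_CM M h
  rw [CM_det] at hdet
  have hs : a + b + c = 1 ∨ a + b + c = -1 := sf1 _ _ hdet
  have hf : f = a + b + c := sf2 _ _ hdet
  subst hf
  have h3 := CM_cube a b c d e
  set M := CM a b c d e (a + b + c) with hMdef
  have h3' : M ^ 3 = (a + b + c) • (1 : Matrix (Fin 4) (Fin 4) (ZMod 3)) := by
    rw [← h3, pow_succ, pow_two]
  rcases hs with hs | hs
  · left
    rw [hs, one_smul] at h3'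
    have h1 : orderOf M ∣ 3 := orderOf_dvd_of_pow_eq_one h3'
    have h2 : orderOf M ∣ k := orderOf_dvd_of_pow_eq_one hM
    have h4 : orderOf M ∣ 1 := by
      have := Nat.dvd_gcd h2 h1
      rwa [hk] at this
    exact orderOf_eq_one_iff.1 (Nat.dvd_one.1 h4)
  · right
    rw [hs, neg_one_smul] at h3'
    have h1 : (-M) ^ 3 = 1 := by
      rw [Odd.neg_pow (by decide), h3', neg_neg]
    have h2 : (-M) ^ (2 * k) = 1 := by
      rw [Even.neg_pow (even_two_mul k), mul_comm, pow_mul, hM, one_pow]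
    have h1' : orderOf (-M) ∣ 3 := orderOf_dvd_of_pow_eq_one h1
    have h2' : orderOf (-M) ∣ 2 * k := orderOf_dvd_of_pow_eq_one h2
    have hc : (2 * k).Coprime 3 := Nat.Coprime.mul_left (by decide) hk
    have h4 : orderOf (-M) ∣ 1 := by
      have := Nat.dvd_gcd h2' h1'
      rwa [hc] at this
    have h5 := orderOf_eq_one_iff.1 (Nat.dvd_one.1 h4)
    rw [← h5, neg_neg]

end Cfsg.Agent.H65.AW5
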