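import Cfsg.Agent.Bal.KBal
import Cfsg.Agent.Bal.Red
import Cfsg.Agent.S1329

/-!
# Core-separated four-groups: Goldschmidt's functor
-/

set_option autoImplicit false
set_option linter.unusedSectionVars false
set_option linter.style.haveILetI false

namespace Cfsg.Agent.H65.CSep

open Subgroup Cfsg.Agent.FStar Cfsg.Agent.H31 Cfsg.Agent.Bal Cfsg.Agent.Cop
open scoped commutatorElement

universe u

variable {G : Type u} [Group G] [Finite G]

instance fact2 : Fact (Nat.Prime 2) := ⟨Nat.prime_two⟩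

/-- the centralizer of an element -/
abbrev CC (b : G) : Subgroup G := centralizer ({b} : Set G)

abbrev cp (a : G) : Subgroup G := Cfsg.centralizerPPrimeCore 2 a

theorem odd_cp (a : G) : (Nat.card (cp a)).Coprime 2 := card_cpc_coprime a

/-- elements of a four-group -/
theorem four_elems {V : Subgroup G} (hV : Cfsg.IsElementaryAbelian 2 V) (hV4 : Nat.card V = 4) {v w : G} (hv : v ∈ V)
    (hw : w ∈ V) (hv1 : v ≠ 1) (hw1 : w ≠ 1) (hvw : w ≠ v) {u : G} (hu : u ∈ V) :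
    u = 1 ∨ u = v ∨ u = w ∨ u = v * w := by
  classical
  by_contra hcon
  push Not at hcon
  obtain ⟨h1, h2, h3, h4⟩ := hcon
  have hvv : v * v = 1 := by rw [← pow_two]; exact hV.2 v hv
  have hww : w * w = 1 := by rw [← pow_two]; exact hV.2 w hw
  have hvw1 : v * w ≠ 1 := by
    intro h
    apply hvw
    have : v * (v * w) = v := by rw [h, mul_one]
    rw [← mul_assoc, hvv, one_mul] at this
    exact this
  have hvwv : v * w ≠ v := by
    intro h; exact hw1 (mul_left_cancel (h.trans (mul_one v).symm))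
  have hvww : v * w ≠ w := by
    intro h; exact hv1 (mul_right_cancel (h.trans (one_mul w).symm))
  have hcard : (Finset.image (fun x : G => x) ({1, v, w, v * w, u} : Finset G)).card = 5 := by
    rw [Finset.image_id']
    rw [Finset.card_insert_of_notMem, Finset.card_insert_of_notMem, Finset.card_insert_of_notMem,
      Finset.card_insert_of_notMem, Finset.card_singleton]
    · simp only [Finset.mem_singleton]; exact fun h => h4 h.symm
    · simp only [Finset.mem_insert, Finset.mem_singleton, not_or]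
      exact ⟨fun h => hvww h.symm, fun h => h3 h.symm⟩
    · simp only [Finset.mem_insert, Finset.mem_singleton, not_or]
      exact ⟨fun h => hvw h.symm, fun h => hvwv h.symm, fun h => h2 h.symm⟩
    · simp only [Finset.mem_insert, Finset.mem_singleton, not_or]
      exact ⟨fun h => hv1 h.symm, fun h => hw1 h.symm, fun h => hvw1 h.symm, fun h => h1 h.symm⟩
  have hsub : (({1, v, w, v * w, u} : Finset G) : Set G) ⊆ (V : Set G) := by
    intro x hx
    simp only [Finset.coe_insert, Finset.coe_singleton, Set.mem_insert_iff, Set.mem_singleton_iff] at hx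
    rcases hx with rfl | rfl | rfl | rfl | rfl
    · exact V.one_mem
    · exact hv
    · exact hw
    · exact V.mul_mem hv hw
    · exact hu
  rw [Finset.image_id'] at hcard
  have h5 : Nat.card (({1, v, w, v * w, u} : Finset G) : Set G) ≤ Nat.card V :=
    Nat.card_mono (Set.toFinite _) hsub
  rw [Nat.card_coe_set_eq, Set.ncard_coe_finset, hcard, hV4] at h5
  omega

/-- `⁅c, d⁆ ∈ C(L)` -/
theorem comm_mem_of_right {Q : Type*} [Group Q] {L : Subgroup Q} {d u : Q} (hd : d ∈ normalizer (L : Set Q))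
    (hu : u ∈ centralizer (L : Set Q)) : ⁅d, u⁆ ∈ centralizer (L : Set Q) := by
  rw [commutatorElement_def]
  exact mul_mem ((Subgroup.mem_normalizer_iff.1 (normalizer_le_normalizer_cent L hd) u).1 hu) (inv_mem hu)

theorem orderOf_pi {b : G} {a : CC b} (ha : orderOf (a : G) = 2) : orderOf (piMap 2 (CC b) a) = 2 := by
  apply orderOf_eq_prime
  · rw [← map_pow]
    have : a ^ 2 = 1 := by
      apply Subtype.ext
      rw [Subgroup.coe_pow, ← ha, pow_orderOf_eq_one, Subgroup.coe_one]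
    rw [this, map_one]
  · intro h
    have h1 : a ∈ Cfsg.pPrimeCore 2 (CC b) := (QuotientGroup.eq_one_iff a).1 h
    have h2 := Cfsg.Agent.Transfer.coprime_orderOf_of_coprime_card
      (Cfsg.Agent.Solv.pPrimeCore_card_coprime (G := CC b) 2) h1
    rw [← Subgroup.orderOf_coe, ha] at h2
    exact absurd h2 (by decide)

/-- K1 -/
theorem pi_mem_cp {a b : G} (hab : a ∈ CC b) (ha : orderOf a = 2) {d : CC b} (hd : (d : G) ∈ cp a) :
    piMap 2 (CC b) d ∈ Cfsg.centralizerPPrimeCore 2 (piMap 2 (CC b) ⟨a, hab⟩) := by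
  apply map_cpc
  · refine ⟨1, ?_⟩
    rw [← Subgroup.orderOf_coe, pow_one]
    exact ha
  · exact mem_cpc_subgroup (C := CC b) (b := ⟨a, hab⟩) hd

theorem hO (b : G) : Cfsg.pPrimeCore 2 (CC b ⧸ Cfsg.pPrimeCore 2 (CC b)) = ⊥ := pPrimeCore_quot_bot

theorem pi_mem_normalizer {a b : G} (hab : a ∈ CC b) (ha : orderOf a = 2) {d : CC b} (hd : (d : G) ∈ cp a)
    {L : Subgroup (CC b ⧸ Cfsg.pPrimeCore 2 (CC b))} (hL : Cfsg.IsComponent L) :
    piMap 2 (CC b) d ∈ normalizer (L : Set (CC b ⧸ Cfsg.pPrimeCore 2 (CC b))) :=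
  centralizerPPrimeCore_le_normalizer (hO b) hL (orderOf_pi (a := ⟨a, hab⟩) ha) (pi_mem_cp hab ha hd)

theorem pi_mem_pCore {a b : G} (hab : a ∈ CC b) (ha : orderOf a = 2) {d : CC b} (hd : (d : G) ∈ cp a) :
    piMap 2 (CC b) d ∈ centralizer (Cfsg.pCore 2 (CC b ⧸ Cfsg.pPrimeCore 2 (CC b)) :
      Set (CC b ⧸ Cfsg.pPrimeCore 2 (CC b))) :=
  mem_centralizer_pCore_of_cpc (orderOf_pi (a := ⟨a, hab⟩) ha) (pi_mem_cp hab ha hd)

/-- K2 -/
theorem pi_mem_centralizer {a b : G} (hab : a ∈ CC b) (ha : orderOf a = 2) {d : CC b} (hd : (d : G) ∈ cp a)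
    {L : Subgroup (CC b ⧸ Cfsg.pPrimeCore 2 (CC b))} (hL : Cfsg.IsComponent L)
    (haL : piMap 2 (CC b) ⟨a, hab⟩ ∈ centralizer (L : Set (CC b ⧸ Cfsg.pPrimeCore 2 (CC b)))) :
    piMap 2 (CC b) d ∈ centralizer (L : Set (CC b ⧸ Cfsg.pPrimeCore 2 (CC b))) := by
  have h0 : ⁅L, zpowers (piMap 2 (CC b) ⟨a, hab⟩)⁆ ≠ L := by
    have h1 : ⁅L, zpowers (piMap 2 (CC b) ⟨a, hab⟩)⁆ = ⊥ := by
      rw [Subgroup.commutator_comm, Subgroup.commutator_eq_bot_iff_le_centralizer, zpowers_le]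
      exact haL
    rw [h1]; exact (ne_bot hL.2).symm
  have h1 := commute_of_commutator_ne (hO b) hL (orderOf_pi (a := ⟨a, hab⟩) ha) h0
  rw [Subgroup.commutator_comm, Subgroup.commutator_eq_bot_iff_le_centralizer] at h1
  exact h1 (pi_mem_cp hab ha hd)

/-- the separation hypothesis in the quotient -/
theorem sepQ {A₁ A₂ : Subgroup G} (hcs : Cfsg.IsCoreSeparated A₁ A₂) {b : G} (hb : b ∈ A₁ ⊔ A₂) (hb1 : b ≠ 1)
    {L : Subgroup (CC b ⧸ Cfsg.pPrimeCore 2 (CC b))} (hL : Cfsg.IsComponent L) :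
    (∀ u : CC b, (u : G) ∈ A₁ → piMap 2 (CC b) u ∈ centralizer (L : Set (CC b ⧸ Cfsg.pPrimeCore 2 (CC b)))) ∨
    (∀ u : CC b, (u : G) ∈ A₂ → piMap 2 (CC b) u ∈ centralizer (L : Set (CC b ⧸ Cfsg.pPrimeCore 2 (CC b)))) := by
  obtain ⟨E, ⟨hE, hEL⟩, -⟩ := isPComponent_existsUnique hL
  have key : ∀ A : Subgroup G, ⁅E.map (CC b).subtype, A⁆ ≤ Cfsg.centralizerPPrimeCore 2 b →
      ∀ u : CC b, (u : G) ∈ A → piMap 2 (CC b) u ∈ centralizer (L : Set (CC b ⧸ Cfsg.pPrimeCore 2 (CC b))) := by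
    intro A hA u hu
    rw [mem_centralizer_iff, ← hEL]
    rintro _ ⟨e, he, rfl⟩
    have h1 : ⁅(e : G), (u : G)⁆ ∈ Cfsg.centralizerPPrimeCore 2 b :=
      hA (commutator_mem_commutator ⟨e, he, rfl⟩ hu)
    obtain ⟨z, hz, hz'⟩ := h1
    have h2 : z = ⁅e, u⁆ := by
      apply Subtype.ext
      exact hz'
    rw [h2] at hz
    have h3 : piMap 2 (CC b) ⁅e, u⁆ = 1 := (QuotientGroup.eq_one_iff _).2 hz
    rw [map_commutatorElement, commutatorElement_eq_one_iff_mul_comm] at h3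
    exact h3
  rcases hcs.2.2.2.2.2.2.2 b hb hb1 E hE with h | h
  · exact Or.inl (key A₁ h)
  · exact Or.inr (key A₂ h)


section Main

variable {A₁ A₂ : Subgroup G}

theorem comm_mem_cp {A : Subgroup G} {a : G} (hA : ∀ u ∈ A, u ∈ CC a) {x u : G} (hx : x ∈ cp a) (hu : u ∈ A) :
    u * x * u⁻¹ ∈ cp a :=
  (mem_normalizer_iff.1 (centralizer_le_normalizer_centralizerPPrimeCore a (hA u hu)) x).1 hx

/-- L2: for `v ∈ V#`, `a ∈ A#`: `[O_a ∩ C(v), V] ≤ O_v`. Here `V = Ai`, `V' = Aj`. -/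
theorem key2 {V V' : Subgroup G} (hV : Cfsg.IsElementaryAbelian 2 V) (hV' : Cfsg.IsElementaryAbelian 2 V')
    (hV4 : Nat.card V = 4) (hc : ∀ x ∈ V, ∀ y ∈ V', x * y = y * x)
    (hsep : ∀ b ∈ V ⊔ V', b ≠ 1 → ∀ L : Subgroup (CC b ⧸ Cfsg.pPrimeCore 2 (CC b)), Cfsg.IsComponent L →
      (∀ u : CC b, (u : G) ∈ V → piMap 2 (CC b) u ∈ centralizer (L : Set (CC b ⧸ Cfsg.pPrimeCore 2 (CC b)))) ∨
      (∀ u : CC b, (u : G) ∈ V' → piMap 2 (CC b) u ∈ centralizer (L : Set (CC b ⧸ Cfsg.pPrimeCore 2 (CC b)))))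
    {ai aj v x u : G} (hai : ai ∈ V) (haj : aj ∈ V') (ha1 : ai * aj ≠ 1) (hv : v ∈ V) (hv1 : v ≠ 1)
    (hx : x ∈ cp (ai * aj)) (hxv : x ∈ CC v) (hu : u ∈ V) : ⁅x, u⁆ ∈ cp v := by
  have hVc : ∀ y ∈ V, ∀ z ∈ V, y * z = z * y := fun y hy z hz => congrArg Subtype.val (hV.1.1.1 ⟨y, hy⟩ ⟨z, hz⟩)
  have hVc' : ∀ y ∈ V', ∀ z ∈ V', y * z = z * y :=
    fun y hy z hz => congrArg Subtype.val (hV'.1.1.1 ⟨y, hy⟩ ⟨z, hz⟩)
  set a := ai * aj with ha
  have haord : orderOf a = 2 := by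
    apply orderOf_eq_prime _ ha1
    have h1 : ai * ai = 1 := by rw [← pow_two]; exact hV.2 _ hai
    have h2 : aj * aj = 1 := by rw [← pow_two]; exact hV'.2 _ haj
    rw [pow_two, ha]
    calc ai * aj * (ai * aj) = ai * (aj * ai) * aj := by group
      _ = ai * (ai * aj) * aj := by rw [hc ai hai aj haj]
      _ = (ai * ai) * (aj * aj) := by group
      _ = 1 := by rw [h1, h2, one_mul]
  have hav : a ∈ CC v := by
    rw [mem_centralizer_singleton_iff, ha, mul_assoc, ← hc v hv aj haj, ← mul_assoc, hVc ai hai v hv, mul_assoc]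
  have hVv : ∀ y ∈ V, y ∈ CC v := fun y hy => mem_centralizer_singleton_iff.2 (hVc y hy v hv)
  have hV'v : ∀ y ∈ V', y ∈ CC v := fun y hy => mem_centralizer_singleton_iff.2 (hc v hv y hy).symm
  have hVa : ∀ y ∈ V, y ∈ CC a := fun y hy => mem_centralizer_singleton_iff.2 (by
    rw [ha, ← mul_assoc, hVc y hy ai hai, mul_assoc, hc y hy aj haj, mul_assoc])
  have hvord : orderOf v = 2 := orderOf_eq_prime (hV.2 v hv) hv1
  have hvV : v ∈ V ⊔ V' := mem_sup_left hv
  set d : CC v := ⟨x, hxv⟩ with hd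
  set u' : CC v := ⟨u, hVv u hu⟩ with hu'
  have hda : (d : G) ∈ cp a := hx
  -- the conjugate
  have hda2 : ((u' * d⁻¹ * u'⁻¹ : CC v) : G) ∈ cp a := comm_mem_cp hVa (inv_mem hx) hu
  suffices h : piMap 2 (CC v) ⁅d, u'⁆ = 1 by
    exact mem_pPrimeCoreOf_of_map h
  have hcomm : ⁅d, u'⁆ = d * (u' * d⁻¹ * u'⁻¹) := by rw [commutatorElement_def]; group
  have hca : ((⁅d, u'⁆ : CC v) : G) ∈ cp a := by
    rw [hcomm]; exact mul_mem hda hda2
  apply eq_one_of_centralizes (hO v)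
  · have h1 := Cfsg.Agent.Transfer.coprime_orderOf_of_coprime_card (odd_cp a) hca
    rw [Subgroup.orderOf_coe] at h1
    exact Nat.Coprime.coprime_dvd_left (orderOf_map_dvd _ _) h1
  · intro L hL
    rcases hsep v hvV hv1 L hL with h | h
    · rw [map_commutatorElement]
      exact comm_mem_of_right (pi_mem_normalizer hav haord hda hL) (h u' hu)
    · -- `V'` centralizes `L`
      have hvc : piMap 2 (CC v) ⟨v, hVv v hv⟩ ∈ centralizer (L : Set (CC v ⧸ Cfsg.pPrimeCore 2 (CC v))) := by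
        rw [mem_centralizer_iff]
        intro y _
        obtain ⟨y, rfl⟩ := QuotientGroup.mk'_surjective _ y
        rw [← map_mul, ← map_mul]
        congr 1
        apply Subtype.ext
        exact mem_centralizer_singleton_iff.1 y.2
      by_cases h3 : ai = 1 ∨ ai = v
      · have haL : piMap 2 (CC v) ⟨a, hav⟩ ∈ centralizer (L : Set (CC v ⧸ Cfsg.pPrimeCore 2 (CC v))) := by
          have e1 : (⟨a, hav⟩ : CC v) = ⟨ai, hVv ai hai⟩ * ⟨aj, hV'v aj haj⟩ := rfl
          rw [e1, map_mul]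
          apply mul_mem _ (h _ haj)
          rcases h3 with h3 | h3
          · have : (⟨ai, hVv ai hai⟩ : CC v) = 1 := Subtype.ext h3
            rw [this, map_one]; exact one_mem _
          · have : (⟨ai, hVv ai hai⟩ : CC v) = ⟨v, hVv v hv⟩ := Subtype.ext h3
            rw [this]; exact hvc
        rw [hcomm, map_mul]
        exact mul_mem (pi_mem_centralizer hav haord hda hL haL) (pi_mem_centralizer hav haord hda2 hL haL)
      · push Not at h3
        -- `⁅d, ai⁆ = ⁅d, aj⁻¹⁆`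
        set ai' : CC v := ⟨ai, hVv ai hai⟩ with hai'
        set aj' : CC v := ⟨aj, hV'v aj haj⟩ with haj'
        have hxa : x * (ai * aj) = (ai * aj) * x := mem_centralizer_singleton_iff.1 (cpc_le _ hx)
        have hbase : ⁅d, ai'⁆ ∈ (centralizer (L : Set (CC v ⧸ Cfsg.pPrimeCore 2 (CC v)))).comap (piMap 2 (CC v)) := by
          have e1 : ⁅d, ai'⁆ = ⁅d, aj'⁻¹⁆ := by
            apply Subtype.ext
            change x * ai * x⁻¹ * ai⁻¹ = x * aj⁻¹ * x⁻¹ * (aj⁻¹)⁻¹
            have hcx : Commute (ai * aj) x := hxa.symm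
            have hcj : Commute (ai * aj) aj := (show Commute ai aj from hc ai hai aj haj).mul_left (Commute.refl aj)
            have hcc : Commute (ai * aj) (x * aj⁻¹ * x⁻¹ * aj) :=
              (((hcx.mul_right hcj.inv_right).mul_right hcx.inv_right).mul_right hcj)
            have e3 : x * (ai * aj) = (ai * aj) * x := hxa
            calc x * ai * x⁻¹ * ai⁻¹ = (x * (ai * aj)) * aj⁻¹ * x⁻¹ * aj * (ai * aj)⁻¹ := by group
              _ = (ai * aj) * (x * aj⁻¹ * x⁻¹ * aj) * (ai * aj)⁻¹ := by rw [e3]; group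
              _ = (x * aj⁻¹ * x⁻¹ * aj) * (ai * aj) * (ai * aj)⁻¹ := by rw [hcc.eq]
              _ = x * aj⁻¹ * x⁻¹ * (aj⁻¹)⁻¹ := by group
          rw [mem_comap, e1, map_commutatorElement]
          exact comm_mem_of_right (pi_mem_normalizer hav haord hda hL) (h _ (inv_mem haj))
        have hxvc : x * v = v * x := mem_centralizer_singleton_iff.1 hxv
        rcases four_elems hV hV4 hv hai hv1 h3.1 h3.2 hu with h4 | h4 | h4 | h4
        · have : ⁅d, u'⁆ = 1 := by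
            apply Subtype.ext
            change x * u * x⁻¹ * u⁻¹ = 1
            rw [h4]; group
          rw [this, map_one]; exact one_mem _
        · have : ⁅d, u'⁆ = 1 := by
            apply Subtype.ext
            change x * u * x⁻¹ * u⁻¹ = 1
            rw [h4, hxvc]; group
          rw [this, map_one]; exact one_mem _
        · have : u' = ai' := Subtype.ext h4
          rw [this]; exact hbase
        · have : ⁅d, u'⁆ = ⁅d, ai'⁆ := by
            apply Subtype.ext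
            change x * u * x⁻¹ * u⁻¹ = x * ai * x⁻¹ * ai⁻¹
            have hv2 : Commute v x := hxvc.symm
            have hv3 : Commute v ai := hVc v hv ai hai
            have hv4 : Commute v (x * ai * x⁻¹ * ai⁻¹) :=
              ((hv2.mul_right hv3).mul_right hv2.inv_right).mul_right hv3.inv_right
            rw [h4]
            calc x * (v * ai) * x⁻¹ * (v * ai)⁻¹ = (x * v) * ai * x⁻¹ * ai⁻¹ * v⁻¹ := by group
              _ = v * (x * ai * x⁻¹ * ai⁻¹) * v⁻¹ := by rw [hxvc]; group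
              _ = (x * ai * x⁻¹ * ai⁻¹) * v * v⁻¹ := by rw [hv4.eq]
              _ = x * ai * x⁻¹ * ai⁻¹ := by group
          rw [this]; exact hbase
  · rw [hcomm, map_mul]
    exact mul_mem (pi_mem_pCore hav haord hda) (pi_mem_pCore hav haord hda2)

/-- the core of the centralizer of a subgroup -/
abbrev KV (V : Subgroup G) : Subgroup G :=
  (Cfsg.oddCore ↥(centralizer (V : Set G))).map (centralizer (V : Set G)).subtype

theorem KV_le (V : Subgroup G) : KV V ≤ centralizer (V : Set G) := map_subtype_le _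

theorem odd_KV (V : Subgroup G) : (Nat.card (KV V)).Coprime 2 := card_pPrimeCoreOf_coprime _

theorem le_normalizer_KV (V : Subgroup G) : centralizer (V : Set G) ≤ normalizer (KV V : Set G) :=
  le_normalizer.trans (le_normalizer_pPrimeCoreOf _)

theorem le_KV {V D : Subgroup G} (hD : D ≤ centralizer (V : Set G)) (hn : centralizer (V : Set G) ≤ normalizer (D : Set G))
    (hc : (Nat.card D).Coprime 2) : D ≤ KV V := le_pPrimeCoreOf hD hn hc

/-- the separation hypothesis, for one ordering -/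
def Sep (V V' : Subgroup G) : Prop :=
  Cfsg.IsElementaryAbelian 2 V ∧ Cfsg.IsElementaryAbelian 2 V' ∧ Nat.card V = 4 ∧
  (∀ x ∈ V, ∀ y ∈ V', x * y = y * x) ∧
  (∀ b ∈ V ⊔ V', b ≠ 1 → ∀ L : Subgroup (CC b ⧸ Cfsg.pPrimeCore 2 (CC b)), Cfsg.IsComponent L →
      (∀ u : CC b, (u : G) ∈ V → piMap 2 (CC b) u ∈ centralizer (L : Set (CC b ⧸ Cfsg.pPrimeCore 2 (CC b)))) ∨
      (∀ u : CC b, (u : G) ∈ V' → piMap 2 (CC b) u ∈ centralizer (L : Set (CC b ⧸ Cfsg.pPrimeCore 2 (CC b)))))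

theorem Sep.comm {V V' : Subgroup G} (h : Sep V V') {x y : G} (hx : x ∈ V ⊔ V') (hy : y ∈ V ⊔ V') :
    x * y = y * x := by
  have hV : V ≤ normalizer (V' : Set G) := by
    intro x hx
    apply centralizer_le_normalizer
    rw [mem_centralizer_iff]
    intro y hy
    exact (h.2.2.2.1 x hx y hy).symm
  obtain ⟨x1, hx1, x2, hx2, rfl⟩ := mem_sup_of_le_normalizer hV hx
  obtain ⟨y1, hy1, y2, hy2, rfl⟩ := mem_sup_of_le_normalizer hV hy
  have e1 : Commute x1 y1 := congrArg Subtype.val (h.1.1.1.1 ⟨x1, hx1⟩ ⟨y1, hy1⟩)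
  have e2 : Commute x2 y2 := congrArg Subtype.val (h.2.1.1.1.1 ⟨x2, hx2⟩ ⟨y2, hy2⟩)
  have e3 : Commute x1 y2 := h.2.2.2.1 x1 hx1 y2 hy2
  have e4 : Commute x2 y1 := (h.2.2.2.1 y1 hy1 x2 hx2).symm
  exact ((e1.mul_right e3).mul_left (e4.mul_right e2)).eq

theorem Sep.pow {V V' : Subgroup G} (h : Sep V V') {x : G} (hx : x ∈ V ⊔ V') : x ^ 2 = 1 := by
  have hV : V ≤ normalizer (V' : Set G) := by
    intro x hx
    apply centralizer_le_normalizer
    rw [mem_centralizer_iff]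
    intro y hy
    exact (h.2.2.2.1 x hx y hy).symm
  obtain ⟨x1, hx1, x2, hx2, rfl⟩ := mem_sup_of_le_normalizer hV hx
  have e3 : Commute x1 x2 := h.2.2.2.1 x1 hx1 x2 hx2
  rw [e3.mul_pow, h.1.2 x1 hx1, h.2.1.2 x2 hx2, one_mul]

theorem Sep.order {V V' : Subgroup G} (h : Sep V V') {x : G} (hx : x ∈ V ⊔ V') (hx1 : x ≠ 1) : orderOf x = 2 :=
  orderOf_eq_prime (h.pow hx) hx1

theorem Sep.mem_CC {V V' : Subgroup G} (h : Sep V V') {x y : G} (hx : x ∈ V ⊔ V') (hy : y ∈ V ⊔ V') :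
    x ∈ CC y := mem_centralizer_singleton_iff.2 (h.comm hx hy)

theorem Sep.le_normalizer_cp {V V' : Subgroup G} (h : Sep V V') {a : G} (ha : a ∈ V ⊔ V') :
    V ⊔ V' ≤ normalizer (cp a : Set G) :=
  fun _ hx => centralizer_le_normalizer_centralizerPPrimeCore a (h.mem_CC hx ha)

theorem Sep.isP {V V' : Subgroup G} (h : Sep V V') : IsPGroup 2 V := by
  intro x
  exact ⟨1, Subtype.ext (by rw [Subgroup.coe_pow, pow_one, Subgroup.coe_one]; exact h.1.2 x x.2)⟩

theorem Sep.coprime {V V' : Subgroup G} (h : Sep V V') {D : Subgroup G} (hD : (Nat.card D).Coprime 2) :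
    (Nat.card V).Coprime (Nat.card D) := by
  rw [h.2.2.1]
  exact (Nat.Coprime.pow_left 2 hD.symm : (2 ^ 2).Coprime _)

theorem solv {D : Subgroup G} (hD : (Nat.card D).Coprime 2) : Group.IsSolvable D :=
  FT.solvable_of_odd (Nat.coprime_two_left.1 hD.symm)

theorem Sep.key2 {V V' : Subgroup G} (h : Sep V V') {a v x u : G} (ha : a ∈ V ⊔ V') (ha1 : a ≠ 1) (hv : v ∈ V)
    (hv1 : v ≠ 1) (hx : x ∈ cp a) (hxv : x ∈ CC v) (hu : u ∈ V) : ⁅x, u⁆ ∈ cp v := by
  have hV : V ≤ normalizer (V' : Set G) := by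
    intro x hx
    apply centralizer_le_normalizer
    rw [mem_centralizer_iff]
    intro y hy
    exact (h.2.2.2.1 x hx y hy).symm
  obtain ⟨x1, hx1, x2, hx2, rfl⟩ := mem_sup_of_le_normalizer hV ha
  exact CSep.key2 h.1 h.2.1 h.2.2.1 h.2.2.2.1 h.2.2.2.2 hx1 hx2 ha1 hv hv1 hx hxv hu

/-- L3 -/
theorem Sep.key3 {V V' : Subgroup G} (h : Sep V V') {a : G} (ha : a ∈ V ⊔ V') (ha1 : a ≠ 1) :
    ⁅cp a, V⁆ ⊓ centralizer (V : Set G) ≤ KV V := by
  have hVn : V ≤ normalizer (cp a : Set G) := le_sup_left.trans (h.le_normalizer_cp ha)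
  have hle : ⁅cp a, V⁆ ≤ cp a := le_normalizer_iff_commutator_le_left.1 hVn
  have hodd : (Nat.card (⁅cp a, V⁆ : Subgroup G)).Coprime 2 :=
    Nat.Coprime.coprime_dvd_left (Subgroup.card_dvd_of_le hle) (odd_cp a)
  have hcop := h.coprime hodd
  have hcopa := h.coprime (odd_cp a)
  have hYA : ⁅⁅cp a, V⁆, V⁆ = ⁅cp a, V⁆ :=
    commutator_commutator_eq hVn hcopa (Or.inr (solv (odd_cp a)))
  have hVY : V ≤ normalizer ((⁅cp a, V⁆ : Subgroup G) : Set G) := normalizer_commutator_ge_right _ _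
  refine (S1329.main_rel V ⁅cp a, V⁆ h.1.1 hVY hcop (solv hodd) hYA).trans ?_
  refine iSup₂_le fun B hB => ?_
  have hBV : B ≤ V := hB.1
  obtain ⟨v, hvB, hv1⟩ : ∃ v ∈ B, v ≠ 1 := by
    by_contra hcon
    push Not at hcon
    obtain ⟨w, hw, hBw⟩ := hB.2
    have hB1 : B = ⊥ := by
      rw [eq_bot_iff]
      intro z hz
      exact mem_bot.2 (hcon z hz)
    rw [hB1, bot_sup_eq] at hBw
    have h1 : Nat.card (zpowers w) = 4 := by rw [hBw]; exact h.2.2.1
    rw [Nat.card_zpowers] at h1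
    have h2 : orderOf w ∣ 2 := orderOf_dvd_of_pow_eq_one (h.1.2 w hw)
    rw [h1] at h2
    exact absurd h2 (by decide)
  have hv : v ∈ V := hBV hvB
  have h1 : centralizer (V : Set G) ⊓ ⁅⁅cp a, V⁆ ⊓ centralizer (B : Set G), V⁆ ≤ centralizer (V : Set G) ⊓ cp v := by
    refine inf_le_inf_left _ ?_
    rw [commutator_le]
    intro x hx u hu
    exact h.key2 ha ha1 hv hv1 (hle hx.1)
      (mem_centralizer_singleton_iff.2 (mem_centralizer_iff.1 hx.2 v hvB).symm) hu
  refine h1.trans ?_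
  apply le_KV inf_le_left
  · intro g hg
    refine mem_normalizer_of_forall fun y hy => ⟨?_, ?_⟩
    · exact (centralizer (V : Set G)).mul_mem ((centralizer (V : Set G)).mul_mem hg hy.1)
        ((centralizer (V : Set G)).inv_mem hg)
    · refine (mem_normalizer_iff.1 (centralizer_le_normalizer_centralizerPPrimeCore v ?_) y).1 hy.2
      exact mem_centralizer_singleton_iff.2 (mem_centralizer_iff.1 hg v hv).symm
  · exact Nat.Coprime.coprime_dvd_left (Subgroup.card_dvd_of_le inf_le_right) (odd_cp v)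

abbrev th (V : Subgroup G) (a : G) : Subgroup G := ⁅cp a, V⁆ ⊔ (cp a ⊓ KV V)

/-- L4 -/
theorem Sep.key4 {V V' : Subgroup G} (h : Sep V V') {a : G} (ha : a ∈ V ⊔ V') (ha1 : a ≠ 1) {x : G}
    (hx : x ∈ th V a) (hxV : x ∈ centralizer (V : Set G)) : x ∈ KV V := by
  have hVn : V ≤ normalizer (cp a : Set G) := le_sup_left.trans (h.le_normalizer_cp ha)
  have hn : cp a ⊓ KV V ≤ normalizer ((⁅cp a, V⁆ : Subgroup G) : Set G) :=
    inf_le_left.trans (normalizer_commutator_ge_left _ _)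
  rw [th, sup_comm] at hx
  obtain ⟨w, hw, u, hu, rfl⟩ := mem_sup_of_le_normalizer hn hx
  have hwV := KV_le V hw.2
  have h1 : u ∈ centralizer (V : Set G) := by
    have := (centralizer (V : Set G)).mul_mem ((centralizer (V : Set G)).inv_mem hwV) hxV
    rwa [inv_mul_cancel_left] at this
  exact mul_mem hw.2 (h.key3 ha ha1 ⟨hu, h1⟩)

theorem th_le (V V' : Subgroup G) (h : Sep V V') {a : G} (ha : a ∈ V ⊔ V') : th V a ≤ cp a :=
  sup_le (le_normalizer_iff_commutator_le_left.1 (le_sup_left.trans (h.le_normalizer_cp ha))) inf_le_left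

/-- L5, one component -/
theorem Sep.cent {V V' : Subgroup G} (h : Sep V V') {a b : G} (ha : a ∈ V ⊔ V') (ha1 : a ≠ 1)
    (hb : b ∈ V ⊔ V') {X : Subgroup G} (hXa : X ≤ cp a) (hXn : V ≤ normalizer (X : Set G)) (hXb : X ≤ CC b)
    (hXt : X ≤ th V a) {L : Subgroup (CC b ⧸ Cfsg.pPrimeCore 2 (CC b))} (hL : Cfsg.IsComponent L)
    (hVL : ∀ u : CC b, (u : G) ∈ V → piMap 2 (CC b) u ∈ centralizer (L : Set (CC b ⧸ Cfsg.pPrimeCore 2 (CC b))))
    {d : CC b} (hd : (d : G) ∈ X) :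
    piMap 2 (CC b) d ∈ centralizer (L : Set (CC b ⧸ Cfsg.pPrimeCore 2 (CC b))) := by
  have hab : a ∈ CC b := h.mem_CC ha hb
  have haord := h.order ha ha1
  have hXo : (Nat.card X).Coprime 2 := Nat.Coprime.coprime_dvd_left (Subgroup.card_dvd_of_le hXa) (odd_cp a)
  have hVb : ∀ u ∈ V, u ∈ CC b := fun u hu => h.mem_CC (mem_sup_left hu) hb
  obtain ⟨u, hu, c, hc, hduc⟩ := exists_eq_mul_of_mem hXn (h.coprime hXo) (Or.inr (solv hXo)) hd
  have hu2 : u ∈ ((centralizer (L : Set (CC b ⧸ Cfsg.pPrimeCore 2 (CC b)))).comap (piMap 2 (CC b))).map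
      (CC b).subtype := by
    refine (commutator_le.2 ?_ : ⁅X, V⁆ ≤ _) hu
    intro x hx v hv
    refine ⟨⁅(⟨x, hXb hx⟩ : CC b), ⟨v, hVb v hv⟩⁆, ?_, rfl⟩
    rw [SetLike.mem_coe, mem_comap, map_commutatorElement]
    exact comm_mem_of_right (pi_mem_normalizer hab haord (hXa hx) hL) (hVL _ hv)
  obtain ⟨u', hu'1, hu'2⟩ := hu2
  have hcb : c ∈ CC b := hXb hc.1
  have hcK : c ∈ KV V := h.key4 ha ha1 (hXt hc.1) hc.2
  have hd2 : d = u' * ⟨c, hcb⟩ := by
    apply Subtype.ext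
    change (d : G) = (u' : G) * c
    rw [hduc, ← hu'2]; rfl
  rw [hd2, map_mul]
  refine mul_mem hu'1 ?_
  set D := ((KV V).subgroupOf (CC b)).map (piMap 2 (CC b)) with hD
  have hDo : (Nat.card D).Coprime 2 := by
    refine Nat.Coprime.coprime_dvd_left (Subgroup.card_map_dvd _ _) ?_
    refine Nat.Coprime.coprime_dvd_left (Subgroup.card_dvd_of_injective
      (f := ((CC b).subtype.comp ((KV V).subgroupOf (CC b)).subtype).codRestrict (KV V) ?_) ?_) (odd_KV V)
    · intro x; exact x.2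
    · intro x y hxy
      apply Subtype.ext
      apply Subtype.ext
      have h9 := congrArg Subtype.val hxy
      exact h9
  have hP : IsPGroup 2 (V.subgroupOf (CC b)) := by
    intro x
    refine ⟨1, ?_⟩
    apply Subtype.ext
    apply Subtype.ext
    change ((x : CC b) : G) ^ 2 ^ 1 = 1
    rw [pow_one]
    exact h.1.2 _ x.2
  have hLn : L ≤ normalizer (D : Set (CC b ⧸ Cfsg.pPrimeCore 2 (CC b))) := by
    intro y hy
    have hy1 : y ∈ centralizer (((V.subgroupOf (CC b)).map (piMap 2 (CC b)) :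
        Subgroup (CC b ⧸ Cfsg.pPrimeCore 2 (CC b))) : Set (CC b ⧸ Cfsg.pPrimeCore 2 (CC b))) := by
      rw [mem_centralizer_iff]
      rintro _ ⟨w, hw, rfl⟩
      exact (mem_centralizer_iff.1 (hVL w hw) y hy).symm
    rw [← map_centralizer _ (QuotientGroup.mk'_surjective _) (piMap_ker_coprime _) hP] at hy1
    obtain ⟨g, hg, rfl⟩ := hy1
    have hgV : (g : G) ∈ centralizer (V : Set G) := by
      rw [mem_centralizer_iff]
      intro w hw
      exact congrArg Subtype.val (mem_centralizer_iff.1 hg ⟨w, hVb w hw⟩ hw)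
    refine mem_normalizer_of_forall ?_
    rintro _ ⟨z, hz, rfl⟩
    refine ⟨g * z * g⁻¹, ?_, by rw [map_mul, map_mul, map_inv]⟩
    exact (mem_normalizer_iff.1 (le_normalizer_KV V hgV) z).1 hz
  have hcomm := component_commute_solvable hL (solv hDo) hLn
  rw [Subgroup.commutator_comm, Subgroup.commutator_eq_bot_iff_le_centralizer] at hcomm
  exact hcomm ⟨⟨c, hcb⟩, hcK, rfl⟩

/-- L5 -/
theorem key5 {V V' : Subgroup G} (h : Sep V V') (h' : Sep V' V) {a b : G} (ha : a ∈ V ⊔ V') (ha1 : a ≠ 1)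
    (hb : b ∈ V ⊔ V') (hb1 : b ≠ 1) {X : Subgroup G} (hXa : X ≤ cp a) (hXn : V ⊔ V' ≤ normalizer (X : Set G))
    (hXb : X ≤ CC b) (hXt : X ≤ th V a) (hXt' : X ≤ th V' a) : X ≤ cp b := by
  intro x hx
  have hab : a ∈ CC b := h.mem_CC ha hb
  have haord := h.order ha ha1
  have hXo : (Nat.card X).Coprime 2 := Nat.Coprime.coprime_dvd_left (Subgroup.card_dvd_of_le hXa) (odd_cp a)
  set d : CC b := ⟨x, hXb hx⟩ with hd
  suffices hs : piMap 2 (CC b) d = 1 from mem_pPrimeCoreOf_of_map hs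
  apply eq_one_of_centralizes (hO b)
  · have h1 := Cfsg.Agent.Transfer.coprime_orderOf_of_coprime_card hXo hx
    have h2 : orderOf x = orderOf d := Subgroup.orderOf_coe d
    rw [h2] at h1
    exact Nat.Coprime.coprime_dvd_left (orderOf_map_dvd _ _) h1
  · intro L hL
    rcases h.2.2.2.2 b hb hb1 L hL with h1 | h1
    · exact h.cent ha ha1 hb hXa (le_sup_left.trans hXn) hXb hXt hL h1 hx
    · have ha' : a ∈ V' ⊔ V := by rwa [sup_comm]
      have hb' : b ∈ V' ⊔ V := by rwa [sup_comm]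
      exact h'.cent ha' ha1 hb' hXa (le_sup_right.trans hXn) hXb hXt' hL h1 hx
  · exact pi_mem_pCore hab haord (hXa hx)

/-- L6 -/
theorem key6 {V V' : Subgroup G} (h : Sep V V') {a b : G} (ha : a ∈ V ⊔ V') (ha1 : a ≠ 1)
    {X : Subgroup G} (hXa : X ≤ cp a) (hXn : V ⊔ V' ≤ normalizer (X : Set G))
    (hXt : X ≤ th V a) (hXcb : X ≤ cp b) : X ≤ th V b := by
  intro x hx
  have hXo : (Nat.card X).Coprime 2 := Nat.Coprime.coprime_dvd_left (Subgroup.card_dvd_of_le hXa) (odd_cp a)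
  obtain ⟨u, hu, c, hc, rfl⟩ := exists_eq_mul_of_mem (le_sup_left.trans hXn) (h.coprime hXo) (Or.inr (solv hXo)) hx
  refine mul_mem (mem_sup_left (commutator_mono hXcb le_rfl hu)) (mem_sup_right ⟨hXcb hc.1, ?_⟩)
  exact h.key4 ha ha1 (hXt hc.1) hc.2

theorem Sep.le_normalizer_th {V V' : Subgroup G} (h : Sep V V') {a : G} (ha : a ∈ V ⊔ V') :
    V ⊔ V' ≤ normalizer (th V a : Set G) := by
  intro g hg
  have hgC : g ∈ centralizer (V : Set G) := by
    rw [mem_centralizer_iff]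
    intro v hv
    exact h.comm (mem_sup_left hv) hg
  have h1 : (cp a).map (MulAut.conj g).toMonoidHom = cp a :=
    mem_normalizer_iff_map_conj_eq.1 (h.le_normalizer_cp ha hg)
  have h2 : V.map (MulAut.conj g).toMonoidHom = V :=
    mem_normalizer_iff_map_conj_eq.1 (centralizer_le_normalizer _ hgC)
  have h3 : (KV V).map (MulAut.conj g).toMonoidHom = KV V :=
    mem_normalizer_iff_map_conj_eq.1 (le_normalizer_KV V hgC)
  refine mem_normalizer_iff_map_conj_eq.2 ?_
  change (⁅cp a, V⁆ ⊔ (cp a ⊓ KV V)).map (MulAut.conj g).toMonoidHom = _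
  rw [Subgroup.map_sup, Subgroup.map_commutator, Subgroup.map_inf _ _ _ (MulAut.conj g).injective, h1, h2, h3]

end Main

end Cfsg.Agent.H65.CSep
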