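import Mathlib

/-! Abelianization of a cyclic extension (owner: helper65). -/

set_option autoImplicit false

namespace Cfsg.Agent.H65.CycExt

open Subgroup
open scoped commutatorElement

variable {P : Type*} [Group P] (Q : Subgroup P) [Q.Normal] {A : Type*} [CommGroup A] (φ : Q →* A)

/-- the norm homomorphism -/
noncomputable def nm (x : P) (n : ℕ) : Q →* A :=
  ∏ i ∈ Finset.range n, φ.comp (MulAut.conjNormal (x ^ i) : Q ≃* Q).toMonoidHom

theorem nm_apply (x : P) (n : ℕ) (q : Q) :
    nm Q φ x n q = ∏ i ∈ Finset.range n, φ (MulAut.conjNormal (x ^ i) q) := by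
  rw [nm, MonoidHom.finsetProd_apply]
  rfl

variable {Q φ}

theorem nm_conj_mem (x : P) (n : ℕ) (u q : Q) :
    nm Q φ x n (MulAut.conjNormal (u : P) q) = nm Q φ x n q := by
  have h1 : MulAut.conjNormal (u : P) q = u * q * u⁻¹ := Subtype.ext (by simp)
  rw [h1, map_mul, map_mul, map_inv, mul_comm, ← mul_assoc, inv_mul_cancel, one_mul]

theorem nm_conj_gen {x : P} {n : ℕ} (hn : x ^ n ∈ Q) (q : Q) :
    nm Q φ x n (MulAut.conjNormal x q) = nm Q φ x n q := by
  rw [nm_apply, nm_apply]
  have h1 : ∀ i, φ (MulAut.conjNormal (x ^ i) (MulAut.conjNormal x q)) = φ (MulAut.conjNormal (x ^ (i + 1)) q) := by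
    intro i
    congr 1
    rw [← MulAut.mul_apply, ← map_mul, ← pow_succ]
  simp only [h1]
  have h2 := Finset.prod_range_succ (fun i => φ (MulAut.conjNormal (x ^ i) q)) n
  have h3 := Finset.prod_range_succ' (fun i => φ (MulAut.conjNormal (x ^ i) q)) n
  rw [h2] at h3
  have h4 : φ (MulAut.conjNormal (x ^ n) q) = φ (MulAut.conjNormal (x ^ 0) q) := by
    have h5 : MulAut.conjNormal (x ^ n) q = ⟨x ^ n, hn⟩ * q * (⟨x ^ n, hn⟩ : Q)⁻¹ :=
      Subtype.ext (by rw [MulAut.conjNormal_apply]; rfl)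
    have h6 : MulAut.conjNormal (x ^ 0) q = q := Subtype.ext (by simp)
    rw [h5, h6, map_mul, map_mul, map_inv, mul_comm, ← mul_assoc, inv_mul_cancel, one_mul]
  rw [h4] at h3
  exact (mul_right_cancel h3).symm

theorem nm_conj {x : P} {n : ℕ} (hx : zpowers x ⊔ Q = ⊤) (hn : x ^ n ∈ Q) (a : P) (q : Q) :
    nm Q φ x n (MulAut.conjNormal a q) = nm Q φ x n q := by
  let S : Subgroup P :=
    { carrier := {a | ∀ q : Q, nm Q φ x n (MulAut.conjNormal a q) = nm Q φ x n q}
      one_mem' := by intro q; rw [map_one]; rfl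
      mul_mem' := by
        intro a b ha hb q
        rw [map_mul, MulAut.mul_apply, ha, hb]
      inv_mem' := by
        intro a ha q
        have h := ha (MulAut.conjNormal a⁻¹ q)
        rw [← MulAut.mul_apply, ← map_mul, mul_inv_cancel, map_one] at h
        exact h.symm }
  have h1 : S = ⊤ := by
    rw [eq_top_iff, ← hx]
    refine sup_le ?_ ?_
    · rw [zpowers_le]; exact nm_conj_gen hn
    · intro u hu; exact nm_conj_mem x n ⟨u, hu⟩
  have h2 : a ∈ S := by rw [h1]; trivial
  exact h2 q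

/-- The derived subgroup is in the kernel of the norm map. -/
theorem commutator_le {x : P} {n : ℕ} (hx : zpowers x ⊔ Q = ⊤) (hn : x ^ n ∈ Q) :
    commutator P ≤ ((nm Q φ x n).ker).map Q.subtype := by
  set M := ((nm Q φ x n).ker).map Q.subtype with hM
  have hMn : M.Normal := by
    constructor
    rintro _ ⟨q, hq, rfl⟩ a
    refine ⟨MulAut.conjNormal a q, ?_, by simp⟩
    change _ = _
    rw [nm_conj hx hn]
    exact hq
  have h1 : ∀ a : P, ∀ q ∈ Q, a * q * a⁻¹ * q⁻¹ ∈ M := by
    intro a q hq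
    refine ⟨MulAut.conjNormal a ⟨q, hq⟩ * (⟨q, hq⟩ : Q)⁻¹, ?_, by simp⟩
    change _ = _
    rw [map_mul, nm_conj hx hn, map_inv, mul_inv_cancel]
  let f := QuotientGroup.mk' M
  have hgen : zpowers (f x) ⊔ Q.map f = ⊤ := by
    rw [← MonoidHom.map_zpowers, ← Subgroup.map_sup, hx, map_top_of_surjective _ (QuotientGroup.mk'_surjective M)]
  have h2 : Q.map f ≤ center (P ⧸ M) := by
    rintro _ ⟨q, hq, rfl⟩
    rw [mem_center_iff]
    intro g
    obtain ⟨g, rfl⟩ := QuotientGroup.mk'_surjective M g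
    have h3 : f (g * q * g⁻¹ * q⁻¹) = 1 := (QuotientGroup.eq_one_iff _).2 (h1 g q hq)
    rw [map_mul, map_mul, map_mul, map_inv, map_inv, mul_inv_eq_one, mul_inv_eq_iff_eq_mul] at h3
    exact h3
  have h4 : f x ∈ center (P ⧸ M) := by
    have h5 : (⊤ : Subgroup (P ⧸ M)) ≤ centralizer {f x} := by
      rw [← hgen]
      refine sup_le ?_ (h2.trans (center_le_centralizer _))
      rw [zpowers_le, mem_centralizer_singleton_iff]
    rw [mem_center_iff]
    intro g
    exact mem_centralizer_singleton_iff.1 (h5 (mem_top g))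
  have h6 : center (P ⧸ M) = ⊤ := by
    rw [eq_top_iff, ← hgen]
    refine sup_le ?_ h2
    rw [zpowers_le]; exact h4
  rw [commutator_def, Subgroup.commutator_le]
  intro a _ b _
  have h7 : f b ∈ center (P ⧸ M) := by rw [h6]; trivial
  have h8 := mem_center_iff.1 h7 (f a)
  rw [← QuotientGroup.eq_one_iff]
  change f ⁅a, b⁆ = 1
  rw [commutatorElement_def, map_mul, map_mul, map_mul, h8, map_inv, map_inv]
  group

end Cfsg.Agent.H65.CycExt
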