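import Mathlib
import Cfsg.Agent.Transfer.Fusion
import Cfsg.Agent.H65.Dihed

/-!
# Normal Sylow subgroups with cyclic quotient
-/

set_option autoImplicit false

namespace Cfsg.Agent.H65.PCyc

open Subgroup Cfsg.Agent.Transfer

section abstract
variable {H : Type*} [Group H] [Finite H] {p : ℕ} [hp : Fact p.Prime]

/-- `Q` a normal `p`-subgroup with cyclic quotient: the Sylow subgroups are normal with cyclic quotient. -/
theorem sylow_of_quotient_cyclic (Q : Subgroup H) [Q.Normal] (hQ : IsPGroup p Q) (hc : IsCyclic (H ⧸ Q)) :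
    (∀ S : Sylow p H, (S : Subgroup H).Normal) ∧
      ∀ (S : Sylow p H) [(S : Subgroup H).Normal], IsCyclic (H ⧸ (S : Subgroup H)) := by
  have hle : ∀ S : Sylow p H, Q ≤ S := by
    intro S
    have h1 : IsPGroup p ((Q ⊔ (S : Subgroup H) : Subgroup H)) := hQ.to_sup_of_normal_left S.2
    have h2 := S.3 h1 le_sup_right
    rw [← h2]
    exact le_sup_left
  have hcomm : ∀ x y : H, x * y * x⁻¹ * y⁻¹ ∈ Q := by
    intro x y
    obtain ⟨g, hg⟩ := hc
    rw [← QuotientGroup.eq_one_iff]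
    change (x : H ⧸ Q) * y * (x : H ⧸ Q)⁻¹ * (y : H ⧸ Q)⁻¹ = 1
    obtain ⟨a, ha⟩ := hg (x : H ⧸ Q)
    obtain ⟨b, hb⟩ := hg (y : H ⧸ Q)
    rw [← ha, ← hb]
    change g ^ a * g ^ b * (g ^ a)⁻¹ * (g ^ b)⁻¹ = 1
    rw [← zpow_add, add_comm, zpow_add]
    group
  refine ⟨fun S => ⟨fun n hn g => ?_⟩, fun S hS => ?_⟩
  · have h1 := hle S (hcomm g n)
    have e : g * n * g⁻¹ = g * n * g⁻¹ * n⁻¹ * n := by group
    rw [e]
    exact mul_mem h1 hn
  · let f : H ⧸ Q →* H ⧸ (S : Subgroup H) := QuotientGroup.map Q (S : Subgroup H) (MonoidHom.id H) (by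
      intro x hx; exact hle S hx)
    have hf : Function.Surjective f := by
      intro y
      obtain ⟨x, rfl⟩ := QuotientGroup.mk_surjective y
      exact ⟨(x : H ⧸ Q), rfl⟩
    exact isCyclic_of_surjective f hf

/-- A central cyclic subgroup of coprime index with cyclic quotient. -/
theorem isCyclic_of_central (S : Subgroup H) [S.Normal] (hS : IsCyclic S)
    (hcen : ∀ s ∈ S, ∀ x : H, s * x = x * s) (hc : IsCyclic (H ⧸ S)) (hcop : (Nat.card S).Coprime S.index) :
    IsCyclic H := by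
  obtain ⟨s, hs⟩ := hS
  obtain ⟨g, hg⟩ := hc
  obtain ⟨y, rfl⟩ := QuotientGroup.mk_surjective g
  set m := S.index with hm
  have hyo : orderOf (y : H ⧸ S) = m := by
    rw [orderOf_eq_card_of_forall_mem_zpowers hg, hm, Subgroup.index_eq_card]
  have hym : y ^ m ∈ S := by
    rw [← QuotientGroup.eq_one_iff, QuotientGroup.mk_pow, ← hyo, pow_orderOf_eq_one]
  set t := y ^ (Nat.card S) with ht
  have ht1 : t ^ m = 1 := by
    rw [ht, ← pow_mul, mul_comm, pow_mul]
    have : (⟨y ^ m, hym⟩ : S) ^ Nat.card S = 1 := pow_card_eq_one'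
    exact congrArg Subtype.val this
  have ht2 : orderOf t = m := by
    apply Nat.dvd_antisymm (orderOf_dvd_of_pow_eq_one ht1)
    have h1 : orderOf ((t : H) : H ⧸ S) = m := by
      rw [ht, QuotientGroup.mk_pow, Nat.Coprime.orderOf_pow (by rw [hyo]; exact hcop.symm), hyo]
    rw [← h1]
    exact orderOf_map_dvd (QuotientGroup.mk' S) t
  have hso : orderOf (s : H) = Nat.card S := by
    rw [Subgroup.orderOf_coe, orderOf_eq_card_of_forall_mem_zpowers hs]
  have hst : Commute (s : H) t := hcen s s.2 t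
  refine isCyclic_of_orderOf_eq_card ((s : H) * t) ?_
  rw [hst.orderOf_mul_eq_mul_orderOf_of_coprime (by rw [hso, ht2]; exact hcop), hso, ht2, hm, Subgroup.card_mul_index]

/-- Normal cyclic Sylow with normal complement and cyclic quotient: cyclic. -/
theorem isCyclic_of_hasNPC (S : Sylow p H) (hSn : (S : Subgroup H).Normal) (hS : IsCyclic S)
    (hc : IsCyclic (H ⧸ (S : Subgroup H))) (hN : Cfsg.HasNormalPComplement p H) : IsCyclic H := by
  refine isCyclic_of_central (S : Subgroup H) hS ?_ hc ?_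
  · intro s hs x
    obtain ⟨a, b, hab, ⟨k, hk⟩, hb⟩ := exists_pow_decomp p x (orderOf_pos x).ne'
    have h1 : x ^ a ∈ (S : Subgroup H) := by
      refine mem_sylow_of_mem_normalizer (P := S) (k := k) ?_ (by rw [← hk, pow_orderOf_eq_one])
      have : normalizer ((S : Subgroup H) : Set H) = ⊤ := Subgroup.normalizer_eq_top_iff.2 hSn
      change x ^ a ∈ normalizer ((S : Subgroup H) : Set H)
      rw [this]; trivial
    have h2 : x ^ b ∈ centralizer ((S : Subgroup H) : Set H) := by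
      refine HasNPC.mem_centralizer hN S.2 ?_ hb
      rw [Subgroup.normalizer_eq_top_iff.2 hSn]; trivial
    have h3 : s * x ^ b = x ^ b * s := mem_centralizer_iff.1 h2 s hs
    have h4 : s * x ^ a = x ^ a * s := by
      let _ : CommGroup (S : Subgroup H) := hS.commGroup
      have := mul_comm (⟨s, hs⟩ : (S : Subgroup H)) ⟨x ^ a, h1⟩
      exact congrArg Subtype.val this
    rw [hab]
    calc s * (x ^ a * x ^ b) = (s * x ^ a) * x ^ b := by group
      _ = x ^ a * (s * x ^ b) := by rw [h4]; group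
      _ = _ := by rw [h3]; group
  · have := S.card_coprime_index
    exact this

end abstract

section subgroup
variable {G : Type*} [Group G] [Finite G] {p : ℕ} [hp : Fact p.Prime]

/-- For `x ∈ N(Q)`, `Q⟨x⟩` has normal Sylow `p`-subgroup with cyclic quotient. -/
theorem sylow_sup_zpowers {Q : Subgroup G} (hQ : IsPGroup p Q) {x : G} (hx : x ∈ normalizer (Q : Set G)) :
    (∀ S : Sylow p ↥(Q ⊔ zpowers x), (S : Subgroup ↥(Q ⊔ zpowers x)).Normal) ∧
      ∀ (S : Sylow p ↥(Q ⊔ zpowers x)) [(S : Subgroup ↥(Q ⊔ zpowers x)).Normal],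
        IsCyclic (↥(Q ⊔ zpowers x) ⧸ (S : Subgroup ↥(Q ⊔ zpowers x))) := by
  have hle : Q ⊔ zpowers x ≤ normalizer (Q : Set G) := sup_le le_normalizer (by rw [zpowers_le]; exact hx)
  have hn : (Q.subgroupOf (Q ⊔ zpowers x)).Normal := by
    rw [Subgroup.normal_subgroupOf_iff_le_normalizer le_sup_left]
    exact hle
  refine sylow_of_quotient_cyclic (Q.subgroupOf (Q ⊔ zpowers x)) (hQ.comap_of_injective _ (Subgroup.subtype_injective _)) ?_
  have hxm : x ∈ Q ⊔ zpowers x := mem_sup_right (mem_zpowers x)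
  refine ⟨((⟨x, hxm⟩ : ↥(Q ⊔ zpowers x)) : ↥(Q ⊔ zpowers x) ⧸ Q.subgroupOf (Q ⊔ zpowers x)), fun y => ?_⟩
  obtain ⟨⟨h, hh⟩, rfl⟩ := QuotientGroup.mk_surjective y
  have h1 : ∃ q ∈ Q, ∃ k : ℤ, q * x ^ k = h := by
    have h2 : (Q ⊔ zpowers x : Subgroup G) ≤ normalizer (Q : Set G) := hle
    rw [← SetLike.mem_coe] at hh
    have h3 := Subgroup.coe_mul_of_right_le_normalizer_left Q (zpowers x) (by rw [zpowers_le]; exact hx)
    rw [h3] at hh
    obtain ⟨q, hq, z, ⟨k, hk⟩, hqz⟩ := hh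
    refine ⟨q, hq, k, ?_⟩
    change x ^ k = z at hk
    rw [hk]
    exact hqz
  obtain ⟨q, hq, k, rfl⟩ := h1
  refine ⟨k, ?_⟩
  change ((⟨x, hxm⟩ : ↥(Q ⊔ zpowers x)) : ↥(Q ⊔ zpowers x) ⧸ Q.subgroupOf (Q ⊔ zpowers x)) ^ k = _
  rw [← QuotientGroup.mk_zpow, QuotientGroup.eq, mem_subgroupOf]
  have h4 : q * x ^ k ∈ Q ⊔ zpowers x := hh
  change ((⟨x, hxm⟩ : ↥(Q ⊔ zpowers x)) ^ k : G)⁻¹ * (q * x ^ k) ∈ Q
  push_cast
  have h5 := (mem_normalizer_iff.1 (inv_mem (zpow_mem hx k)) q).1 hq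
  have e : (x ^ k)⁻¹ * (q * x ^ k) = (x ^ k)⁻¹ * q * ((x ^ k)⁻¹)⁻¹ := by group
  rw [e]
  exact h5

end subgroup

end Cfsg.Agent.H65.PCyc
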