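import Mathlib
import Cfsg.Agent.H65.PCyc
import Cfsg.Agent.MaxClass.Pres

/-!
# Subgroups of dihedral groups; odd order elements normalizing dihedral 2-groups
-/

set_option autoImplicit false

namespace Cfsg.Agent.H65.DihSub

open Subgroup DihedralGroup

/-- Subgroups of finite dihedral groups are cyclic or dihedral. -/
theorem sub_dihedral {M : ℕ} [NeZero M] (U : Subgroup (DihedralGroup M)) :
    IsCyclic U ∨ ∃ k : ℕ, k ∣ M ∧ Nonempty (U ≃* DihedralGroup k) := by
  set R : Subgroup (DihedralGroup M) := zpowers (r 1) with hR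
  have hrR : ∀ i, r i ∈ R := by
    intro i
    refine ⟨(i.val : ℤ), ?_⟩
    change (r 1) ^ (i.val : ℤ) = r i
    rw [zpow_natCast, r_one_pow, ZMod.natCast_zmod_val]
  have hRr : ∀ x ∈ R, ∃ i, x = r i := by
    rintro _ ⟨k, rfl⟩
    exact ⟨k, by change (r 1) ^ k = _; rw [r_one_zpow]⟩
  have hsrR : ∀ i, (sr i : DihedralGroup M) ∉ R := by
    intro i h
    obtain ⟨j, hj⟩ := hRr _ h
    exact absurd hj (by simp)
  by_cases hUR : U ≤ R
  · left
    have : IsCyclic R := inferInstance
    exact isCyclic_of_injective (Subgroup.inclusion hUR) (Subgroup.inclusion_injective hUR)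
  right
  obtain ⟨b, hbU, hbR⟩ := SetLike.not_le_iff_exists.1 hUR
  obtain ⟨i0, rfl⟩ : ∃ i, b = sr i := by
    match b, hbR with
    | .r i, h => exact absurd (hrR i) h
    | .sr i, _ => exact ⟨i, rfl⟩
  have hcR : Nat.card R = M := by rw [hR, Nat.card_zpowers, orderOf_r_one]
  set V : Subgroup U := R.subgroupOf U with hV
  have hVcyc : IsCyclic V := by
    have : IsCyclic R := inferInstance
    refine isCyclic_of_injective (G := V) (G' := R) ((U.subtype.comp V.subtype).codRestrict R (fun x => mem_subgroupOf.1 x.2)) ?_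
    intro x y hxy
    have := congrArg Subtype.val hxy
    exact Subtype.ext (Subtype.ext this)
  have hVi : V.index = 2 := by
    rw [Subgroup.index_eq_two_iff_exists_notMem_and]
    refine ⟨⟨sr i0, hbU⟩, fun h => hbR (mem_subgroupOf.1 h), ?_⟩
    rintro ⟨x, hx⟩
    match x, hx with
    | .r i, hx => exact Or.inr (mem_subgroupOf.2 (hrR i))
    | .sr i, hx =>
      left
      rw [hV, mem_subgroupOf]
      change sr i * sr i0 ∈ R
      rw [sr_mul_sr]
      exact hrR _
  obtain ⟨⟨a, haV⟩, ha⟩ := hVcyc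
  obtain ⟨k, hk⟩ : ∃ k, Nat.card V = k := ⟨_, rfl⟩
  have hao : orderOf a = k := by
    have := orderOf_eq_card_of_forall_mem_zpowers ha
    rw [hk, ← Subgroup.orderOf_coe] at this
    exact this
  have hkM : k ∣ M := by
    have h1 : Nat.card V = Nat.card ((V.map U.subtype)) :=
      Nat.card_congr (V.equivMapOfInjective _ U.subtype_injective).toEquiv
    have h2 : Nat.card ((V.map U.subtype)) ∣ Nat.card R := by
      refine Subgroup.card_dvd_of_le ?_
      rintro _ ⟨x, hx, rfl⟩
      exact mem_subgroupOf.1 hx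
    rw [← h1, hk] at h2
    exact h2.trans (by rw [hcR])
  have hk0 : 0 < k := by rw [← hk]; exact Nat.card_pos
  refine ⟨k, hkM, Cfsg.Agent.MaxClass.nonempty_mulEquiv_dihedral (a := a) (b := ⟨sr i0, hbU⟩) hk0 hao ?_ ?_ ?_ ?_⟩
  · intro h
    have h1 : zpowers a ≤ V := by rw [zpowers_le]; exact haV
    exact hbR (mem_subgroupOf.1 (h1 h))
  · apply Subtype.ext
    change (sr i0) ^ 2 = 1
    rw [sq, sr_mul_self]
  · apply Subtype.ext
    obtain ⟨j, hj⟩ := hRr _ (mem_subgroupOf.1 haV)
    change sr i0 * (a : DihedralGroup M) * (sr i0)⁻¹ = (a : DihedralGroup M)⁻¹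
    change (a : DihedralGroup M) = r j at hj
    rw [hj, sr_mul_r, inv_sr, sr_mul_sr, inv_r]
    congr 1
    ring
  · rw [← Subgroup.card_mul_index V, hVi, hk, mul_comm]

section odd
variable {G : Type*} [Group G] [Finite G]

/-- An element of odd order normalising a cyclic 2-group centralises it. -/
theorem cent_of_odd {C : Subgroup G} (hC : IsCyclic C) (hC2 : IsPGroup 2 C) {y : G}
    (hy : y ∈ normalizer (C : Set G)) (hyo : Odd (orderOf y)) : y ∈ centralizer (C : Set G) := by
  obtain ⟨k, hk⟩ := IsPGroup.iff_card.1 hC2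
  set f := C.normalizerMonoidHom with hf
  have h1 : orderOf (f ⟨y, hy⟩) ∣ orderOf y := by
    have := orderOf_map_dvd f ⟨y, hy⟩
    rwa [← Subgroup.orderOf_coe] at this
  have h2 : orderOf (f ⟨y, hy⟩) ∣ 2 ^ k := by
    refine (_root_.orderOf_dvd_natCard _).trans ?_
    rw [hC.card_mulAut, hk]
    rcases Nat.eq_zero_or_pos k with rfl | h0
    · simp
    · rw [Nat.totient_prime_pow Nat.prime_two h0]
      simp only [Nat.add_one_sub_one, mul_one]
      exact pow_dvd_pow 2 (by omega)
  have h3 : orderOf (f ⟨y, hy⟩) = 1 := by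
    refine Nat.eq_one_of_dvd_coprimes (Nat.Coprime.pow_right k ?_) h1 h2
    rw [Nat.coprime_comm, Nat.coprime_two_left]
    exact hyo
  have h4 : (⟨y, hy⟩ : normalizer (C : Set G)) ∈ f.ker := by
    rw [MonoidHom.mem_ker]
    exact orderOf_eq_one_iff.1 h3
  rw [hf, normalizerMonoidHom_ker, mem_subgroupOf] at h4
  exact h4

/-- A finite group with a cyclic Sylow 2-subgroup has a normal 2-complement. -/
theorem hasNPC_two_of_cyclic (P : Sylow 2 G) (hP : IsCyclic P) : Cfsg.HasNormalPComplement 2 G := by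
  rcases (Nat.even_or_odd (Nat.card G)) with he | ho
  · have hmin : (Nat.card G).minFac = 2 := (Nat.minFac_eq_two_iff _).2 he.two_dvd
    exact Cfsg.Agent.Transfer.hasNPC_of_normalizer_le_centralizer P (hP.normalizer_le_centralizer hmin)
  · exact Cfsg.Agent.Transfer.hasNPC_of_coprime (Nat.Coprime.symm (Nat.coprime_two_left.2 ho))

/-- An element of odd order normalising a dihedral 2-group of order at least 8 centralises it. -/
theorem cent_of_odd_dihedral {S : Subgroup G} [S.Normal] {m : ℕ} (hm : 2 ≤ m) (e : S ≃* DihedralGroup (2 ^ m)) {y : G}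
    (hyo : Odd (orderOf y)) : ∀ s ∈ S, y * s * y⁻¹ = s := by
  have : NeZero (2 ^ m) := ⟨by positivity⟩
  have h4m : 4 ≤ 2 ^ m := by
    calc 4 = 2 ^ 2 := by norm_num
      _ ≤ 2 ^ m := Nat.pow_le_pow_right (by norm_num) hm
  set a : G := ((e.symm (r 1) : S) : G) with ha
  set b : G := ((e.symm (sr 0) : S) : G) with hb
  have haS : a ∈ S := (e.symm (r 1)).2
  have hbS : b ∈ S := (e.symm (sr 0)).2
  have hao : orderOf a = 2 ^ m := by
    rw [ha, Subgroup.orderOf_coe, MulEquiv.orderOf_eq, orderOf_r_one]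
  -- elements of order > 2 are in `⟨a⟩`
  have hin : ∀ s (hs : s ∈ S), s ∈ zpowers a ∨ ∃ i : ZMod (2 ^ m), e ⟨s, hs⟩ = sr i := by
    intro s hs
    match h : e ⟨s, hs⟩ with
    | .r i =>
      left
      refine ⟨(i.val : ℤ), ?_⟩
      change a ^ (i.val : ℤ) = s
      have h1 : e ⟨a ^ i.val, pow_mem haS _⟩ = e ⟨s, hs⟩ := by
        have h2 : (⟨a ^ i.val, pow_mem haS _⟩ : S) = (e.symm (r 1)) ^ i.val := Subtype.ext (by push_cast; rw [ha])
        rw [h2, map_pow, MulEquiv.apply_symm_apply, h, r_one_pow, ZMod.natCast_zmod_val]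
      rw [zpow_natCast]
      exact congrArg Subtype.val (e.injective h1)
    | .sr i => exact Or.inr ⟨i, rfl⟩
  have hya : y * a * y⁻¹ ∈ zpowers a := by
    have hs : y * a * y⁻¹ ∈ S := Subgroup.Normal.conj_mem inferInstance a haS y
    rcases hin _ hs with h | ⟨i, hi⟩
    · exact h
    · exfalso
      have h1 := MulEquiv.orderOf_eq e ⟨y * a * y⁻¹, hs⟩
      rw [hi, orderOf_sr, ← Subgroup.orderOf_coe] at h1
      have h2 := orderOf_injective (MulAut.conj y).toMonoidHom (MulAut.conj y).injective a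
      change orderOf (y * a * y⁻¹) = orderOf a at h2
      change 2 = orderOf (y * a * y⁻¹) at h1
      rw [h2, hao] at h1
      omega
  have hyN : y ∈ normalizer ((zpowers a : Subgroup G) : Set G) := by
    have h1 : (zpowers a).map (MulAut.conj y).toMonoidHom ≤ zpowers a := by
      rw [MonoidHom.map_zpowers, zpowers_le]
      exact hya
    have h2 : (zpowers a).map (MulAut.conj y).toMonoidHom = zpowers a := by
      refine Subgroup.eq_of_le_of_card_ge h1 ?_
      exact (Nat.card_congr ((zpowers a).equivMapOfInjective _ (MulAut.conj y).injective).toEquiv).le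
    rw [mem_normalizer_iff]
    intro h
    constructor
    · intro hh
      exact h1 ⟨h, hh, rfl⟩
    · intro hh
      have hh' : y * h * y⁻¹ ∈ (zpowers a).map (MulAut.conj y).toMonoidHom := by rw [h2]; exact hh
      obtain ⟨x, hx, hxy⟩ := hh'
      have e1 : y * x * y⁻¹ = y * h * y⁻¹ := hxy
      have : x = h := by simpa using e1
      rwa [← this]
  have hz2 : IsPGroup 2 (zpowers a) := IsPGroup.of_card (n := m) (by rw [Nat.card_zpowers, hao])
  have hyc := cent_of_odd (C := zpowers a) inferInstance hz2 hyN hyo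
  have hyca : ∀ c ∈ zpowers a, c * y = y * c := fun c hc => mem_centralizer_iff.1 hyc c hc
  -- the action on `b`
  have hyb : ∃ c ∈ zpowers a, y * b * y⁻¹ = b * c := by
    have hs : y * b * y⁻¹ ∈ S := Subgroup.Normal.conj_mem inferInstance b hbS y
    refine ⟨b⁻¹ * (y * b * y⁻¹), ?_, by group⟩
    rcases hin (b⁻¹ * (y * b * y⁻¹)) (mul_mem (inv_mem hbS) hs) with h | ⟨i, hi⟩
    · exact h
    · exfalso
      have h1 : (⟨b⁻¹ * (y * b * y⁻¹), mul_mem (inv_mem hbS) hs⟩ : S) = (e.symm (sr 0))⁻¹ * ⟨y * b * y⁻¹, hs⟩ := Subtype.ext (by push_cast; rw [hb])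
      rw [h1, map_mul, map_inv, MulEquiv.apply_symm_apply, inv_sr] at hi
      match hyb : e ⟨y * b * y⁻¹, hs⟩ with
      | .sr j =>
        rw [hyb, sr_mul_sr] at hi
        exact absurd hi (by simp)
      | .r j =>
        -- then `y b y⁻¹ ∈ ⟨a⟩` so `b ∈ ⟨a⟩`
        have h2 : y * b * y⁻¹ ∈ zpowers a := by
          rcases hin _ hs with h | ⟨l, hl⟩
          · exact h
          · rw [hyb] at hl; exact absurd hl (by simp)
        have h3 : b ∈ zpowers a := (mem_normalizer_iff.1 hyN b).2 h2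
        obtain ⟨k, hk⟩ := h3
        change a ^ k = b at hk
        have h4 : (e.symm (r 1)) ^ k = e.symm (sr 0) := Subtype.ext (by push_cast; exact hk)
        have h5 := congrArg e h4
        rw [map_zpow, MulEquiv.apply_symm_apply, MulEquiv.apply_symm_apply, r_one_zpow] at h5
        exact absurd h5 (by simp)
  obtain ⟨c, hc, hybc⟩ := hyb
  have hpow : ∀ j : ℕ, y ^ j * b * (y ^ j)⁻¹ = b * c ^ j := by
    intro j
    induction j with
    | zero => simp
    | succ j ih =>
      have hcy : y * c ^ j = c ^ j * y := (hyca _ (pow_mem hc j)).symm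
      calc y ^ (j + 1) * b * (y ^ (j + 1))⁻¹ = y * (y ^ j * b * (y ^ j)⁻¹) * y⁻¹ := by rw [pow_succ']; group
        _ = y * (b * c ^ j) * y⁻¹ := by rw [ih]
        _ = (y * b * y⁻¹) * (y * c ^ j) * y⁻¹ := by group
        _ = (b * c) * (c ^ j * y) * y⁻¹ := by rw [hybc, hcy]
        _ = b * c ^ (j + 1) := by rw [pow_succ']; group
  have hc1 : c = 1 := by
    have h1 := hpow (orderOf y)
    rw [pow_orderOf_eq_one] at h1
    have h2 : c ^ orderOf y = 1 := by
      have : b * 1 = b * c ^ orderOf y := by rw [← h1]; group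
      exact (mul_left_cancel this).symm
    obtain ⟨k, hk⟩ := (IsPGroup.iff_orderOf.1 hz2) ⟨c, hc⟩
    rw [← Subgroup.orderOf_coe] at hk
    change orderOf c = 2 ^ k at hk
    have h3 : orderOf c ∣ orderOf y := orderOf_dvd_of_pow_eq_one h2
    have h4 : orderOf c = 1 := by
      refine Nat.eq_one_of_dvd_coprimes (Nat.Coprime.pow_right k ?_) h3 hk.dvd
      rw [Nat.coprime_comm, Nat.coprime_two_left]
      exact hyo
    exact orderOf_eq_one_iff.1 h4
  have hycb : y * b * y⁻¹ = b := by rw [hybc, hc1, mul_one]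
  intro s hs
  rcases hin s hs with h | ⟨i, hi⟩
  · rw [← hyca s h]; group
  · -- `s = b * a^i`
    have h1 : b⁻¹ * s ∈ zpowers a := by
      have hs' : b⁻¹ * s ∈ S := mul_mem (inv_mem hbS) hs
      rcases hin _ hs' with h | ⟨j, hj⟩
      · exact h
      · exfalso
        have h2 : (⟨b⁻¹ * s, hs'⟩ : S) = (e.symm (sr 0))⁻¹ * ⟨s, hs⟩ := Subtype.ext (by push_cast; rw [hb])
        rw [h2, map_mul, map_inv, MulEquiv.apply_symm_apply, inv_sr, hi, sr_mul_sr] at hj
        exact absurd hj (by simp)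
    calc y * s * y⁻¹ = (y * b * y⁻¹) * (y * (b⁻¹ * s)) * y⁻¹ := by group
      _ = b * ((b⁻¹ * s) * y) * y⁻¹ := by rw [hycb, hyca _ h1]
      _ = s := by group

end odd

end Cfsg.Agent.H65.DihSub
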