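import Mathlib
import Cfsg.Agent.H52.Nilp

/-! Hypercentral elements and elements of prime power index (owner: helper65). -/

set_option autoImplicit false

namespace Cfsg.Agent.H65.Hyper

open Subgroup

variable {G : Type*} [Group G]

theorem mem_upper_of (H : Subgroup G) (n : ℕ) : ∀ h : H, (h : G) ∈ Subgroup.upperCentralSeries G n →
    h ∈ Subgroup.upperCentralSeries H n := by
  induction n with
  | zero =>
    intro h hh
    rw [Subgroup.upperCentralSeries_zero, mem_bot] at hh ⊢
    exact Subtype.ext hh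
  | succ n ih =>
    intro h hh
    rw [Subgroup.mem_upperCentralSeries_succ_iff] at hh ⊢
    intro y
    exact ih _ (hh y)

theorem hyper_commute [Finite G] {n : ℕ} {x y : G} (hx : x ∈ Subgroup.upperCentralSeries G n)
    (hc : (orderOf x).Coprime (orderOf y)) : x * y = y * x := by
  set H : Subgroup G := closure {x, y} with hH
  have hxH : x ∈ H := Subgroup.subset_closure (by simp)
  have hyH : y ∈ H := Subgroup.subset_closure (by simp)
  have hxn : (⟨x, hxH⟩ : H) ∈ Subgroup.upperCentralSeries H n := mem_upper_of H n _ hx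
  -- commutators lie in the n-th term
  set Z := Subgroup.upperCentralSeries H n with hZ
  have hgen : ∀ P : Subgroup H, (⟨x, hxH⟩ : H) ∈ P → (⟨y, hyH⟩ : H) ∈ P → P = ⊤ := by
    intro P h1 h2
    have h3 : H ≤ P.map H.subtype := by
      refine (Subgroup.closure_le (P.map H.subtype)).2 ?_
      rintro z (rfl | rfl)
      · exact ⟨_, h1, rfl⟩
      · exact ⟨_, h2, rfl⟩
    rw [eq_top_iff]
    intro z _
    obtain ⟨w, hw, hwz⟩ := h3 z.2
    have : w = z := Subtype.ext hwz
    rwa [← this]
  let f : H →* H ⧸ Z := QuotientGroup.mk' Z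
  have hfx : f ⟨x, hxH⟩ = 1 := (QuotientGroup.eq_one_iff _).2 hxn
  have h1 : (centralizer {f ⟨y, hyH⟩}).comap f = ⊤ := by
    apply hgen
    · rw [mem_comap, hfx]; exact one_mem _
    · rw [mem_comap, mem_centralizer_singleton_iff]
  have h2 : (center (H ⧸ Z)).comap f = ⊤ := by
    apply hgen
    · rw [mem_comap, hfx]; exact one_mem _
    · rw [mem_comap, mem_center_iff]
      intro g
      obtain ⟨g, rfl⟩ := QuotientGroup.mk'_surjective Z g
      have : g ∈ (centralizer {f ⟨y, hyH⟩}).comap f := by rw [h1]; trivial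
      rw [mem_comap, mem_centralizer_singleton_iff] at this
      exact this
  have hnil : Group.IsNilpotent H := by
    refine ⟨n + 1, ?_⟩
    rw [eq_top_iff]
    intro a _
    rw [Subgroup.mem_upperCentralSeries_succ_iff]
    intro b
    have ha : a ∈ (center (H ⧸ Z)).comap f := by rw [h2]; trivial
    rw [mem_comap, mem_center_iff] at ha
    change a * b * a⁻¹ * b⁻¹ ∈ Z
    rw [← QuotientGroup.eq_one_iff]
    change f (a * b * a⁻¹ * b⁻¹) = 1
    rw [map_mul, map_mul, map_mul, ← ha (f b), map_inv, map_inv]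
    group
  have h3 := Cfsg.Agent.H52.commute_of_isNilpotent_of_coprime hnil (x := ⟨x, hxH⟩) (y := ⟨y, hyH⟩)
    (by rwa [← orderOf_coe, ← orderOf_coe])
  exact congrArg Subtype.val h3

/-- elements whose class has `p`-power size -/
def Y (p : ℕ) (G : Type*) [Group G] : Set G := {x | ∃ k, (centralizer ({x} : Set G)).index = p ^ k}

/-- elements of a term of the upper central series centralizing all `p'`-elements -/
def T (p n : ℕ) (G : Type*) [Group G] : Subgroup G :=
  Subgroup.upperCentralSeries G n ⊓ centralizer {g | ¬ p ∣ orderOf g}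

theorem mem_T {p n : ℕ} {x : G} : x ∈ T p n G ↔ x ∈ Subgroup.upperCentralSeries G n ∧ ∀ g : G, ¬ p ∣ orderOf g → g * x = x * g := by
  rw [T, mem_inf, mem_centralizer_iff]
  rfl

instance T_normal (p n : ℕ) : (T p n G).Normal := by
  constructor
  intro x hx g
  rw [mem_T] at hx ⊢
  refine ⟨Normal.conj_mem inferInstance x hx.1 g, fun y hy => ?_⟩
  have h1 : ¬ p ∣ orderOf (g⁻¹ * y * g) := by
    have : orderOf (g⁻¹ * y * g) = orderOf y := by
      have := orderOf_injective (MulAut.conj g⁻¹).toMonoidHom (MulAut.conj g⁻¹).injective y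
      simpa using this
    rwa [this]
  have h2 := hx.2 _ h1
  calc y * (g * x * g⁻¹) = g * (g⁻¹ * y * g * x) * g⁻¹ := by group
    _ = g * (x * (g⁻¹ * y * g)) * g⁻¹ := by rw [h2]
    _ = g * x * g⁻¹ * y := by group

variable [Finite G]

/-- the `p'`-elements generate a subgroup of `p`-power index -/
theorem index_closure {p : ℕ} (hp : p.Prime) : ∃ k, (closure {g : G | ¬ p ∣ orderOf g}).index = p ^ k := by
  set K : Subgroup G := closure {g : G | ¬ p ∣ orderOf g} with hK
  refine ⟨_, Nat.eq_prime_pow_of_unique_prime_dvd K.index_ne_zero_of_finite ?_⟩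
  intro q hq hqd
  by_contra hqp
  have : Fact q.Prime := ⟨hq⟩
  obtain Q : Sylow q G := default
  have h1 : (Q : Subgroup G) ≤ K := by
    intro x hx
    apply Subgroup.subset_closure
    intro hpx
    obtain ⟨k, hk⟩ := (IsPGroup.iff_orderOf.1 Q.isPGroup') ⟨x, hx⟩
    rw [← orderOf_coe] at hk
    change orderOf x = q ^ k at hk
    rw [hk] at hpx
    exact hqp (((Nat.prime_dvd_prime_iff_eq hp hq).1 (hp.dvd_of_dvd_pow hpx)).symm)
  exact Q.not_dvd_index (hqd.trans (index_dvd_of_le h1))


omit [Finite G] in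
theorem index_dvd_of_pow (x : G) (k : ℕ) :
    (centralizer ({x ^ k} : Set G)).index ∣ (centralizer ({x} : Set G)).index := by
  apply index_dvd_of_le
  intro g hg
  rw [mem_centralizer_singleton_iff] at hg ⊢
  have : Commute g x := hg
  exact this.pow_right k

/-- hypercentral elements with `p`-power index centralize all `p'`-elements -/
theorem mem_T_of {p n : ℕ} (hp : p.Prime) {x : G} (hx : x ∈ Subgroup.upperCentralSeries G n) (hY : x ∈ Y p G) :
    x ∈ T p n G := by
  have : Fact p.Prime := ⟨hp⟩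
  obtain ⟨a, m, hm, ham⟩ := Nat.exists_eq_pow_mul_and_not_dvd (orderOf_pos x).ne' p hp.ne_one
  have hco : Nat.Coprime (p ^ a) m := Nat.Coprime.pow_left _ ((Nat.Prime.coprime_iff_not_dvd hp).2 hm)
  -- x ^ (p ^ a) is central
  have h1 : orderOf (x ^ p ^ a) = m := by
    rw [orderOf_pow_of_dvd (pow_pos hp.pos a).ne' ⟨m, ham⟩, ham, Nat.mul_div_cancel_left _ (pow_pos hp.pos a)]
  have h2 : x ^ p ^ a ∈ center G := by
    obtain ⟨k, hk⟩ := hY
    have h3 : (centralizer ({x ^ p ^ a} : Set G)).index ∣ p ^ k := by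
      rw [← hk]; exact index_dvd_of_pow x _
    obtain P : Sylow p G := default
    have h4 : (P : Subgroup G) ≤ centralizer ({x ^ p ^ a} : Set G) := by
      intro g hg
      rw [mem_centralizer_singleton_iff]
      obtain ⟨k, hk⟩ := (IsPGroup.iff_orderOf.1 P.isPGroup') ⟨g, hg⟩
      rw [← orderOf_coe] at hk
      change orderOf g = p ^ k at hk
      refine (hyper_commute (n := n) (pow_mem hx _) ?_).symm
      rw [h1, hk]
      exact (Nat.Coprime.pow_left _ ((Nat.Prime.coprime_iff_not_dvd hp).2 hm)).symm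
    have h5 : ¬ p ∣ (centralizer ({x ^ p ^ a} : Set G)).index :=
      fun h => P.not_dvd_index (h.trans (index_dvd_of_le h4))
    have h6 : (centralizer ({x ^ p ^ a} : Set G)).index = 1 := by
      obtain ⟨j, -, hj⟩ := (Nat.dvd_prime_pow hp).1 h3
      rcases Nat.eq_zero_or_pos j with rfl | hj0
      · simpa using hj
      · exact absurd (hj ▸ dvd_pow_self p hj0.ne') h5
    rw [index_eq_one] at h6
    rw [mem_center_iff]
    intro g
    have : g ∈ centralizer ({x ^ p ^ a} : Set G) := by rw [h6]; trivial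
    exact mem_centralizer_singleton_iff.1 this
  have h7 : orderOf (x ^ m) = p ^ a := by
    have hm0 : m ≠ 0 := by rintro rfl; exact hm (dvd_zero p)
    rw [orderOf_pow_of_dvd hm0 ⟨p ^ a, by rw [ham, mul_comm]⟩, ham, Nat.mul_div_cancel _ (Nat.pos_of_ne_zero hm0)]
  rw [mem_T]
  refine ⟨hx, fun g hg => ?_⟩
  have h8 : Commute (x ^ m) g := hyper_commute (n := n) (pow_mem hx _) (by
    rw [h7]; exact Nat.Coprime.pow_left _ ((Nat.Prime.coprime_iff_not_dvd hp).2 hg))
  have h9 : Commute (x ^ p ^ a) g := (mem_center_iff.1 h2 g).symm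
  -- x is a product of powers
  have h10 : x ∈ zpowers (x ^ p ^ a) ⊔ zpowers (x ^ m) := by
    have h11 : ((p ^ a : ℕ) : ℤ) * (Nat.gcdA (p ^ a) m) + (m : ℤ) * (Nat.gcdB (p ^ a) m) = 1 := by
      rw [← Nat.gcd_eq_gcd_ab, hco]; simp
    have h12 : x = (x ^ p ^ a) ^ (Nat.gcdA (p ^ a) m) * (x ^ m) ^ (Nat.gcdB (p ^ a) m) := by
      rw [← zpow_natCast, ← zpow_natCast, ← zpow_mul, ← zpow_mul, ← zpow_add, h11, zpow_one]
    have h14 : (x ^ p ^ a) ^ (Nat.gcdA (p ^ a) m) * (x ^ m) ^ (Nat.gcdB (p ^ a) m) ∈
        zpowers (x ^ p ^ a) ⊔ zpowers (x ^ m) :=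
      mul_mem_sup (zpow_mem (mem_zpowers _) _) (zpow_mem (mem_zpowers _) _)
    rwa [← h12] at h14
  have h13 : zpowers (x ^ p ^ a) ⊔ zpowers (x ^ m) ≤ centralizer ({g} : Set G) := by
    refine sup_le ?_ ?_
    · rw [zpowers_le, mem_centralizer_singleton_iff]; exact h9
    · rw [zpowers_le, mem_centralizer_singleton_iff]; exact h8
  exact (mem_centralizer_singleton_iff.1 (h13 h10)).symm

theorem mul_mem_Y {p n : ℕ} (hp : p.Prime) {x t : G} (hx : x ∈ Y p G) (ht : t ∈ T p n G) : x * t ∈ Y p G := by
  obtain ⟨k, hk⟩ := hx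
  set K : Subgroup G := closure {g : G | ¬ p ∣ orderOf g} with hK
  obtain ⟨l, hl⟩ := index_closure (G := G) hp
  have hKn : K.Normal := by
    have : Subgroup.normalClosure {g : G | ¬ p ∣ orderOf g} = K := by
      apply le_antisymm
      · rw [Subgroup.normalClosure]
        apply (Subgroup.closure_le _).2
        intro y hy
        obtain ⟨z, hz, hzy⟩ := Group.mem_conjugatesOfSet_iff.1 hy
        obtain ⟨c, hc⟩ := isConj_iff.1 hzy
        apply Subgroup.subset_closure
        change ¬ p ∣ orderOf y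
        have : orderOf y = orderOf z := by
          rw [← hc]
          have := orderOf_injective (MulAut.conj c).toMonoidHom (MulAut.conj c).injective z
          simpa using this
        rw [this]; exact hz
      · exact Subgroup.closure_le_normalClosure
    rw [← this]; infer_instance
  have h1 : centralizer ({x} : Set G) ⊓ K ≤ centralizer ({x * t} : Set G) := by
    rintro g ⟨hg1, hg2⟩
    have hg1' : Commute g x := mem_centralizer_singleton_iff.1 hg1
    have hg2' : Commute g t := by
      have : K ≤ centralizer ({t} : Set G) := by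
        rw [hK, Subgroup.closure_le]
        intro y hy
        change y ∈ centralizer ({t} : Set G)
        rw [mem_centralizer_singleton_iff]
        exact (mem_T.1 ht).2 y hy
      exact mem_centralizer_singleton_iff.1 (this hg2)
    rw [mem_centralizer_singleton_iff]
    exact hg1'.mul_right hg2'
  have h2 : (centralizer ({x} : Set G) ⊓ K).index ∣ p ^ (l + k) := by
    rw [← relIndex_mul_index (inf_le_left : centralizer ({x} : Set G) ⊓ K ≤ centralizer ({x} : Set G)), hk,
      inf_relIndex_left, pow_add]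
    apply mul_dvd_mul_right
    rw [← hl]
    exact relIndex_dvd_index_of_normal K _
  obtain ⟨j, -, hj⟩ := (Nat.dvd_prime_pow hp).1 ((index_dvd_of_le h1).trans h2)
  exact ⟨j, hj⟩

theorem card_Y (p n : ℕ) (hp : p.Prime) :
    Nat.card (Y p G) = Nat.card (T p n G) * Nat.card ((QuotientGroup.mk : G → G ⧸ T p n G) '' Y p G) := by
  have h1 : (QuotientGroup.mk : G → G ⧸ T p n G) ⁻¹' ((QuotientGroup.mk : G → G ⧸ T p n G) '' Y p G) = Y p G := by
    ext x
    constructor
    · rintro ⟨y, hy, hxy⟩
      have h2 : y⁻¹ * x ∈ T p n G := QuotientGroup.eq.1 hxy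
      have := mul_mem_Y hp hy h2
      simpa using this
    · intro hx; exact ⟨x, hx, rfl⟩
  conv_lhs => rw [← h1]
  rw [Nat.card_congr (QuotientGroup.preimageMkEquivSubgroupProdSet _ _), Nat.card_prod]

/-- The key fixed point argument. -/
theorem key {p n : ℕ} (hp : p.Prime)
    (hn : Subgroup.upperCentralSeries G (n + 1) = Subgroup.upperCentralSeries G n)
    (hd : p ^ (Nat.card G).factorization p ∣ Nat.card (Y p G)) :
    p ^ (Nat.card G).factorization p ∣ Nat.card (Subgroup.upperCentralSeries G n) := by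
  have : Fact p.Prime := ⟨hp⟩
  by_contra hcon
  set S : Set (G ⧸ T p n G) := (QuotientGroup.mk : G → G ⧸ T p n G) '' Y p G with hS
  have h1 : p ∣ Nat.card S := by
    by_contra h2
    rw [card_Y p n hp] at hd
    have h3 : Nat.Coprime (p ^ (Nat.card G).factorization p) (Nat.card S) :=
      Nat.Coprime.pow_left _ ((Nat.Prime.coprime_iff_not_dvd hp).2 h2)
    have h4 := h3.dvd_of_dvd_mul_right hd
    exact hcon (h4.trans (card_dvd_of_le inf_le_left))
  obtain P : Sylow p (G ⧸ T p n G) := default
  have hconj : ∀ (g : P) (x : G ⧸ T p n G), x ∈ S → (g : G ⧸ T p n G) * x * (g : G ⧸ T p n G)⁻¹ ∈ S := by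
    rintro g _ ⟨x, hx, rfl⟩
    obtain ⟨c, hc⟩ := QuotientGroup.mk_surjective (g : G ⧸ T p n G)
    refine ⟨c * x * c⁻¹, ?_, ?_⟩
    · obtain ⟨k, hk⟩ := hx
      refine ⟨k, ?_⟩
      rw [← hk]
      have h5 : centralizer ({c * x * c⁻¹} : Set G) = (centralizer ({x} : Set G)).map (MulAut.conj c).toMonoidHom := by
        ext g
        rw [mem_centralizer_singleton_iff]
        constructor
        · intro h
          refine ⟨c⁻¹ * g * c, ?_, ?_⟩
          · change c⁻¹ * g * c ∈ centralizer ({x} : Set G)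
            rw [mem_centralizer_singleton_iff]
            calc c⁻¹ * g * c * x = c⁻¹ * (g * (c * x * c⁻¹)) * c := by group
              _ = c⁻¹ * (c * x * c⁻¹ * g) * c := by rw [h]
              _ = x * (c⁻¹ * g * c) := by group
          · change c * (c⁻¹ * g * c) * c⁻¹ = g
            group
        · rintro ⟨y, hy, rfl⟩
          have hy' : y * x = x * y := mem_centralizer_singleton_iff.1 hy
          change c * y * c⁻¹ * (c * x * c⁻¹) = c * x * c⁻¹ * (c * y * c⁻¹)
          calc c * y * c⁻¹ * (c * x * c⁻¹) = c * (y * x) * c⁻¹ := by group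
            _ = c * (x * y) * c⁻¹ := by rw [hy']
            _ = c * x * c⁻¹ * (c * y * c⁻¹) := by group
      rw [h5, index_map_of_bijective (MulAut.conj c).bijective]
    · rw [QuotientGroup.mk_mul, QuotientGroup.mk_mul, QuotientGroup.mk_inv, hc]
  let _ : MulAction P S :=
    { smul := fun g x => ⟨(g : G ⧸ T p n G) * x * (g : G ⧸ T p n G)⁻¹, hconj g x x.2⟩
      one_smul := fun x => Subtype.ext (by
        change ((1 : P) : G ⧸ T p n G) * x * ((1 : P) : G ⧸ T p n G)⁻¹ = x
        simp)
      mul_smul := fun g h x => Subtype.ext (by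
        change ((g * h : P) : G ⧸ T p n G) * x * ((g * h : P) : G ⧸ T p n G)⁻¹ = g * (h * x * (h : G ⧸ T p n G)⁻¹) * (g : G ⧸ T p n G)⁻¹
        rw [coe_mul]
        group) }
  have h6 := P.isPGroup'.card_modEq_card_fixedPoints S
  have h7 : p ∣ Nat.card (MulAction.fixedPoints P S) := by
    rw [← (Nat.modEq_zero_iff_dvd)]
    exact h6.symm.trans ((Nat.modEq_zero_iff_dvd).2 h1)
  have hone : (1 : G ⧸ T p n G) ∈ S := ⟨1, ⟨0, by
    rw [pow_zero, index_eq_one, eq_top_iff]
    intro g _
    rw [mem_centralizer_singleton_iff]; simp⟩, rfl⟩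
  have hone' : (⟨1, hone⟩ : S) ∈ MulAction.fixedPoints P S := by
    intro g
    apply Subtype.ext
    change (g : G ⧸ T p n G) * 1 * (g : G ⧸ T p n G)⁻¹ = 1
    simp
  have h8 : 1 < Nat.card (MulAction.fixedPoints P S) := by
    have : 0 < Nat.card (MulAction.fixedPoints P S) := by
      have : Nonempty (MulAction.fixedPoints P S) := ⟨⟨_, hone'⟩⟩
      exact Nat.card_pos
    exact lt_of_lt_of_le hp.one_lt (Nat.le_of_dvd this h7)
  have : Nontrivial (MulAction.fixedPoints P S) := Finite.one_lt_card_iff_nontrivial.1 h8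
  obtain ⟨⟨y, hy⟩, hy1⟩ := exists_ne (⟨⟨1, hone⟩, hone'⟩ : MulAction.fixedPoints P S)
  have hy2 : (y : G ⧸ T p n G) ≠ 1 := fun h => hy1 (Subtype.ext (Subtype.ext h))
  obtain ⟨x, hx, hxy⟩ := y.2
  -- the image of x is central
  have h9 : (y : G ⧸ T p n G) ∈ center (G ⧸ T p n G) := by
    have h10 : (P : Subgroup (G ⧸ T p n G)) ≤ centralizer ({(y : G ⧸ T p n G)} : Set (G ⧸ T p n G)) := by
      intro g hg
      rw [mem_centralizer_singleton_iff]
      have h11 := congrArg Subtype.val (hy ⟨g, hg⟩)
      have h12 : g * y * g⁻¹ = y := h11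
      calc g * y = g * y * g⁻¹ * g := by group
        _ = y * g := by rw [h12]
    have h13 : ¬ p ∣ (centralizer ({(y : G ⧸ T p n G)} : Set (G ⧸ T p n G))).index :=
      fun h => P.not_dvd_index (h.trans (index_dvd_of_le h10))
    obtain ⟨k, hk⟩ := hx
    have h14 : (centralizer ({(y : G ⧸ T p n G)} : Set (G ⧸ T p n G))).index ∣ p ^ k := by
      rw [← hk]
      refine (index_dvd_of_le (?_ : (centralizer ({x} : Set G)).map (QuotientGroup.mk' (T p n G)) ≤ _)).trans
        (index_map_dvd _ (QuotientGroup.mk'_surjective _))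
      rintro _ ⟨g, hg, rfl⟩
      rw [mem_centralizer_singleton_iff, ← hxy]
      have : g * x = x * g := mem_centralizer_singleton_iff.1 hg
      exact congrArg (QuotientGroup.mk' (T p n G)) this
    have h15 : (centralizer ({(y : G ⧸ T p n G)} : Set (G ⧸ T p n G))).index = 1 := by
      obtain ⟨j, -, hj⟩ := (Nat.dvd_prime_pow hp).1 h14
      rcases Nat.eq_zero_or_pos j with rfl | hj0
      · simpa using hj
      · exact absurd (hj ▸ dvd_pow_self p hj0.ne') h13
    rw [index_eq_one] at h15
    rw [mem_center_iff]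
    intro g
    have : g ∈ centralizer ({(y : G ⧸ T p n G)} : Set (G ⧸ T p n G)) := by rw [h15]; trivial
    exact mem_centralizer_singleton_iff.1 this
  have h16 : x ∈ Subgroup.upperCentralSeries G n := by
    rw [← hn, Subgroup.mem_upperCentralSeries_succ_iff]
    intro g
    have h17 : (QuotientGroup.mk (x * g * x⁻¹ * g⁻¹) : G ⧸ T p n G) = 1 := by
      have h18 := mem_center_iff.1 h9 (QuotientGroup.mk g)
      rw [← hxy] at h18
      rw [QuotientGroup.mk_mul, QuotientGroup.mk_mul, QuotientGroup.mk_mul, ← h18, QuotientGroup.mk_inv, QuotientGroup.mk_inv]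
      group
    exact (mem_T.1 ((QuotientGroup.eq_one_iff _).1 h17)).1
  apply hy2
  rw [← hxy]
  exact (QuotientGroup.eq_one_iff _).2 (mem_T_of hp h16 hx)

theorem dvd_card_Y_of_nilpotent {H : Type*} [Group H] [Finite H] (hH : Group.IsNilpotent H) {p : ℕ} (hp : p.Prime) :
    p ^ (Nat.card H).factorization p ∣ Nat.card (Y p H) := by
  have : Fact p.Prime := ⟨hp⟩
  obtain ⟨n, hn⟩ := hH
  rw [card_Y p n hp]
  apply Dvd.dvd.mul_right
  obtain P : Sylow p H := default
  rw [← P.card_eq_multiplicity]
  apply card_dvd_of_le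
  intro x hx
  rw [mem_T, hn]
  refine ⟨mem_top _, fun g hg => ?_⟩
  obtain ⟨k, hk⟩ := (IsPGroup.iff_orderOf.1 P.isPGroup') ⟨x, hx⟩
  rw [← orderOf_coe] at hk
  change orderOf x = p ^ k at hk
  refine (Cfsg.Agent.H52.commute_of_isNilpotent_of_coprime ⟨n, hn⟩ ?_).symm
  rw [hk]
  exact Nat.Coprime.pow_left _ ((Nat.Prime.coprime_iff_not_dvd hp).2 hg)

/-- the upper central series stops -/
theorem exists_stop (G : Type*) [Group G] [Finite G] :
    ∃ n, Subgroup.upperCentralSeries G (n + 1) = Subgroup.upperCentralSeries G n := by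
  by_contra hcon
  push Not at hcon
  have h1 : ∀ n, n < Nat.card (Subgroup.upperCentralSeries G n) := by
    intro n
    induction n with
    | zero => exact Nat.card_pos
    | succ n ih =>
      have h2 : Subgroup.upperCentralSeries G n < Subgroup.upperCentralSeries G (n + 1) :=
        lt_of_le_of_ne (Subgroup.upperCentralSeries_mono G (Nat.le_succ n)) (hcon n).symm
      have h3 : Nat.card (Subgroup.upperCentralSeries G n) < Nat.card (Subgroup.upperCentralSeries G (n + 1)) := by
        by_contra h4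
        push Not at h4
        exact h2.ne (Subgroup.eq_of_le_of_card_ge h2.le h4)
      omega
  have h2 := h1 (Nat.card G)
  have h3 := Subgroup.card_le_card_group (Subgroup.upperCentralSeries G (Nat.card G))
  omega

/-- Main criterion: for every prime the number of elements of `p`-power index is divisible by the
`p`-part of the order. -/
theorem isNilpotent_of_dvd (G : Type*) [Group G] [Finite G]
    (h : ∀ p : ℕ, p.Prime → p ^ (Nat.card G).factorization p ∣ Nat.card (Y p G)) : Group.IsNilpotent G := by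
  obtain ⟨n, hn⟩ := exists_stop G
  refine ⟨n, ?_⟩
  have h1 : Nat.card G ∣ Nat.card (Subgroup.upperCentralSeries G n) := by
    rw [← Nat.factorization_prime_le_iff_dvd Nat.card_pos.ne' Nat.card_pos.ne']
    intro p hp
    exact (Nat.Prime.pow_dvd_iff_le_factorization hp Nat.card_pos.ne').1 (key hp hn (h p hp))
  exact Subgroup.eq_top_of_le_card _ (Nat.le_of_dvd Nat.card_pos h1)

end Cfsg.Agent.H65.Hyper
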