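import Cfsg.Agent.H71.MtExt
import Cfsg.Agent.Suz2.Hua

/-!
# S4351 (Martineau), piece P8b: `E` acts almost trivially on the lifts
-/

set_option autoImplicit false
set_option linter.unusedVariables false
set_option linter.unusedSectionVars false

namespace Cfsg.Agent.H65.MtP8b

open Cfsg.Agent.H71.Mt

universe v

variable {X : Type*} [Group X] [Finite X] {F : Type} [Field F] [Fintype F] {θ : F ≃+* F} {S E K : Subgroup X}
  {w s0 : X} {a b κ : X → F}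

/-! ### coordinates of `W` -/

theorem coordsW {W : Type v} [AddCommGroup W] [Module F W] {ρW : Representation F X W}
    {w1 w2 w3 w4 : W} (N : Nat4 θ S E K w a b κ (RingEquiv.refl F) ρW w1 w2 w3 w4) :
    ∃ c1 c2 c3 c4 : W →ₗ[F] F, (∀ v, v = c1 v • w1 + c2 v • w2 + c3 v • w3 + c4 v • w4) ∧
      ∀ x1 x2 x3 x4 : F, c1 (x1 • w1 + x2 • w2 + x3 • w3 + x4 • w4) = x1 ∧
        c2 (x1 • w1 + x2 • w2 + x3 • w3 + x4 • w4) = x2 ∧ c3 (x1 • w1 + x2 • w2 + x3 • w3 + x4 • w4) = x3 ∧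
        c4 (x1 • w1 + x2 • w2 + x3 • w3 + x4 • w4) = x4 := by
  let φ : (F × F × F × F) →ₗ[F] W :=
    { toFun := fun x => x.1 • w1 + x.2.1 • w2 + x.2.2.1 • w3 + x.2.2.2 • w4
      map_add' := by
        intro x y
        simp only [Prod.fst_add, Prod.snd_add, add_smul]
        abel
      map_smul' := by
        intro c x
        simp only [Prod.smul_fst, Prod.smul_snd, smul_eq_mul, mul_smul, smul_add, RingHom.id_apply] }
  have hφ : ∀ x : F × F × F × F, φ x = x.1 • w1 + x.2.1 • w2 + x.2.2.1 • w3 + x.2.2.2 • w4 := fun _ => rfl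
  have hinj : Function.Injective φ := by
    rw [← LinearMap.ker_eq_bot, LinearMap.ker_eq_bot']
    rintro ⟨x1, x2, x3, x4⟩ h
    obtain ⟨h1, h2, h3, h4⟩ := N.indep x1 x2 x3 x4 h
    rw [h1, h2, h3, h4]
    rfl
  have hsurj : Function.Surjective φ := by
    intro v
    obtain ⟨x1, x2, x3, x4, h⟩ := N.span v
    exact ⟨(x1, x2, x3, x4), h.symm⟩
  let e := LinearEquiv.ofBijective φ ⟨hinj, hsurj⟩
  have he : ∀ v, φ (e.symm v) = v := fun v => e.apply_symm_apply v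
  refine ⟨(LinearMap.fst F F (F × F × F)).comp e.symm.toLinearMap,
    (LinearMap.fst F F (F × F)).comp ((LinearMap.snd F F (F × F × F)).comp e.symm.toLinearMap),
    (LinearMap.fst F F F).comp ((LinearMap.snd F F (F × F)).comp ((LinearMap.snd F F (F × F × F)).comp
      e.symm.toLinearMap)),
    (LinearMap.snd F F F).comp ((LinearMap.snd F F (F × F)).comp ((LinearMap.snd F F (F × F × F)).comp
      e.symm.toLinearMap)), ?_, ?_⟩
  · intro v
    conv_lhs => rw [← he v]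
    rfl
  · intro x1 x2 x3 x4
    have h1 : e.symm (x1 • w1 + x2 • w2 + x3 • w3 + x4 • w4) = (x1, x2, x3, x4) := by
      rw [LinearEquiv.symm_apply_eq]
      rfl
    refine ⟨?_, ?_, ?_, ?_⟩ <;> simp [h1]

section field

theorem mu_eq (D : SzD θ S E K w s0 a b κ) (x : F) : x * θ x = (x * θ.symm x) * θ.symm x := by
  have h1 : θ x = θ.symm x * θ.symm x := by
    have := D.theta (θ.symm (θ.symm x))
    rw [RingEquiv.apply_symm_apply, RingEquiv.apply_symm_apply] at this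
    have h2 := congrArg θ this
    rw [map_mul, RingEquiv.apply_symm_apply] at h2
    exact h2
  rw [h1]; ring

theorem eta_surj (D : SzD θ S E K w s0 a b κ) (x : F) (hx : x ≠ 0) : ∃ k ∈ K, κ k * θ (κ k) = x := by
  have hinj : Function.Injective (fun u : F => u * θ u) := by
    intro u v huv
    simp only at huv
    rcases eq_or_ne v 0 with rfl | hv
    · rw [zero_mul, mul_eq_zero] at huv
      rcases huv with h | h
      · exact h
      · exact (map_eq_zero θ).1 h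
    · have h1 : (u / v) * θ (u / v) = 1 := by
        rw [map_div₀, div_mul_div_comm, huv, div_self]
        exact mul_ne_zero hv ((map_ne_zero θ).2 hv)
      have h2 := congrArg θ h1
      rw [map_mul, D.theta, map_one] at h2
      have h3 : u / v = 1 := by
        have : θ (u / v) * (u / v * (u / v)) = (u / v * θ (u / v)) * (u / v) := by ring
        rw [this, h1, one_mul] at h2
        exact h2
      exact (div_eq_one_iff_eq hv).1 h3
  obtain ⟨u, hu⟩ := (Finite.injective_iff_surjective.1 hinj) x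
  have hu0 : u ≠ 0 := by
    rintro rfl
    apply hx
    rw [← hu]
    simp
  obtain ⟨k, hk, hku⟩ := D.κ_surj u hu0
  exact ⟨k, hk, by rw [hku]; exact hu⟩

theorem b_inj (D : SzD θ S E K w s0 a b κ) {t t' : X} (ht : t ∈ E) (ht' : t' ∈ E) (h : b t = b t') : t = t' := by
  have := D.char
  have h1 : b (t * t') = 0 := by
    rw [D.b_mul t ht t' ht', h]
    exact CharTwo.add_self_eq_zero _
  have h2 := (D.b_zero (t * t') (mul_mem ht ht')).1 h1
  have h3 := D.Esq t' ht'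
  calc t = t * (t' * t') := by rw [h3, mul_one]
    _ = (t * t') * t' := by rw [mul_assoc]
    _ = t' := by rw [h2, one_mul]

theorem b_one (D : SzD θ S E K w s0 a b κ) : b 1 = 0 := (D.b_zero 1 (one_mem _)).2 rfl

theorem t1_ex (D : SzD θ S E K w s0 a b κ) : ∃ t ∈ E, b t = 1 := D.b_surj 1

end field

/-! ### the operators `T t = ρ t + 1` -/

section ops

variable {R : Type v} [AddCommGroup R] (ρR : X →* AddMonoid.End R)

/-- `T t = ρ t + 1` -/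
def T (t : X) (p : R) : R := ρR t p + p

omit [Finite X] in
theorem T_add (t : X) (p p' : R) : T ρR t (p + p') = T ρR t p + T ρR t p' := by
  simp only [T, map_add]; abel

omit [Finite X] in
theorem T_zero (t : X) : T ρR t 0 = 0 := by simp [T]

omit [Finite X] in
theorem T_mul (two : ∀ r : R, r + r = 0) (t t' : X) (p : R) :
    T ρR (t * t') p = T ρR t (T ρR t' p) + T ρR t p + T ρR t' p := by
  have h : T ρR t (T ρR t' p) + T ρR t p + T ρR t' p =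
      T ρR (t * t') p + ((ρR t p + ρR t p) + (ρR t' p + ρR t' p) + (p + p)) := by
    simp only [T, Cfsg.Agent.H71.Mt.mul_apply, map_add]; abel
  rw [h, two (ρR t p), two (ρR t' p), two p, add_zero, add_zero, add_zero]

omit [Finite X] in
theorem T_sq (two : ∀ r : R, r + r = 0) {t : X} (ht : t * t = 1) (p : R) : T ρR t (T ρR t p) = 0 := by
  have h0 : ρR t (ρR t p) = p := by
    rw [← Cfsg.Agent.H71.Mt.mul_apply, ht, map_one]; rfl
  have h : T ρR t (T ρR t p) = (ρR t p + ρR t p) + (p + p) := by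
    simp only [T, map_add, h0]; abel
  rw [h, two, two, add_zero]

omit [Finite X] in
theorem T_comm {t s : X} (h : t * s = s * t) (p : R) : T ρR t (T ρR s p) = T ρR s (T ρR t p) := by
  have h0 : ρR t (ρR s p) = ρR s (ρR t p) := by
    rw [← Cfsg.Agent.H71.Mt.mul_apply, h, Cfsg.Agent.H71.Mt.mul_apply]
  simp only [T, map_add, h0]; abel

omit [Finite X] in
theorem T_conj (k t : X) (p : R) : T ρR (k * t * k⁻¹) (ρR k p) = ρR k (T ρR t p) := by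
  simp only [T, map_add]
  rw [← Cfsg.Agent.H71.Mt.mul_apply, inv_mul_cancel_right, Cfsg.Agent.H71.Mt.mul_apply]

end ops

/-- the context -/
structure Ctx (θ : F ≃+* F) (S E K : Subgroup X) (w s0 : X) (a b κ : X → F) {R W : Type v} [AddCommGroup R]
    [AddCommGroup W] [Module F W] (ρR : X →* AddMonoid.End R) (ρW : Representation F X W) (w1 w2 w3 w4 : W)
    (i : W →+ R) (c1 c2 c3 c4 : W →ₗ[F] F) : Prop where
  D : SzD θ S E K w s0 a b κ
  N : Nat4 θ S E K w a b κ (RingEquiv.refl F) ρW w1 w2 w3 w4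
  two : ∀ r : R, r + r = 0
  inj : Function.Injective i
  eqv : ∀ g y, ρR g (i y) = i (ρW g y)
  span : ∀ v, v = c1 v • w1 + c2 v • w2 + c3 v • w3 + c4 v • w4
  co : ∀ x1 x2 x3 x4 : F, c1 (x1 • w1 + x2 • w2 + x3 • w3 + x4 • w4) = x1 ∧
        c2 (x1 • w1 + x2 • w2 + x3 • w3 + x4 • w4) = x2 ∧ c3 (x1 • w1 + x2 • w2 + x3 • w3 + x4 • w4) = x3 ∧
        c4 (x1 • w1 + x2 • w2 + x3 • w3 + x4 • w4) = x4

section ctx

variable {R W : Type v} [AddCommGroup R] [AddCommGroup W] [Module F W] {ρR : X →* AddMonoid.End R}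
  {ρW : Representation F X W} {w1 w2 w3 w4 : W} {i : W →+ R} {c1 c2 c3 c4 : W →ₗ[F] F}

theorem Ctx.twoW (C : Ctx θ S E K w s0 a b κ ρR ρW w1 w2 w3 w4 i c1 c2 c3 c4) (v : W) : v + v = 0 := by
  apply C.inj
  rw [map_add, C.two, map_zero]

theorem Ctx.twoF (C : Ctx θ S E K w s0 a b κ ρR ρW w1 w2 w3 w4 i c1 c2 c3 c4) (x : F) : x + x = 0 := by
  have := C.D.char
  exact CharTwo.add_self_eq_zero x

theorem Ctx.co2 (C : Ctx θ S E K w s0 a b κ ρR ρW w1 w2 w3 w4 i c1 c2 c3 c4) (x y : F) :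
    c1 (x • w1 + y • w2) = x ∧ c2 (x • w1 + y • w2) = y ∧ c3 (x • w1 + y • w2) = 0 ∧ c4 (x • w1 + y • w2) = 0 := by
  have := C.co x y 0 0
  simpa using this

theorem Ctx.nW (C : Ctx θ S E K w s0 a b κ ρR ρW w1 w2 w3 w4 i c1 c2 c3 c4) {t : X} (ht : t ∈ E) (v : W) :
    ρW t v + v = (b t * c3 v + θ (b t) * c4 v) • w1 + (b t * c4 v) • w2 := by
  have h1 := C.N.s1 t (C.D.ES ht)
  have h2 := C.N.s2 t (C.D.ES ht)
  have h3 := C.N.e3 t ht
  have h4 := C.N.e4 t ht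
  rw [RingEquiv.refl_apply] at h2 h3 h4
  rw [RingEquiv.refl_apply] at h4
  rw [(C.D.a_zero t (C.D.ES ht)).2 ht, zero_smul, add_zero] at h2
  have e : ρW t v + v = (v + v) + ((b t * c3 v + θ (b t) * c4 v) • w1 + (b t * c4 v) • w2) := by
    have hv := C.span v
    generalize c1 v = x1 at hv ⊢
    generalize c2 v = x2 at hv ⊢
    generalize c3 v = x3 at hv ⊢
    generalize c4 v = x4 at hv ⊢
    subst hv
    simp only [map_add, map_smul, h1, h2, h3, h4]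
    module
  rw [e, C.twoW, zero_add]

/-- `T s` on `⟨w1, w2⟩` -/
theorem Ctx.TY (C : Ctx θ S E K w s0 a b κ ρR ρW w1 w2 w3 w4 i c1 c2 c3 c4) {s : X} (hs : s ∈ S) (x y : F) :
    T ρR s (i (x • w1 + y • w2)) = i ((y * a s) • w1 + (0 : F) • w2) := by
  have h1 := C.N.s1 s hs
  have h2 := C.N.s2 s hs
  rw [RingEquiv.refl_apply] at h2
  rw [T, C.eqv, ← map_add]
  congr 1
  have e : (ρW s) (x • w1 + y • w2) + (x • w1 + y • w2) =
      ((x • w1 + y • w2) + (x • w1 + y • w2)) + ((y * a s) • w1 + (0 : F) • w2) := by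
    simp only [map_add, map_smul, h1, h2]
    module
  rw [e, C.twoW, zero_add]

theorem Ctx.TYE (C : Ctx θ S E K w s0 a b κ ρR ρW w1 w2 w3 w4 i c1 c2 c3 c4) {t : X} (ht : t ∈ E) (x y : F) :
    T ρR t (i (x • w1 + y • w2)) = 0 := by
  rw [C.TY (C.D.ES ht), (C.D.a_zero t (C.D.ES ht)).2 ht]
  simp

theorem Ctx.kY (C : Ctx θ S E K w s0 a b κ ρR ρW w1 w2 w3 w4 i c1 c2 c3 c4) {k : X} (hk : k ∈ K) (x y : F) :
    ρR k (i (x • w1 + y • w2)) = i ((κ k * θ.symm (κ k) * x) • w1 + (θ.symm (κ k) * y) • w2) := by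
  have h1 := C.N.k1 k hk
  have h2 := C.N.k2 k hk
  rw [RingEquiv.refl_apply] at h1 h2
  rw [C.eqv]
  congr 1
  simp only [map_add, map_smul, h1, h2]
  module

/-- `T t (i y)` -/
theorem Ctx.Ti (C : Ctx θ S E K w s0 a b κ ρR ρW w1 w2 w3 w4 i c1 c2 c3 c4) {t : X} (ht : t ∈ E) (y : W) :
    T ρR t (i y) = i ((b t * c3 y + θ (b t) * c4 y) • w1 + (b t * c4 y) • w2) := by
  rw [T, C.eqv, ← map_add, C.nW ht]

theorem Ctx.L1 (C : Ctx θ S E K w s0 a b κ ρR ρW w1 w2 w3 w4 i c1 c2 c3 c4) {t : X} (ht : t ∈ E) {p : R}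
    (h : ∃ y, T ρR t p = i y) : ∃ x y : F, T ρR t p = i (x • w1 + y • w2) := by
  rcases eq_or_ne (b t) 0 with hb | hb
  · have h1 := (C.D.b_zero t ht).1 hb
    refine ⟨0, 0, ?_⟩
    rw [h1, T, map_one]
    simp only [AddMonoid.End.one_apply, zero_smul, add_zero, map_zero]
    exact C.two p
  · obtain ⟨y, hy⟩ := h
    have h1 := T_sq ρR C.two (C.D.Esq t ht) p
    rw [hy, C.Ti ht, ← map_zero i] at h1
    have h2 := C.inj h1
    have h3 := C.co2 (b t * c3 y + θ (b t) * c4 y) (b t * c4 y)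
    rw [h2, map_zero, map_zero] at h3
    have h4 : c4 y = 0 := (mul_eq_zero.1 h3.2.1.symm).resolve_left hb
    have h5 : c3 y = 0 := by
      have := h3.1
      rw [h4, mul_zero, add_zero] at this
      exact (mul_eq_zero.1 this.symm).resolve_left hb
    refine ⟨c1 y, c2 y, ?_⟩
    rw [hy]
    congr 1
    conv_lhs => rw [C.span y]
    rw [h4, h5]
    simp

/-- the coordinates on `i W` -/
noncomputable def cc (i : W →+ R) (c : W →ₗ[F] F) (r : R) : F := c (Function.invFun i r)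

theorem Ctx.cc_i (C : Ctx θ S E K w s0 a b κ ρR ρW w1 w2 w3 w4 i c1 c2 c3 c4) (c : W →ₗ[F] F) (y : W) :
    cc i c (i y) = c y := by
  rw [cc, Function.leftInverse_invFun C.inj y]

theorem Ctx.cc_add (C : Ctx θ S E K w s0 a b κ ρR ρW w1 w2 w3 w4 i c1 c2 c3 c4) (c : W →ₗ[F] F) {r r' : R}
    (hr : ∃ y, r = i y) (hr' : ∃ y, r' = i y) : cc i c (r + r') = cc i c r + cc i c r' := by
  obtain ⟨y, rfl⟩ := hr
  obtain ⟨y', rfl⟩ := hr'
  rw [← map_add, C.cc_i, C.cc_i, C.cc_i, map_add]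

theorem Ctx.cc_zero (C : Ctx θ S E K w s0 a b κ ρR ρW w1 w2 w3 w4 i c1 c2 c3 c4) (c : W →ₗ[F] F) :
    cc i c (0 : R) = 0 := by
  rw [← map_zero i, C.cc_i, map_zero]

theorem Ctx.cc1 (C : Ctx θ S E K w s0 a b κ ρR ρW w1 w2 w3 w4 i c1 c2 c3 c4) (x y : F) :
    cc i c1 (i (x • w1 + y • w2)) = x := by rw [C.cc_i, (C.co2 x y).1]

theorem Ctx.cc2 (C : Ctx θ S E K w s0 a b κ ρR ρW w1 w2 w3 w4 i c1 c2 c3 c4) (x y : F) :
    cc i c2 (i (x • w1 + y • w2)) = y := by rw [C.cc_i, (C.co2 x y).2.1]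

/-- the first layer -/
def InP (E : Subgroup X) (ρR : X →* AddMonoid.End R) (i : W →+ R) (p : R) : Prop := ∀ t ∈ E, ∃ y, T ρR t p = i y

theorem InP.add {p p' : R} (h : InP E ρR i p) (h' : InP E ρR i p') : InP E ρR i (p + p') := by
  intro t ht
  obtain ⟨y, hy⟩ := h t ht
  obtain ⟨y', hy'⟩ := h' t ht
  exact ⟨y + y', by rw [T_add, hy, hy', map_add]⟩

theorem Ctx.inP_i (C : Ctx θ S E K w s0 a b κ ρR ρW w1 w2 w3 w4 i c1 c2 c3 c4) (y : W) : InP E ρR i (i y) :=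
  fun t ht => ⟨_, C.Ti ht y⟩

theorem Ctx.TP (C : Ctx θ S E K w s0 a b κ ρR ρW w1 w2 w3 w4 i c1 c2 c3 c4) {t : X} (ht : t ∈ E) {p : R}
    (h : InP E ρR i p) : T ρR t p = i (cc i c1 (T ρR t p) • w1 + cc i c2 (T ρR t p) • w2) := by
  obtain ⟨x, y, hxy⟩ := C.L1 ht (h t ht)
  rw [hxy, C.cc1, C.cc2]

theorem Ctx.TTP (C : Ctx θ S E K w s0 a b κ ρR ρW w1 w2 w3 w4 i c1 c2 c3 c4) {t t' : X} (ht : t ∈ E) (ht' : t' ∈ E)
    {p : R} (h : InP E ρR i p) : T ρR t (T ρR t' p) = 0 := by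
  rw [C.TP ht' h, C.TYE ht]

theorem Ctx.ccT_mul (C : Ctx θ S E K w s0 a b κ ρR ρW w1 w2 w3 w4 i c1 c2 c3 c4) (c : W →ₗ[F] F) {t t' : X}
    (ht : t ∈ E) (ht' : t' ∈ E) {p : R} (h : InP E ρR i p) :
    cc i c (T ρR (t * t') p) = cc i c (T ρR t p) + cc i c (T ρR t' p) := by
  rw [T_mul ρR C.two, C.TTP ht ht' h, zero_add, C.cc_add c (h t ht) (h t' ht')]

theorem Ctx.ccT_add (C : Ctx θ S E K w s0 a b κ ρR ρW w1 w2 w3 w4 i c1 c2 c3 c4) (c : W →ₗ[F] F) {t : X}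
    (ht : t ∈ E) {p p' : R} (h : InP E ρR i p) (h' : InP E ρR i p') :
    cc i c (T ρR t (p + p')) = cc i c (T ρR t p) + cc i c (T ρR t p') := by
  rw [T_add, C.cc_add c (h t ht) (h' t ht)]

theorem Ctx.ccK (C : Ctx θ S E K w s0 a b κ ρR ρW w1 w2 w3 w4 i c1 c2 c3 c4) {k : X} (hk : k ∈ K) {r : R}
    (hr : ∃ x y : F, r = i (x • w1 + y • w2)) : cc i c1 (ρR k r) = κ k * θ.symm (κ k) * cc i c1 r ∧
      cc i c2 (ρR k r) = θ.symm (κ k) * cc i c2 r := by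
  obtain ⟨x, y, rfl⟩ := hr
  rw [C.kY hk, C.cc1, C.cc2, C.cc1, C.cc2]
  exact ⟨rfl, rfl⟩

section ext

variable {r1 r2 r3 r4 : F →+ R}

theorem T_of (two : ∀ r : R, r + r = 0) {s : X} {p q : R} (h : ρR s p = p + q) : T ρR s p = q := by
  rw [T, h]
  have : p + q + p = q + (p + p) := by abel
  rw [this, two, add_zero]

theorem repl1 (H : ExtD θ S E K a b κ ρR ρW i r1 r2 r3 r4) (h : F →+ W)
    (hk : ∀ k ∈ K, ∀ x, ρW k (h x) = h (κ k * θ.symm (κ k) * x)) :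
    ExtD θ S E K a b κ ρR ρW i (r1 + i.comp h) r2 r3 r4 where
  two := H.two
  inj := H.inj
  eqv := H.eqv
  s1 := by
    intro s hs x
    obtain ⟨y, hy⟩ := H.s1 s hs x
    refine ⟨y + ρW s (h x) - h x, ?_⟩
    simp only [AddMonoidHom.add_apply, AddMonoidHom.comp_apply, map_add, map_sub, hy, H.eqv]
    abel
  s2 := by
    intro s hs x
    obtain ⟨y, hy⟩ := H.s2 s hs x
    refine ⟨y - h (a s * x), ?_⟩
    simp only [AddMonoidHom.add_apply, AddMonoidHom.comp_apply, map_sub, hy]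
    abel
  s3 := by
    intro s hs
    obtain ⟨e, he⟩ := H.s3 s hs
    refine ⟨e, fun x => ?_⟩
    obtain ⟨y, hy⟩ := he x
    refine ⟨y - h (e * x), ?_⟩
    simp only [AddMonoidHom.add_apply, AddMonoidHom.comp_apply, map_sub, hy]
    abel
  s4 := by
    intro s hs
    obtain ⟨f, g, he⟩ := H.s4 s hs
    refine ⟨f, g, fun x => ?_⟩
    obtain ⟨y, hy⟩ := he x
    refine ⟨y - h (g * x), ?_⟩
    simp only [AddMonoidHom.add_apply, AddMonoidHom.comp_apply, map_sub, hy]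
    abel
  e3 := by
    intro t ht x
    obtain ⟨y, hy⟩ := H.e3 t ht x
    refine ⟨y - h (b t * x), ?_⟩
    simp only [AddMonoidHom.add_apply, AddMonoidHom.comp_apply, map_sub, hy]
    abel
  e4 := by
    intro t ht x
    obtain ⟨y, hy⟩ := H.e4 t ht x
    refine ⟨y - h (θ (b t) * x), ?_⟩
    simp only [AddMonoidHom.add_apply, AddMonoidHom.comp_apply, map_sub, hy]
    abel
  k1 := by
    intro k hk' x
    simp only [AddMonoidHom.add_apply, AddMonoidHom.comp_apply, map_add, H.k1 k hk', H.eqv, hk k hk']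
  k2 := H.k2
  k3 := H.k3
  k4 := H.k4

theorem repl2 (H : ExtD θ S E K a b κ ρR ρW i r1 r2 r3 r4) (h : F →+ W)
    (hk : ∀ k ∈ K, ∀ x, ρW k (h x) = h (θ.symm (κ k) * x)) :
    ExtD θ S E K a b κ ρR ρW i r1 (r2 + i.comp h) r3 r4 where
  two := H.two
  inj := H.inj
  eqv := H.eqv
  s1 := H.s1
  s2 := by
    intro s hs x
    obtain ⟨y, hy⟩ := H.s2 s hs x
    refine ⟨y + ρW s (h x) - h x, ?_⟩
    simp only [AddMonoidHom.add_apply, AddMonoidHom.comp_apply, map_add, map_sub, hy, H.eqv]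
    abel
  s3 := by
    intro s hs
    obtain ⟨e, he⟩ := H.s3 s hs
    refine ⟨e, fun x => ?_⟩
    obtain ⟨y, hy⟩ := he x
    refine ⟨y - h (θ (a s) * x), ?_⟩
    simp only [AddMonoidHom.add_apply, AddMonoidHom.comp_apply, map_sub, hy]
    abel
  s4 := by
    intro s hs
    obtain ⟨f, g, he⟩ := H.s4 s hs
    refine ⟨f, g, fun x => ?_⟩
    obtain ⟨y, hy⟩ := he x
    refine ⟨y - h (f * x), ?_⟩
    simp only [AddMonoidHom.add_apply, AddMonoidHom.comp_apply, map_sub, hy]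
    abel
  e3 := H.e3
  e4 := by
    intro t ht x
    obtain ⟨y, hy⟩ := H.e4 t ht x
    refine ⟨y - h (b t * x), ?_⟩
    simp only [AddMonoidHom.add_apply, AddMonoidHom.comp_apply, map_sub, hy]
    abel
  k1 := H.k1
  k2 := by
    intro k hk' x
    simp only [AddMonoidHom.add_apply, AddMonoidHom.comp_apply, map_add, H.k2 k hk', H.eqv, hk k hk']
  k3 := H.k3
  k4 := H.k4

theorem inP1 (D : SzD θ S E K w s0 a b κ) (H : ExtD θ S E K a b κ ρR ρW i r1 r2 r3 r4) (x : F) :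
    InP E ρR i (r1 x) := by
  intro t ht
  obtain ⟨y, hy⟩ := H.s1 t (D.ES ht) x
  exact ⟨y, T_of H.two hy⟩

theorem inP2 (D : SzD θ S E K w s0 a b κ) (H : ExtD θ S E K a b κ ρR ρW i r1 r2 r3 r4) (x : F) :
    InP E ρR i (r2 x) := by
  intro t ht
  obtain ⟨y, hy⟩ := H.s2 t (D.ES ht) x
  rw [(D.a_zero t (D.ES ht)).2 ht, zero_mul, map_zero, add_zero] at hy
  exact ⟨y, T_of H.two hy⟩

/-- `d (t, x) = t h (x)` -/
theorem d_lin (C : Ctx θ S E K w s0 a b κ ρR ρW w1 w2 w3 w4 i c1 c2 c3 c4)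
    (H : ExtD θ S E K a b κ ρR ρW i r1 r2 r3 r4) {t1 : X} (ht1 : t1 ∈ E) (hb1 : b t1 = 1) {t : X} (ht : t ∈ E)
    (x : F) : cc i c2 (T ρR t (r1 x)) = b t * cc i c2 (T ρR t1 (r1 x)) := by
  obtain ⟨s, hs, has⟩ := C.D.a_surj 1
  obtain ⟨y, hy⟩ := H.s1 s hs x
  have hy' := T_of H.two hy
  have key : ∀ t ∈ E, b t * c4 y = 0 ∧ b t * c3 y + θ (b t) * c4 y = cc i c2 (T ρR t (r1 x)) := by
    intro t ht
    have h1 := T_comm ρR (C.D.Ecen t ht s hs) (r1 x)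
    rw [hy', C.Ti ht, C.TP ht (inP1 C.D H x), C.TY hs, has, mul_one] at h1
    have h2 := C.inj h1
    have h3 := C.co2 (b t * c3 y + θ (b t) * c4 y) (b t * c4 y)
    have h4 := C.co2 (cc i c2 (T ρR t (r1 x))) 0
    rw [h2] at h3
    exact ⟨h3.2.1.symm.trans h4.2.1, h3.1.symm.trans h4.1⟩
  have h4 : c4 y = 0 := by
    have := (key t1 ht1).1
    rwa [hb1, one_mul] at this
  have h5 := (key t1 ht1).2
  rw [hb1, h4, one_mul, mul_zero, add_zero] at h5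
  have h6 := (key t ht).2
  rw [h4, mul_zero, add_zero, h5] at h6
  exact h6.symm

theorem conj_b (D : SzD θ S E K w s0 a b κ) {k t : X} (hk : k ∈ K) (ht : t ∈ E) :
    b (k * t * k⁻¹) = κ k * θ.symm (κ k) * θ.symm (κ k) * b t := by
  rw [D.Kb k hk t ht, mu_eq D]

/-- equivariance of the coordinates of `T t (r1 x)` -/
theorem K1 (C : Ctx θ S E K w s0 a b κ ρR ρW w1 w2 w3 w4 i c1 c2 c3 c4)
    (H : ExtD θ S E K a b κ ρR ρW i r1 r2 r3 r4) {k t : X} (hk : k ∈ K) (ht : t ∈ E) (x : F) :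
    cc i c1 (T ρR (k * t * k⁻¹) (r1 (κ k * θ.symm (κ k) * x))) = κ k * θ.symm (κ k) * cc i c1 (T ρR t (r1 x)) ∧
    cc i c2 (T ρR (k * t * k⁻¹) (r1 (κ k * θ.symm (κ k) * x))) = θ.symm (κ k) * cc i c2 (T ρR t (r1 x)) := by
  rw [← H.k1 k hk, T_conj]
  exact C.ccK hk (C.L1 ht (inP1 C.D H x t ht))

theorem K2 (C : Ctx θ S E K w s0 a b κ ρR ρW w1 w2 w3 w4 i c1 c2 c3 c4)
    (H : ExtD θ S E K a b κ ρR ρW i r1 r2 r3 r4) {k t : X} (hk : k ∈ K) (ht : t ∈ E) (x : F) :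
    cc i c1 (T ρR (k * t * k⁻¹) (r2 (θ.symm (κ k) * x))) = κ k * θ.symm (κ k) * cc i c1 (T ρR t (r2 x)) ∧
    cc i c2 (T ρR (k * t * k⁻¹) (r2 (θ.symm (κ k) * x))) = θ.symm (κ k) * cc i c2 (T ρR t (r2 x)) := by
  rw [← H.k2 k hk, T_conj]
  exact C.ccK hk (C.L1 ht (inP2 C.D H x t ht))

/-- an additive map `x ↦ c (T t (r x)) • v` -/
noncomputable def hmap (C : Ctx θ S E K w s0 a b κ ρR ρW w1 w2 w3 w4 i c1 c2 c3 c4) (c : W →ₗ[F] F) {t : X}
    (ht : t ∈ E) (r : F →+ R) (hr : ∀ x, InP E ρR i (r x)) (v : W) : F →+ W :=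
  AddMonoidHom.mk' (fun x => cc i c (T ρR t (r x)) • v) (by
    intro x y
    rw [map_add, C.ccT_add c ht (hr x) (hr y), add_smul])

theorem hmap_apply (C : Ctx θ S E K w s0 a b κ ρR ρW w1 w2 w3 w4 i c1 c2 c3 c4) (c : W →ₗ[F] F) {t : X}
    (ht : t ∈ E) (r : F →+ R) (hr : ∀ x, InP E ρR i (r x)) (v : W) (x : F) :
    hmap C c ht r hr v x = cc i c (T ρR t (r x)) • v := rfl

theorem kne (D : SzD θ S E K w s0 a b κ) {k : X} (hk : k ∈ K) : κ k ≠ 0 ∧ θ.symm (κ k) ≠ 0 :=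
  ⟨D.κ_ne k hk, (map_ne_zero θ.symm).2 (D.κ_ne k hk)⟩

/-- Step A: make `d = 0`. -/
theorem stepA (C : Ctx θ S E K w s0 a b κ ρR ρW w1 w2 w3 w4 i c1 c2 c3 c4)
    (H : ExtD θ S E K a b κ ρR ρW i r1 r2 r3 r4) : ∃ r1' : F →+ R, ExtD θ S E K a b κ ρR ρW i r1' r2 r3 r4 ∧
      (∀ x, ∃ y : W, r1' x = r1 x + i y) ∧ ∀ t ∈ E, ∀ x, cc i c2 (T ρR t (r1' x)) = 0 := by
  obtain ⟨t1, ht1, hb1⟩ := t1_ex C.D
  set h := hmap C c2 ht1 r1 (inP1 C.D H) w4 with hh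
  have hk : ∀ k ∈ K, ∀ x, ρW k (h x) = h (κ k * θ.symm (κ k) * x) := by
    intro k hk x
    rw [hh, hmap_apply, hmap_apply, map_smul]
    have h4 := C.N.k4 k hk
    rw [RingEquiv.refl_apply] at h4
    rw [h4, smul_smul]
    congr 1
    have h5 := (K1 C H hk ht1 x).2
    rw [d_lin C H ht1 hb1 (C.D.KE k hk t1 ht1), conj_b C.D hk ht1, hb1, mul_one] at h5
    obtain ⟨hk1, hk2⟩ := kne C.D hk
    have h6 : κ k * θ.symm (κ k) * cc i c2 (T ρR t1 (r1 (κ k * θ.symm (κ k) * x))) = cc i c2 (T ρR t1 (r1 x)) := by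
      apply mul_left_cancel₀ hk2
      rw [← h5]; ring
    rw [← h6]
    field_simp
  refine ⟨r1 + i.comp h, repl1 H h hk, fun x => ⟨h x, rfl⟩, ?_⟩
  intro t ht x
  have e : (r1 + i.comp h) x = r1 x + i (h x) := rfl
  rw [e, C.ccT_add c2 ht (inP1 C.D H x) (C.inP_i _), d_lin C H ht1 hb1 ht, C.Ti ht, C.cc2, hh, hmap_apply,
    map_smul]
  have h7 := C.co 0 0 0 1
  simp only [zero_smul, zero_add, one_smul] at h7
  rw [h7.2.2.2, smul_eq_mul, mul_one]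
  exact C.twoF _

/-! ### Step B -/

theorem T3 (H : ExtD θ S E K a b κ ρR ρW i r1 r2 r3 r4) {t : X} (ht : t ∈ E) (x : F) :
    ∃ y : W, T ρR t (r3 x) = r1 (b t * x) + i y := by
  obtain ⟨y, hy⟩ := H.e3 t ht x
  exact ⟨y, T_of H.two (by rw [hy, add_assoc])⟩

theorem T4 (H : ExtD θ S E K a b κ ρR ρW i r1 r2 r3 r4) {t : X} (ht : t ∈ E) (x : F) :
    ∃ y : W, T ρR t (r4 x) = r2 (b t * x) + r1 (θ (b t) * x) + i y := by
  obtain ⟨y, hy⟩ := H.e4 t ht x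
  exact ⟨y, T_of H.two (by rw [hy]; abel)⟩

theorem PP3 (C : Ctx θ S E K w s0 a b κ ρR ρW w1 w2 w3 w4 i c1 c2 c3 c4)
    (H : ExtD θ S E K a b κ ρR ρW i r1 r2 r3 r4) {t : X} (ht : t ∈ E) (x : F) : InP E ρR i (T ρR t (r3 x)) := by
  obtain ⟨y, hy⟩ := T3 H ht x
  rw [hy]
  exact (inP1 C.D H _).add (C.inP_i _)

theorem PP4 (C : Ctx θ S E K w s0 a b κ ρR ρW w1 w2 w3 w4 i c1 c2 c3 c4)
    (H : ExtD θ S E K a b κ ρR ρW i r1 r2 r3 r4) {t : X} (ht : t ∈ E) (x : F) : InP E ρR i (T ρR t (r4 x)) := by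
  obtain ⟨y, hy⟩ := T4 H ht x
  rw [hy]
  exact ((inP2 C.D H _).add (inP1 C.D H _)).add (C.inP_i _)

theorem S3 (C : Ctx θ S E K w s0 a b κ ρR ρW w1 w2 w3 w4 i c1 c2 c3 c4)
    (H : ExtD θ S E K a b κ ρR ρW i r1 r2 r3 r4) {s : X} (hs : s ∈ S) (x : F) : InP E ρR i (T ρR s (r3 x)) := by
  obtain ⟨e, he⟩ := H.s3 s hs
  obtain ⟨y, hy⟩ := he x
  rw [T_of H.two (q := r2 (θ (a s) * x) + r1 (e * x) + i y) (by rw [hy]; abel)]
  exact ((inP2 C.D H _).add (inP1 C.D H _)).add (C.inP_i _)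

theorem S4 (C : Ctx θ S E K w s0 a b κ ρR ρW w1 w2 w3 w4 i c1 c2 c3 c4)
    (H : ExtD θ S E K a b κ ρR ρW i r1 r2 r3 r4) {s : X} (hs : s ∈ S) (x : F) :
    ∃ q, InP E ρR i q ∧ T ρR s (r4 x) = r3 (a s * x) + q := by
  obtain ⟨f, g, he⟩ := H.s4 s hs
  obtain ⟨y, hy⟩ := he x
  exact ⟨r2 (f * x) + r1 (g * x) + i y, ((inP2 C.D H _).add (inP1 C.D H _)).add (C.inP_i _),
    T_of H.two (by rw [hy]; abel)⟩

theorem comm3 (C : Ctx θ S E K w s0 a b κ ρR ρW w1 w2 w3 w4 i c1 c2 c3 c4) {s t t' : X} (hs : s ∈ S) (ht : t ∈ E)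
    (ht' : t' ∈ E) (r : R) : T ρR s (T ρR t (T ρR t' r)) = T ρR t (T ρR t' (T ρR s r)) := by
  rw [T_comm ρR (C.D.Ecen t' ht' s hs) r, T_comm ρR (C.D.Ecen t ht s hs)]

/-- B1 -/
theorem B1 (C : Ctx θ S E K w s0 a b κ ρR ρW w1 w2 w3 w4 i c1 c2 c3 c4)
    (H : ExtD θ S E K a b κ ρR ρW i r1 r2 r3 r4) {t t' : X} (ht : t ∈ E) (ht' : t' ∈ E) (x : F) :
    cc i c2 (T ρR t (T ρR t' (r3 x))) = 0 := by
  obtain ⟨s, hs, has⟩ := C.D.a_surj 1
  have h1 := comm3 C hs ht ht' (r3 x)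
  rw [C.TTP ht ht' (S3 C H hs x), C.TP ht (PP3 C H ht' x), C.TY hs, has, mul_one] at h1
  have h2 := congrArg (cc i c1) h1
  rwa [C.cc1, C.cc_zero] at h2

/-- B2 -/
theorem B2 (C : Ctx θ S E K w s0 a b κ ρR ρW w1 w2 w3 w4 i c1 c2 c3 c4)
    (H : ExtD θ S E K a b κ ρR ρW i r1 r2 r3 r4) {t t' s : X} (ht : t ∈ E) (ht' : t' ∈ E) (hs : s ∈ S) (x : F) :
    cc i c2 (T ρR t (T ρR t' (r4 x))) * a s = cc i c1 (T ρR t (T ρR t' (r3 (a s * x)))) := by
  have h1 := comm3 C hs ht ht' (r4 x)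
  obtain ⟨q, hq, hsq⟩ := S4 C H hs x
  rw [hsq, T_add, T_add, C.TTP ht ht' hq, add_zero, C.TP ht (PP4 C H ht' x), C.TY hs] at h1
  have h2 := congrArg (cc i c1) h1
  rwa [C.cc1] at h2

theorem B3 (C : Ctx θ S E K w s0 a b κ ρR ρW w1 w2 w3 w4 i c1 c2 c3 c4)
    (H : ExtD θ S E K a b κ ρR ρW i r1 r2 r3 r4) {t t' : X} (ht : t ∈ E) (ht' : t' ∈ E) (x : F) :
    cc i c2 (T ρR t (T ρR t' (r4 x))) = x * cc i c2 (T ρR t (T ρR t' (r4 1))) := by
  obtain ⟨s, hs, has⟩ := C.D.a_surj 1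
  obtain ⟨s', hs', has'⟩ := C.D.a_surj x
  have h1 := B2 C H ht ht' hs x
  have h2 := B2 C H ht ht' hs' 1
  rw [has, mul_one, one_mul] at h1
  rw [has', mul_one] at h2
  rw [h1, ← h2, mul_comm]

/-- B4 -/
theorem B4 (C : Ctx θ S E K w s0 a b κ ρR ρW w1 w2 w3 w4 i c1 c2 c3 c4)
    (H : ExtD θ S E K a b κ ρR ρW i r1 r2 r3 r4) {t t' : X} (ht : t ∈ E) (ht' : t' ∈ E) (x : F) :
    cc i c2 (T ρR t (T ρR t' (r4 x))) = 0 := by
  have hchar := C.D.char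
  choose e heE heb using C.D.b_surj
  have hperf : ∀ s : F, ∃ t : F, t * t = s := by
    intro s
    refine ⟨θ.symm (θ.symm s), ?_⟩
    rw [← C.D.theta]
    simp
  have hem : ∀ s s', e (s + s') = e s * e s' := by
    intro s s'
    apply b_inj C.D (heE _) (mul_mem (heE _) (heE _))
    rw [heb, C.D.b_mul _ (heE _) _ (heE _), heb, heb]
  have hsym : ∀ t ∈ E, ∀ t' ∈ E, ∀ r : R, T ρR t (T ρR t' r) = T ρR t' (T ρR t r) := by
    intro t ht t' ht' r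
    exact T_comm ρR (C.D.Ecen t ht t' (C.D.ES ht')) r
  have key := Cfsg.Agent.Suz2.hua hperf (fun s t => cc i c2 (T ρR (e s) (T ρR (e t) (r4 1))))
    (by
      intro s s' t
      rw [hem, C.ccT_mul c2 (heE _) (heE _) (PP4 C H (heE _) 1)])
    (by
      intro s t t'
      rw [hsym _ (heE _) _ (heE _), hem, C.ccT_mul c2 (heE _) (heE _) (PP4 C H (heE _) 1),
        hsym _ (heE t) _ (heE s), hsym _ (heE t') _ (heE s)])
    (by
      intro s
      rw [T_sq ρR C.two (C.D.Esq _ (heE _)), C.cc_zero])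
    (by
      intro c s t hc
      obtain ⟨k, hk, hkc⟩ := eta_surj C.D c hc
      have h1 : e (c * s) = k * e s * k⁻¹ := by
        apply b_inj C.D (heE _) (C.D.KE k hk _ (heE _))
        rw [heb, C.D.Kb k hk _ (heE _), heb, hkc]
      have h2 : e (c * t) = k * e t * k⁻¹ := by
        apply b_inj C.D (heE _) (C.D.KE k hk _ (heE _))
        rw [heb, C.D.Kb k hk _ (heE _), heb, hkc]
      obtain ⟨hk1, hk2⟩ := kne C.D hk
      have h3 : r4 1 = ρR k (r4 (κ k * θ.symm (κ k))) := by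
        rw [H.k4 k hk, inv_mul_cancel₀ (mul_ne_zero hk1 hk2)]
      have h4 : T ρR (e (c * s)) (T ρR (e (c * t)) (r4 1)) =
          ρR k (T ρR (e s) (T ρR (e t) (r4 (κ k * θ.symm (κ k))))) := by
        rw [h1, h2, h3, T_conj, T_conj]
      rw [h4, (C.ccK hk (C.L1 (heE s) (PP4 C H (heE t) _ (e s) (heE s)))).2, B3 C H (heE s) (heE t), ← hkc,
        mu_eq C.D]
      ring)
    (b t) (b t')
  have h1 : e (b t) = t := b_inj C.D (heE _) ht (heb _)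
  have h2 : e (b t') = t' := b_inj C.D (heE _) ht' (heb _)
  simp only [h1, h2] at key
  rw [B3 C H ht ht', key, mul_zero]

/-- B5 -/
theorem B5 (C : Ctx θ S E K w s0 a b κ ρR ρW w1 w2 w3 w4 i c1 c2 c3 c4)
    (H : ExtD θ S E K a b κ ρR ρW i r1 r2 r3 r4) (hd : ∀ t ∈ E, ∀ x, cc i c2 (T ρR t (r1 x)) = 0)
    {t1 : X} (ht1 : t1 ∈ E) (hb1 : b t1 = 1) {t : X} (ht : t ∈ E) (x : F) :
    cc i c2 (T ρR t (r2 x)) = b t * cc i c2 (T ρR t1 (r2 x)) := by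
  obtain ⟨y, hy⟩ := T4 H ht1 x
  rw [hb1, one_mul] at hy
  have key : ∀ t ∈ E, cc i c2 (T ρR t (r2 x)) + b t * c4 y = 0 := by
    intro t ht
    have h1 := B4 C H ht ht1 x
    rw [hy, C.ccT_add c2 ht ((inP2 C.D H _).add (inP1 C.D H _)) (C.inP_i _),
      C.ccT_add c2 ht (inP2 C.D H _) (inP1 C.D H _), hd t ht, add_zero, C.Ti ht, C.cc2] at h1
    exact h1
  have hchar := C.D.char
  have h2 := CharTwo.add_eq_zero.1 (key t ht)
  have h3 := CharTwo.add_eq_zero.1 (key t1 ht1)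
  rw [hb1, one_mul] at h3
  rw [h2, h3]

/-- B6 -/
theorem B6 (C : Ctx θ S E K w s0 a b κ ρR ρW w1 w2 w3 w4 i c1 c2 c3 c4)
    (H : ExtD θ S E K a b κ ρR ρW i r1 r2 r3 r4) (hd : ∀ t ∈ E, ∀ x, cc i c2 (T ρR t (r1 x)) = 0)
    {t' : X} (ht' : t' ∈ E) (x : F) : ∃ y : W, T ρR t' (r3 x) = r1 (b t' * x) + i y ∧ c4 y = 0 ∧
      ∀ t ∈ E, cc i c1 (T ρR t (r1 (b t' * x))) = b t * c3 y := by
  have hchar := C.D.char
  obtain ⟨t1, ht1, hb1⟩ := t1_ex C.D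
  obtain ⟨y, hy⟩ := T3 H ht' x
  obtain ⟨s, hs, has⟩ := C.D.a_surj 1
  have h4 : c4 y = 0 := by
    have h1 := B1 C H ht1 ht' x
    rw [hy, C.ccT_add c2 ht1 (inP1 C.D H _) (C.inP_i _), hd t1 ht1, C.Ti ht1, C.cc2, hb1, zero_add, one_mul] at h1
    exact h1
  refine ⟨y, hy, h4, ?_⟩
  intro t ht
  have h1 := B2 C H ht ht' hs x
  rw [B4 C H ht ht', zero_mul, has, one_mul, hy, C.ccT_add c1 ht (inP1 C.D H _) (C.inP_i _), C.Ti ht, C.cc1, h4,
    mul_zero, add_zero] at h1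
  exact CharTwo.add_eq_zero.1 h1.symm

theorem B6' (C : Ctx θ S E K w s0 a b κ ρR ρW w1 w2 w3 w4 i c1 c2 c3 c4)
    (H : ExtD θ S E K a b κ ρR ρW i r1 r2 r3 r4) (hd : ∀ t ∈ E, ∀ x, cc i c2 (T ρR t (r1 x)) = 0)
    {t1 : X} (ht1 : t1 ∈ E) (hb1 : b t1 = 1) {t : X} (ht : t ∈ E) (x : F) :
    cc i c1 (T ρR t (r1 x)) = b t * cc i c1 (T ρR t1 (r1 x)) := by
  obtain ⟨y, hy, h4, h⟩ := B6 C H hd ht1 x
  rw [hb1, one_mul] at h
  rw [h t ht, h t1 ht1, hb1, one_mul]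

theorem stepB (C : Ctx θ S E K w s0 a b κ ρR ρW w1 w2 w3 w4 i c1 c2 c3 c4)
    (H : ExtD θ S E K a b κ ρR ρW i r1 r2 r3 r4) (hd : ∀ t ∈ E, ∀ x, cc i c2 (T ρR t (r1 x)) = 0) :
    ∃ r1' r2' : F →+ R, ExtD θ S E K a b κ ρR ρW i r1' r2' r3 r4 ∧ (∀ x, ∃ y : W, r1' x = r1 x + i y) ∧
      (∀ t ∈ E, ∀ x, ρR t (r1' x) = r1' x) ∧
      (∀ t ∈ E, ∀ x, ∃ c : F, ρR t (r2' x) = r2' x + i (c • w1)) ∧
      (∀ t ∈ E, ∀ x, ∃ c d : F, ρR t (r3 x) = r3 x + r1' (b t * x) + i (c • w1 + d • w2)) := by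
  have hchar := C.D.char
  obtain ⟨t1, ht1, hb1⟩ := t1_ex C.D
  set p := hmap C c1 ht1 r1 (inP1 C.D H) w3 with hp
  set h := hmap C c2 ht1 r2 (inP2 C.D H) w4 with hh
  have hpk : ∀ k ∈ K, ∀ x, ρW k (p x) = p (κ k * θ.symm (κ k) * x) := by
    intro k hk x
    rw [hp, hmap_apply, hmap_apply, map_smul]
    have h4 := C.N.k3 k hk
    rw [RingEquiv.refl_apply] at h4
    rw [h4, smul_smul]
    congr 1
    have h5 := (K1 C H hk ht1 x).1
    rw [B6' C H hd ht1 hb1 (C.D.KE k hk t1 ht1), conj_b C.D hk ht1, hb1, mul_one] at h5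
    obtain ⟨hk1, hk2⟩ := kne C.D hk
    have h6 : θ.symm (κ k) * cc i c1 (T ρR t1 (r1 (κ k * θ.symm (κ k) * x))) = cc i c1 (T ρR t1 (r1 x)) := by
      apply mul_left_cancel₀ (mul_ne_zero hk1 hk2)
      rw [← h5]; ring
    rw [← h6]
    field_simp
  have hhk : ∀ k ∈ K, ∀ x, ρW k (h x) = h (θ.symm (κ k) * x) := by
    intro k hk x
    rw [hh, hmap_apply, hmap_apply, map_smul]
    have h4 := C.N.k4 k hk
    rw [RingEquiv.refl_apply] at h4
    rw [h4, smul_smul]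
    congr 1
    have h5 := (K2 C H hk ht1 x).2
    rw [B5 C H hd ht1 hb1 (C.D.KE k hk t1 ht1), conj_b C.D hk ht1, hb1, mul_one] at h5
    obtain ⟨hk1, hk2⟩ := kne C.D hk
    have h6 : κ k * θ.symm (κ k) * cc i c2 (T ρR t1 (r2 (θ.symm (κ k) * x))) = cc i c2 (T ρR t1 (r2 x)) := by
      apply mul_left_cancel₀ hk2
      rw [← h5]; ring
    rw [← h6]
    field_simp
  refine ⟨r1 + i.comp p, r2 + i.comp h, repl2 (repl1 H p hpk) h hhk, fun x => ⟨p x, rfl⟩, ?_, ?_, ?_⟩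
  · intro t ht x
    have e : (r1 + i.comp p) x = r1 x + i (p x) := rfl
    have h7 := C.co 0 0 1 0
    simp only [zero_smul, zero_add, one_smul, add_zero] at h7
    have hz : T ρR t ((r1 + i.comp p) x) = 0 := by
      rw [e, T_add, C.TP ht (inP1 C.D H x), C.Ti ht, hd t ht, B6' C H hd ht1 hb1 ht, hp, hmap_apply, map_smul,
        map_smul, h7.2.2.1, h7.2.2.2, ← map_add]
      simp only [smul_eq_mul, mul_one, mul_zero, add_zero, zero_smul]
      rw [C.twoW, map_zero]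
    rw [T] at hz
    have : ρR t ((r1 + i.comp p) x) = (ρR t ((r1 + i.comp p) x) + (r1 + i.comp p) x) +
        (r1 + i.comp p) x - ((r1 + i.comp p) x + (r1 + i.comp p) x) := by abel
    rw [this, hz, C.two, sub_zero, zero_add]
  · intro t ht x
    have e : (r2 + i.comp h) x = r2 x + i (h x) := rfl
    have h7 := C.co 0 0 0 1
    simp only [zero_smul, zero_add, one_smul, add_zero] at h7
    have hP : InP E ρR i ((r2 + i.comp h) x) := by
      rw [e]; exact (inP2 C.D H x).add (C.inP_i _)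
    have hz : cc i c2 (T ρR t ((r2 + i.comp h) x)) = 0 := by
      rw [e, C.ccT_add c2 ht (inP2 C.D H x) (C.inP_i _), B5 C H hd ht1 hb1 ht, C.Ti ht, C.cc2, hh, hmap_apply,
        map_smul, h7.2.2.2, smul_eq_mul, mul_one]
      exact C.twoF _
    refine ⟨cc i c1 (T ρR t ((r2 + i.comp h) x)), ?_⟩
    have h8 := C.TP ht hP
    rw [hz, zero_smul, add_zero] at h8
    rw [← h8, T]
    have : (r2 + i.comp h) x + (ρR t ((r2 + i.comp h) x) + (r2 + i.comp h) x) = ρR t ((r2 + i.comp h) x) +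
        ((r2 + i.comp h) x + (r2 + i.comp h) x) := by abel
    rw [this, C.two, add_zero]
  · intro t ht x
    obtain ⟨y, hy, h4, hy3⟩ := B6 C H hd ht x
    have h3 := hy3 t1 ht1
    rw [hb1, one_mul] at h3
    refine ⟨c1 y, c2 y, ?_⟩
    have e : (r1 + i.comp p) (b t * x) = r1 (b t * x) + i (p (b t * x)) := rfl
    have e2 : p (b t * x) = c3 y • w3 := by rw [hp, hmap_apply, h3]
    rw [e, e2]
    have e4 : c1 y • w1 + c2 y • w2 = y + c3 y • w3 - (c3 y • w3 + c3 y • w3) := by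
      conv_rhs => rw [C.span y]
      have hc := C.co (c1 y) (c2 y) (c3 y) (c4 y)
      simp only [hc.1, hc.2.1, hc.2.2.1, hc.2.2.2]
      rw [h4]
      module
    rw [e4, C.twoW, sub_zero, map_add]
    have e5 : ρR t (r3 x) + r3 x = r1 (b t * x) + i y := hy
    have e6 : ρR t (r3 x) = (ρR t (r3 x) + r3 x) + r3 x - (r3 x + r3 x) := by abel
    rw [e6, e5, C.two, sub_zero]
    have e7 : r3 x + (r1 (b t * x) + i (c3 y • w3)) + (i y + i (c3 y • w3)) =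
        r1 (b t * x) + i y + r3 x + (i (c3 y • w3) + i (c3 y • w3)) := by abel
    rw [e7, C.two, add_zero]

end ext

end ctx

/-- [P8b] -/
theorem ext_E (D : SzD θ S E K w s0 a b κ) {R W : Type v} [AddCommGroup R] [Finite R]
    [AddCommGroup W] [Finite W] [Module F W]
    (ρR : X →* AddMonoid.End R) (ρW : Representation F X W)
    {w1 w2 w3 w4 : W} (NW : Nat4 θ S E K w a b κ (RingEquiv.refl F) ρW w1 w2 w3 w4) (i : W →+ R)
    {r1 r2 r3 r4 : F →+ R} (H : ExtD θ S E K a b κ ρR ρW i r1 r2 r3 r4) :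
    ∃ r1' r2' : F →+ R, ExtD θ S E K a b κ ρR ρW i r1' r2' r3 r4 ∧ (∀ x, ∃ y : W, r1' x = r1 x + i y) ∧
      (∀ t ∈ E, ∀ x, ρR t (r1' x) = r1' x) ∧
      (∀ t ∈ E, ∀ x, ∃ c : F, ρR t (r2' x) = r2' x + i (c • w1)) ∧
      (∀ t ∈ E, ∀ x, ∃ c d : F, ρR t (r3 x) = r3 x + r1' (b t * x) + i (c • w1 + d • w2)) := by
  obtain ⟨c1, c2, c3, c4, hs, hc⟩ := coordsW NW
  have C : Ctx θ S E K w s0 a b κ ρR ρW w1 w2 w3 w4 i c1 c2 c3 c4 := ⟨D, NW, H.two, H.inj, H.eqv, hs, hc⟩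
  obtain ⟨r1a, Ha, hra, hda⟩ := stepA C H
  obtain ⟨r1b, r2b, Hb, hrb, h1, h2, h3⟩ := stepB C Ha hda
  refine ⟨r1b, r2b, Hb, ?_, h1, h2, h3⟩
  intro x
  obtain ⟨y, hy⟩ := hra x
  obtain ⟨y', hy'⟩ := hrb x
  exact ⟨y + y', by rw [hy', hy, map_add, add_assoc]⟩

end Cfsg.Agent.H65.MtP8b
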