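import Mathlib
import Cfsg.Agent.H65.ClassCount

set_option autoImplicit false

namespace Cfsg.Agent.H65

open Subgroup Cfsg.Agent.Transfer
open scoped Pointwise

universe u

/-- The set of `p`-element classes, as a subtype. -/
theorem kcl_insert_le {G : Type u} [Group G] [Finite G] {p : ℕ} (hp : p.Prime) (ν : Set ℕ) :
    ∃ (ι : Type u) (_ : Finite ι) (a : ι → G), Nat.card ι = kcl {p} G ∧
      ∀ [Fintype ι], kcl (insert p ν) G ≤ ∑ i : ι, kcl ν (centralizer ({a i} : Set G)) := by
  classical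
  have : Fact p.Prime := ⟨hp⟩
  let ι := {c : ConjClasses G // ∀ x ∈ c.carrier, PiEl {p} x}
  let a : ι → G := fun c => Classical.choose (ConjClasses.exists_rep c.1)
  have ha : ∀ c : ι, ConjClasses.mk (a c) = c.1 := fun c =>
    Classical.choose_spec (ConjClasses.exists_rep c.1)
  refine ⟨ι, inferInstance, a, rfl, ?_⟩
  intro _
  let κ : ι → Type u := fun c => {d : ConjClasses (centralizer ({a c} : Set G)) //
    ∀ x ∈ d.carrier, PiEl ν x}
  let b : ∀ c : ι, κ c → centralizer ({a c} : Set G) := fun c d =>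
    Classical.choose (ConjClasses.exists_rep d.1)
  have hb : ∀ (c : ι) (d : κ c), ConjClasses.mk (b c d) = d.1 := fun c d =>
    Classical.choose_spec (ConjClasses.exists_rep d.1)
  have hpi : ∀ (c : ι) (d : κ c), PiEl (insert p ν) (a c * b c d) := by
    intro c d r hr hrd
    have hcomm : Commute (a c) (b c d : G) := (mem_centralizer_singleton_iff.mp (b c d).2).symm
    have h1 := hrd.trans hcomm.orderOf_mul_dvd_lcm
    have h2 : r ∣ orderOf (a c) * orderOf (b c d : G) := h1.trans (Nat.lcm_dvd_mul _ _)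
    rcases (Nat.Prime.dvd_mul hr).mp h2 with h3 | h3
    · have h4 := c.2 (a c) (by rw [← ha c]; exact ConjClasses.mem_carrier_mk) r hr h3
      exact Set.mem_insert_iff.mpr (Or.inl h4)
    · have h4 := d.2 (b c d) (by rw [← hb c d]; exact ConjClasses.mem_carrier_mk) r hr (by
        rwa [orderOf_coe] at h3)
      exact Set.mem_insert_iff.mpr (Or.inr h4)
  let F : (Σ c : ι, κ c) → {c : ConjClasses G // ∀ x ∈ c.carrier, PiEl (insert p ν) x} :=
    fun s => ⟨ConjClasses.mk (a s.1 * b s.1 s.2), by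
      rw [forall_carrier_iff]; exact hpi s.1 s.2⟩
  have hF : Function.Surjective F := by
    rintro ⟨c0, hc0⟩
    obtain ⟨x, rfl⟩ := ConjClasses.exists_rep c0
    rw [forall_carrier_iff] at hc0
    obtain ⟨i, j, hij, ⟨k, hk⟩, hj⟩ := exists_pow_decomp p x (orderOf_pos x).ne'
    let c : ι := ⟨ConjClasses.mk (x ^ i), by
      rw [forall_carrier_iff, piEl_singleton_iff hp]; exact ⟨k, hk⟩⟩
    have h1 : ConjClasses.mk (a c) = ConjClasses.mk (x ^ i) := ha c
    rw [ConjClasses.mk_eq_mk_iff_isConj] at h1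
    obtain ⟨g, hg⟩ := isConj_iff.mp h1.symm
    have hy : g * x ^ j * g⁻¹ ∈ centralizer ({a c} : Set G) := by
      rw [mem_centralizer_singleton_iff, ← hg]
      have : x ^ j * x ^ i = x ^ i * x ^ j := by rw [← pow_add, ← pow_add, add_comm]
      calc g * x ^ j * g⁻¹ * (g * x ^ i * g⁻¹) = g * (x ^ j * x ^ i) * g⁻¹ := by group
        _ = g * (x ^ i * x ^ j) * g⁻¹ := by rw [this]
        _ = _ := by group
    let y : centralizer ({a c} : Set G) := ⟨g * x ^ j * g⁻¹, hy⟩
    have hyν : PiEl ν y := by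
      intro r hr hrd
      have h2 : orderOf y = orderOf (x ^ j) := by
        rw [Subgroup.orderOf_mk, orderOf_conj]
      rw [h2] at hrd
      have h3 := hc0 r hr (hrd.trans (orderOf_pow_dvd j))
      rcases Set.mem_insert_iff.mp h3 with h4 | h4
      · exfalso
        rw [h4] at hrd hr
        exact hr.ne_one (Nat.Coprime.eq_one_of_dvd (Nat.Coprime.coprime_dvd_left hrd hj) dvd_rfl)
      · exact h4
    let d : κ c := ⟨ConjClasses.mk y, by rw [forall_carrier_iff]; exact hyν⟩
    refine ⟨⟨c, d⟩, ?_⟩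
    apply Subtype.ext
    change ConjClasses.mk (a c * b c d) = ConjClasses.mk x
    have h5 : ConjClasses.mk (b c d) = ConjClasses.mk y := hb c d
    rw [ConjClasses.mk_eq_mk_iff_isConj] at h5
    obtain ⟨h, hh⟩ := isConj_iff.mp h5.symm
    rw [ConjClasses.mk_eq_mk_iff_isConj]
    apply IsConj.symm
    rw [isConj_iff]
    refine ⟨h * g, ?_⟩
    have hh' : (h : G) * (g * x ^ j * g⁻¹) * (h : G)⁻¹ = (b c d : G) := by
      have := congrArg Subtype.val hh
      exact this
    have hc1 : (h : G) * (a c) * (h : G)⁻¹ = a c := by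
      have := mem_centralizer_singleton_iff.mp h.2
      rw [this]; group
    calc (h : G) * g * x * ((h : G) * g)⁻¹ = (h : G) * g * (x ^ i * x ^ j) * ((h : G) * g)⁻¹ := by
          rw [← hij]
      _ = (h * (g * x ^ i * g⁻¹) * (h : G)⁻¹) * (h * (g * x ^ j * g⁻¹) * (h : G)⁻¹) := by group
      _ = a c * b c d := by rw [hg, hc1, hh']
  have h1 := Nat.card_le_card_of_surjective F hF
  rw [Nat.card_sigma] at h1
  exact h1

theorem pow_factorization_le {a b : ℕ} (r : ℕ) (hr : r.Prime) (hb : b ≠ 0) (h : a ∣ b) :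
    r ^ a.factorization r ≤ r ^ b.factorization r := by
  apply Nat.pow_le_pow_right hr.pos
  have ha : a ≠ 0 := by rintro rfl; exact hb (zero_dvd_iff.mp h)
  exact (Nat.factorization_le_iff_dvd ha hb).mpr h r

theorem kcl_singleton_le {G : Type u} [Group G] [Finite G] {p : ℕ} (hp : p.Prime) :
    kcl {p} G ≤ p ^ (Nat.card G).factorization p := by
  have : Fact p.Prime := ⟨hp⟩
  obtain ⟨P⟩ := (inferInstance : Nonempty (Sylow p G))
  refine (kcl_le_conjClasses P).trans ?_
  rw [← P.card_eq_multiplicity]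
  exact Nat.card_le_card_of_surjective ConjClasses.mk ConjClasses.mk_surjective

theorem kcl_insert_le_mul {G : Type u} [Group G] [Finite G] {p : ℕ} (hp : p.Prime) (ν : Set ℕ)
    (B : ℕ) (hB : ∀ x : G, kcl ν (centralizer ({x} : Set G)) ≤ B) :
    kcl (insert p ν) G ≤ kcl {p} G * B := by
  classical
  obtain ⟨ι, hι, a, hcard, h⟩ := kcl_insert_le (G := G) hp ν
  have := Fintype.ofFinite ι
  refine h.trans ((Finset.sum_le_sum (fun i _ => hB (a i))).trans ?_)
  rw [Finset.sum_const, Finset.card_univ, smul_eq_mul, ← hcard, Nat.card_eq_fintype_card]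

theorem kcl_le_prod (ν : Finset ℕ) (hν : ∀ r ∈ ν, r.Prime) :
    ∀ (G : Type u) [Group G] [Finite G],
      kcl (ν : Set ℕ) G ≤ ∏ r ∈ ν, r ^ (Nat.card G).factorization r := by
  classical
  induction ν using Finset.induction_on with
  | empty =>
    intro G _ _
    rw [Finset.prod_empty]
    have : Subsingleton {c : ConjClasses G // ∀ x ∈ c.carrier, PiEl ((∅ : Finset ℕ) : Set ℕ) x} := by
      constructor
      rintro ⟨c, hc⟩ ⟨d, hd⟩
      obtain ⟨x, rfl⟩ := ConjClasses.exists_rep c
      obtain ⟨y, rfl⟩ := ConjClasses.exists_rep d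
      rw [forall_carrier_iff] at hc hd
      have key : ∀ z : G, PiEl ((∅ : Finset ℕ) : Set ℕ) z → z = 1 := by
        intro z hz
        rw [← orderOf_eq_one_iff]
        by_contra hne
        obtain ⟨r, hr, hrd⟩ := Nat.exists_prime_and_dvd hne
        simpa using hz r hr hrd
      have := key x hc
      have := key y hd
      subst_vars
      rfl
    exact Finite.card_le_one_iff_subsingleton.mpr this
  | insert p ν hpν ih =>
    intro G _ _
    have hp : p.Prime := hν p (Finset.mem_insert_self _ _)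
    have hν' : ∀ r ∈ ν, r.Prime := fun r hr => hν r (Finset.mem_insert_of_mem hr)
    rw [Finset.prod_insert hpν, Finset.coe_insert]
    refine (kcl_insert_le_mul hp (ν : Set ℕ) (∏ r ∈ ν, r ^ (Nat.card G).factorization r) ?_).trans ?_
    · intro x
      refine (ih hν' _).trans ?_
      apply Finset.prod_le_prod' 
      intro r hr
      exact pow_factorization_le r (hν' r hr) Nat.card_pos.ne' (Subgroup.card_subgroup_dvd_card _)
    · exact Nat.mul_le_mul_right _ (kcl_singleton_le hp)

/-- `k_π(G)/|G|_π ≤ k_p(G)/|G|_p`. -/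
theorem kcl_le_mul {G : Type u} [Group G] [Finite G] (π : Finset ℕ) (hπ : ∀ r ∈ π, r.Prime)
    {p : ℕ} (hp : p ∈ π) :
    kcl (π : Set ℕ) G * p ^ (Nat.card G).factorization p ≤
      kcl {p} G * ∏ r ∈ π, r ^ (Nat.card G).factorization r := by
  classical
  have h1 : insert p (π.erase p) = π := Finset.insert_erase hp
  have h2 : kcl (π : Set ℕ) G ≤ kcl {p} G * ∏ r ∈ π.erase p, r ^ (Nat.card G).factorization r := by
    conv_lhs => rw [← h1, Finset.coe_insert]
    apply kcl_insert_le_mul (hπ p hp)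
    intro x
    refine (kcl_le_prod _ (fun r hr => hπ r (Finset.mem_of_mem_erase hr)) _).trans ?_
    apply Finset.prod_le_prod' 
    intro r hr
    exact pow_factorization_le r (hπ r (Finset.mem_of_mem_erase hr)) Nat.card_pos.ne'
      (Subgroup.card_subgroup_dvd_card _)
  calc _ ≤ (kcl {p} G * ∏ r ∈ π.erase p, r ^ (Nat.card G).factorization r) *
        p ^ (Nat.card G).factorization p := Nat.mul_le_mul_right _ h2
    _ = kcl {p} G * (p ^ (Nat.card G).factorization p *
        ∏ r ∈ π.erase p, r ^ (Nat.card G).factorization r) := by ring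
    _ = _ := by rw [Finset.mul_prod_erase π (fun r => r ^ (Nat.card G).factorization r) hp]

/-- The structure of a group that is `r`-nilpotent with abelian Sylow `r`-subgroup for `r ∈ σ`. -/
theorem structure_of_npc {K : Type u} [Group K] [Finite K] (σ : Finset ℕ)
    (hσ : ∀ r ∈ σ, r.Prime)
    (h : ∀ r ∈ σ, Cfsg.HasNormalPComplement r K ∧ ∀ P : Sylow r K, IsMulCommutative P) :
    ∃ N : Subgroup K, N.Characteristic ∧ (∀ r : ℕ, r.Prime → r ∣ Nat.card N → r ∉ σ) ∧
      (∀ r : ℕ, r.Prime → r ∣ N.index → r ∈ σ) ∧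
      ∃ H : Subgroup K, N.IsComplement' H ∧ IsMulCommutative H := by
  classical
  let N : Subgroup K := ⨅ r : σ, Cfsg.pResidual (r : ℕ) K
  have hNc : N.Characteristic := by
    have : ∀ r : σ, (Cfsg.pResidual (r : ℕ) K).Characteristic := fun r => inferInstance
    exact characteristic_iInf
  have hmem : ∀ x : K, x ∈ N ↔ ∀ r ∈ σ, x ∈ Cfsg.pResidual r K := by
    intro x
    simp only [N, mem_iInf]
    exact ⟨fun hx r hr => hx ⟨r, hr⟩, fun hx r => hx r r.2⟩
  have h1 : ∀ r : ℕ, r.Prime → r ∣ Nat.card N → r ∉ σ := by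
    intro r hr hrd hrσ
    have : Fact r.Prime := ⟨hr⟩
    obtain ⟨x, hx⟩ := exists_prime_orderOf_dvd_card' r hrd
    have h2 := (hmem x).1 x.2 r hrσ
    have h3 := (hasNPC_iff_forall_pResidual.1 (h r hrσ).1) _ h2
    rw [orderOf_coe, hx] at h3
    exact hr.ne_one (Nat.Coprime.eq_one_of_dvd h3 dvd_rfl)
  have h2 : ∀ r : ℕ, r.Prime → r ∣ N.index → r ∈ σ := by
    intro r hr hrd
    by_contra hrσ
    have : Fact r.Prime := ⟨hr⟩
    obtain ⟨S⟩ := (inferInstance : Nonempty (Sylow r K))
    apply S.not_dvd_index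
    refine hrd.trans (index_dvd_of_le ?_)
    intro x hx
    rw [hmem]
    intro q hq
    apply mem_pResidual_of_coprime
    obtain ⟨k, hk⟩ := IsPGroup.iff_orderOf.mp S.2 ⟨x, hx⟩
    rw [Subgroup.orderOf_mk] at hk
    rw [hk]
    apply Nat.Coprime.pow_left
    rw [Nat.coprime_primes hr (hσ q hq)]
    rintro rfl
    exact hrσ hq
  refine ⟨N, hNc, h1, h2, ?_⟩
  have hcop : Nat.Coprime (Nat.card N) N.index := by
    apply Nat.coprime_of_dvd
    intro q hq hq1 hq2
    exact h1 q hq hq1 (h2 q hq hq2)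
  obtain ⟨H, hH⟩ := Subgroup.exists_right_complement'_of_coprime hcop
  refine ⟨H, hH, ?_⟩
  apply IsMulCommutative.of_comm
  rintro ⟨a, ha⟩ ⟨b, hb⟩
  apply Subtype.ext
  change a * b = b * a
  have hab : a * b * a⁻¹ * b⁻¹ ∈ N := by
    rw [hmem]
    intro r hr
    have : Fact r.Prime := ⟨hσ r hr⟩
    obtain ⟨hn, hP⟩ := h r hr
    obtain ⟨P⟩ := (inferInstance : Nonempty (Sylow r K))
    obtain ⟨M, hM, hMc⟩ := (hasNPC_iff_sylow P).mp hn
    have hMr : M = Cfsg.pResidual r K := eq_pResidual_of_isComplement' P M hMc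
    rw [← hMr]
    obtain ⟨⟨m1, p1⟩, e1⟩ := hMc.surjective a
    obtain ⟨⟨m2, p2⟩, e2⟩ := hMc.surjective b
    have := hP P
    have hcm : (p1 : K) * p2 = p2 * p1 := by
      have := mul_comm' p1 p2
      exact congrArg Subtype.val this
    have q1 : (QuotientGroup.mk' M) a = (QuotientGroup.mk' M) p1 := by
      rw [← e1]
      simp
    have q2 : (QuotientGroup.mk' M) b = (QuotientGroup.mk' M) p2 := by
      rw [← e2]
      simp
    rw [← QuotientGroup.eq_one_iff, ← QuotientGroup.mk'_apply]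
    rw [map_mul, map_mul, map_mul, map_inv, map_inv, q1, q2, ← map_mul, hcm, map_mul]
    group
  have hab2 : a * b * a⁻¹ * b⁻¹ ∈ H :=
    mul_mem (mul_mem (mul_mem ha hb) (inv_mem ha)) (inv_mem hb)
  have h3 : a * b * a⁻¹ * b⁻¹ = 1 := by
    have := hH.disjoint
    rw [disjoint_iff] at this
    have h5 : a * b * a⁻¹ * b⁻¹ ∈ N ⊓ H := ⟨hab, hab2⟩
    rw [this] at h5
    exact mem_bot.mp h5
  have h4 : a * b = a * b * a⁻¹ * b⁻¹ * (b * a) := by group
  rw [h4, h3, one_mul]

end Cfsg.Agent.H65
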